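import Cfsg.Agent.Lib.CC.Odd
import Cfsg.Agent.Lib.Twisted.Invol

/-!
# Squares of semisimple classes in rank two groups: characteristic two
-/

set_option autoImplicit false

namespace Cfsg.Lib.CC

open Cfsg.Lib.BN Cfsg.Lib.Chev Cfsg.Lib.Chev.RootSys Cfsg.Lib.Chev.ChevSys Cfsg.Lib.Twisted Equiv
open Cfsg.Lib.Root Cfsg.Lib.St Matrix Cfsg.Lie
open scoped MatrixGroups

theorem transfer {A B : Type*} [Group A] [Group B] (e : B ≃* A) {p : ℕ}
    (h : ∃ x : A, ¬ p ∣ orderOf x ∧ ∀ g : A, g ≠ 1 → Sq x g) :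
    ∃ x : B, ¬ p ∣ orderOf x ∧ ∀ g : B, g ≠ 1 → Sq x g := by
  obtain ⟨x, h1, h2⟩ := h
  exact ⟨e.symm x, by rwa [MulEquiv.orderOf_eq], fun g hg => by
    simpa using (h2 (e g) (by simpa using hg)).map e.symm.toMonoidHom⟩

theorem eq_one_of_pow_two_pow {F : Type*} [Field F] [CharP F 2] {u : Fˣ} (k : ℕ)
    (h : u ^ 2 ^ k = 1) : u = 1 := by
  have : ((u : F) - 1) ^ 2 ^ k = 0 := by
    rw [sub_pow_char_pow, one_pow, ← Units.val_pow_eq_pow_val, h]; simp
  exact Units.ext (sub_eq_zero.1 (pow_eq_zero_iff (by positivity) |>.1 this))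

theorem two_eq_zero_iff {F : Type*} [Field F] (p : ℕ) [Fact p.Prime] [CharP F p] :
    (2 : F) = 0 ↔ p = 2 := by
  rw [← Nat.cast_ofNat, CharP.cast_eq_zero_iff F p, Nat.prime_dvd_prime_iff_eq Fact.out Nat.prime_two]

section
variable {ι Φ : Type} [Fintype ι] [DecidableEq ι] {R : RootSys ι Φ} {κ : Type} {T : Sym R κ}
  {F : Type*} [Field F] {G : Type*} [Group G] {C : ChevSys R F G}

theorem acts_n_two [CharP F 2] (r : Φ) : C.Acts (C.n r 1) (R.refl r) 1 :=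
  (C.acts_n_one r).congr rfl fun s => Units.ext ((mul_self_eq_one_iff.1
    (congrArg Units.val (C.eta_sq r s))).elim id (·.trans (CharTwo.neg_eq 1)))

theorem acts_nL [CharP F 2] (l : List Φ) : C.Acts (C.nL l) (wp R.refl l) 1 := by
  induction l with
  | nil => exact C.acts_one
  | cons r l ih => exact ((acts_n_two r).mul ih).congr rfl fun _ => mul_one _

variable [Fintype Φ] {S : Twist C T} {K : Subgroup G} {a b : κ} {E : Type*} [Field E]
  (L : Lev S K a b E)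

theorem Lev.commute_of_acts {m : G} {w : Perm Φ} {c : Φ → Fˣ} (h : C.Acts m w c)
    (hw : ∀ i, T.orb i = b → w (R.simple i) = R.simple i ∧ c (R.simple i) = 1) (A : SL(2, E)) :
    Commute m (L.φ A) := by
  refine (Subgroup.mem_centralizer_singleton_iff.1 (PreSys.XS_le.2 (fun r hr t =>
    Subgroup.mem_centralizer_singleton_iff.2 ?_) (L.φ_mem_L A))).symm
  rw [h.conj']
  rcases isPos_or_neg (R := R) r with h1 | h1
  · obtain ⟨i, hi, rfl⟩ := L.orth r ⟨h1, hr⟩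
    simp [hw i hi]
  · obtain ⟨i, hi, e⟩ := L.orth _ ⟨h1, InJ.neg hr⟩
    rw [R.neg_eq_iff.1 e, h.aut.neg, (hw i hi).1, (eq_inv_of_mul_eq_one_right (h.neg _) :), (hw i hi).2]
    simp

theorem Lev.fpf_of [Fintype E] {τ : E} (hi : Irr τ 1) {A : SL(2, E)} (h0 : Cl τ 1 (A : M2 E)) {z : G}
    (hz : z ∈ C.H ⊓ K) (hz' : ∀ A, Commute z (L.φ A))
    (h : ∀ y ∈ C.UJ (T.J b), z ^ (Fintype.card E + 1) * y * (z ^ (Fintype.card E + 1))⁻¹ = y →
      z * L.φ A * y * (z * L.φ A)⁻¹ = y → y = 1) : Fpf (z * L.φ A) (C.UJ (T.J b) ⊓ K) := by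
  refine ⟨fun y hy => conj_mem_inf (mul_mem (C.H_le_normalizer _ hz.1)
    (L_norm_UJ _ (L.φ_mem_L _))) (K.mul_mem hz.2 (L.φ_mem _)) hy, fun y hy e => h y hy.1 ?_ e⟩
  have := pow_conj_eq e (Fintype.card E + 1)
  rwa [(hz' A).mul_pow, ← map_pow, show A ^ (Fintype.card E + 1) = 1 from Subtype.ext (by
    rw [Matrix.SpecialLinearGroup.coe_pow, h0.pow_card_succ hi]; simp), map_one, mul_one] at this

theorem cl_A₀ (h2 : (2 : E) = 0) (τ : E) : Cl τ 1 ((wS 1 * xU τ : SL(2, E)) : M2 E) :=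
  ⟨by simp [wS_coe (one_ne_zero' E), trace_fin_two]; linear_combination -τ * h2,
    (wS 1 * xU τ : SL(2, E)).2⟩

variable {i₀ : ι} {j : E →+* F}
  (e1 : ∀ t, L.φ (xU t) = C.x (R.simple i₀) (j t))
  (e2 : ∀ t, L.φ (xL t) = C.x (R.neg (R.simple i₀)) (j t))
include e1 e2

theorem fpf_single [Fintype E] [CharP F 2] (hA : C.Adjoint) (hb : ∀ i, i ∈ [i₀] ↔ T.orb i = b)
    {τ : E} (hi : Irr τ 1) {c : ι → Fˣ} (hc : tor hA c ∈ K) (h1 : R.chr c (R.simple i₀) = 1) {r s : Φ}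
    (hs : R.sref i₀ r = s) (hr : 0 < fJ (T.J b) (R.α r)) (hrs : r ≠ s)
    (h2 : ∀ k, 0 < fJ (T.J b) (R.α k) → R.chr c k ^ (Fintype.card E + 1) = 1 → k = r ∨ k = s)
    (h3 : ∀ t u, C.x (R.simple i₀) u * C.x r t = C.x r t * C.x (R.simple i₀) u * C.x s (t * u))
    (h4 : ∀ t u, Commute (C.x s t) (C.x (R.simple i₀) u)) (h5 : ∀ t u, Commute (C.x r t) (C.x s u))
    (h6 : (R.chr c r : F) ^ 2 + j τ * R.chr c r + 1 ≠ 0) :
    Fpf (tor hA c * L.φ (wS 1 * xU τ)) (C.UJ (T.J b) ⊓ K) := by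
  have h2F : (2 : F) = 0 := CharTwo.two_eq_zero
  have h2E : (2 : E) = 0 := j.injective (by rw [map_ofNat, map_zero, h2F])
  refine L.fpf_of hi (cl_A₀ h2E τ) ⟨tor_mem _ _, hc⟩ (L.commute_of_acts (acts_tor hA c) fun i hi => ?_)
    fun y hy e e' => ?_
  · obtain rfl : i = i₀ := by simpa using (hb i).2 hi
    exact ⟨rfl, h1⟩
  rw [← map_pow] at e
  have h7 := mem_XS_of_tor L.tw.faithful hA hy (A := {c ^ (Fintype.card E + 1)}) (by simpa using e)
  have h8 : ∀ (n : ℕ) k, R.chr (c ^ n) k = R.chr c k ^ n := fun n k => by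
    induction n with
    | zero => simp [chr_one]
    | succ n ih => rw [pow_succ, pow_succ, chr_mul, ih]
  obtain ⟨t, u, rfl⟩ : ∃ t u, y = C.x r t * C.x s u := by
    refine PreSys.XS_induction (p := fun y => ∃ t u, y = C.x r t * C.x s u) h7 ⟨0, 0, by simp⟩ ?_
    rintro _ - k hk v ⟨t, u, rfl⟩
    rcases h2 k hk.1 (h8 _ _ ▸ hk.2 _ rfl) with rfl | rfl
    · exact ⟨t + v, u, by rw [mul_assoc, ← (h5 _ _).eq, C.x_add, mul_assoc]⟩
    · exact ⟨t, u + v, by rw [C.x_add, mul_assoc]⟩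
  have h9 : R.chr c s = R.chr c r := by
    rw [Twisted.chr_eq_prod, Twisted.chr_eq_prod c r]
    refine Finset.prod_congr rfl fun i _ => ?_
    by_cases hi : i = i₀
    · simp [hi, h1]
    · rw [← hs, α_sref_of_ne _ hi]
  have hn := acts_n_two (C := C) (R.simple i₀)
  rw [refl_simple] at hn
  have h10 : C.x (R.simple i₀) (j τ) * (C.x r t * C.x s u) * (C.x (R.simple i₀) (j τ))⁻¹ =
      C.x r t * C.x s (t * j τ + u) := by
    rw [← mul_assoc, h3, mul_assoc _ (C.x s _) (C.x s _), ← C.x_add, mul_assoc (C.x r t),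
      ← (h4 _ _).eq]; group
  rw [map_mul, φ_wS L e1 e2, e1, show ∀ a b c y : G, a * (b * c) * y * (a * (b * c))⁻¹ =
    a * (b * (c * y * c⁻¹) * b⁻¹) * a⁻¹ by intros; group, h10, ← conj_mul (b := C.n _ _), hn.conj, hn.conj, hs, ← hs,
    sref_sref, hs, ← (h5 _ _).eq, ← conj_mul, (acts_tor hA c).conj, (acts_tor hA c).conj, h9] at e'
  have := word_inj L.tw.faithful (f := fJ (T.J b)) (l := [r, s]) (by simpa using hrs)
    (by simp [hr, ← hs, fJ_sref (show i₀ ∈ T.J b from (hb i₀).1 (by simp))])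
    (t := [R.chr c r * (t * j τ + u), R.chr c r * t]) (t' := [t, u]) rfl rfl (by simpa using e')
  simp only [List.cons.injEq, and_true] at this
  have ht : t = 0 := (mul_eq_zero.1 (by
    linear_combination this.1 + R.chr c r * this.2 + t * h2F)).resolve_left h6
  rw [← this.2, ht]
  simp

end

variable {D : ChevalleyDatum} {c : Cert} (h : Checked D c) {F : Type*} [Field F] [CharP F 2]
  {κ : Type} {T : Sym h.R κ} {S : Twist (sysG h F) T} {K : Subgroup (D.group F)} {a b : κ}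
  {E : Type*} [Field E] (L : Lev S K a b E)

theorem exists_m {ρ : ℕ} (hρ : ∀ r, (T.ρ r).val = t8 ρ r) {J l : List ℕ}
    (hJ : T.J b = {i | i.val ∈ J}) (hw0 : ∀ r, wJ h.R Set.univ r = h.R.neg r)
    (hs : ∀ i, T.orb i = b → T.s b (h.R.simple i) = h.R.neg (h.R.simple i))
    (H : patB D c J l = true ∧ blkB D c ρ l = true ∧ blkB D c ρ (l.map (ngN D)) = true ∧
      eqW2 D (nW D l) (l ++ l.map (ngN D) ++ l) = true ∧
      ∀ r ∈ l, 0 < htN D c r ∧ inJB D c J r = false) :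
    ∃ m, (sysG h F).NW m (wJ h.R Set.univ * T.s b) ∧ (∀ A, Commute m (L.φ A)) ∧ L.Dec m 1 := by
  obtain ⟨h5, h1, h2, h3, h4⟩ := H
  simp only [patB, Bool.and_eq_true, lall_iff, Nat.blt_eq, decide_eq_true_eq, allTo_iff,
    Bool.or_eq_true, Bool.not_eq_true', decide_eq_false_iff_not, beq_iff_eq] at h5
  obtain ⟨⟨h7, h8⟩, h9⟩ := h5
  lift l to List (Fin D.nroots) using h7
  have h10 : h.R.Orth l := by simpa only [List.pairwise_map, prN_eq h] using h8
  have h11 := (sysG h F).nw_nL l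
  have h12 : wp h.R.refl l = wJ h.R Set.univ * T.s b := eq_of_isPos_iff h11.mem_W
    (mul_mem (wJ_mem_W _) (wJ_mem_W _)) fun r hr => by
      have h12 := (h9 r r.2).resolve_left (not_not.2 (htN_eq h r ▸ hr.ht_pos))
      have h13 : ¬ h.R.IsPos (T.s b r) ↔ h.R.InJ (T.J b) r :=
        ⟨fun e => by_contra fun e' => e ((isPos_apply_of_not_inJ (wJ_mem _) e').2 hr),
          fun e e' => (isPos_wJ_of_inJ e).1 e' hr⟩
      rw [Perm.mul_apply, isPos_wJ_univ, h13, hJ, isPos_iff_ht, ht_wp_refl h10, sub_pos, ← inJB_iff,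
        ← h12]
      simp only [List.map_map, Function.comp_def, prN_eq h, htN_eq h, decide_eq_true_eq]
  have h13 : ∀ r ∈ l, 0 < fJ (T.J b) (h.R.α r) := fun r hr => by
    have := h4 r.val (List.mem_map_of_mem hr)
    rw [fJ_pos_iff, hJ, ← inJB_iff, isPos_iff_ht, ← htN_eq]
    simpa using this
  have h14 : (l.map Fin.val).map (ngN D) = (l.map h.R.neg).map Fin.val := by
    simp only [List.map_map, Function.comp_def, h.neg_val, ngN_eq]
  have p : L.Pr (h.xl F (l.map Fin.val)) 1 := Lev.pr_Q ⟨by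
    rw [← h.xL_eq]
    exact wp_mem fun r hr => (sysG h F).x_mem (h13 r hr) 1, xl_mem h L.tw hρ h1⟩
  refine ⟨_, h12 ▸ h11, L.commute_of_acts (acts_nL l) fun i hi => ⟨?_, rfl⟩, _, 1, _, 1,
    h.xl F ((l.map Fin.val).map (ngN D)), ⟨?_, xl_mem h L.tw hρ h2⟩, p, p, ?_, (mul_one _).symm⟩
  · rw [h12, Perm.mul_apply, hs i hi, hw0, h.R.neg_neg]
  · rw [h14, ← h.xL_eq]
    refine wp_mem fun r hr => (sysG h F).x_mem ?_ 1
    obtain ⟨r, hr', rfl⟩ := List.mem_map.1 hr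
    show 0 < -fJ _ _
    rw [h.R.α_neg, map_neg, _root_.neg_neg]
    exact h13 r hr'
  · rw [h.nL_eq, h.xl_eq h3, Checked.xl, wp_append, wp_append]; rfl

end Cfsg.Lib.CC
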