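import Cfsg.Agent.Lib.CC.Even
import Cfsg.Agent.Lib.Twisted.AutF4
import Cfsg.Agent.Lib.Twisted.Transfer

/-!
# The square of a semisimple class in the large Ree groups
-/

set_option autoImplicit false

namespace Cfsg.Lib.CC

open Cfsg.Lib.BN Cfsg.Lib.Chev Cfsg.Lib.Chev.RootSys Cfsg.Lib.Chev.ChevSys Cfsg.Lib.Twisted
open Cfsg.Lib.Root Cfsg.Lib.St Cfsg.Lie Matrix
open scoped MatrixGroups

theorem s_F4 (i : Fin 4) : symF4.s (symF4.orb i) (RF4.simple i) = RF4.neg (RF4.simple i) := by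
  rw [keysF4.s_eq]
  refine Fin.ext ((wp_val checkedF4 _ _).trans ?_)
  revert i
  decide +kernel

theorem coef_F4 (r : Fin 48) (h : 0 < fJ (symF4.J 0) (RF4.α r)) : (RF4.α r 1, RF4.α r 2) ∈
    [(1, 0), (0, 1), (1, 1), (2, 1), (2, 2), (3, 2), (4, 2), (4, 3)] := by
  rw [fJ_pos_iff] at h
  change ((∀ i : Fin 4, 0 ≤ aN chevF4 certF4 r i) ∧
    ¬ ∀ i : Fin 4, ¬ orbF4 i = 0 → aN chevF4 certF4 r i = 0) at h
  change (aN chevF4 certF4 r 1, aN chevF4 certF4 r 2) ∈ _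
  revert r
  decide +kernel

variable {K : Type*} [Field K] {m : ℕ} {S : Twist (CF4 K) symF4} {φ ψ : K →+* K}
  (h : Twisted.IsF4 m S φ ψ)
include h

theorem exists_lev_F4 : Nonempty (Lev S (KF4 K (2 ^ m)) 1 0 K) := by
  have := h.finite
  obtain ⟨φ₀, a1, a2, -⟩ := (faithful_F4 (K := K)).exists_sl2 adjoint_F4.hMul (isPos_simple 0)
  obtain ⟨φ₃, b1, b2, -⟩ := (faithful_F4 (K := K)).exists_sl2 adjoint_F4.hMul (isPos_simple 3)
  have hc : ∀ A B, Commute (φ₀ A) (φ₃ B) := fun A B => commute_of_orth (i := 0) (j := 3) (by decide)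
    A03_F4 (sl2_mem (fun t => a1 t ▸ x_mem_Lv 0 t) (fun t => a2 t ▸ x_neg_mem_Lv 0 t) A)
    (sl2_mem (fun t => b1 t ▸ x_mem_Lv 3 t) (fun t => b2 t ▸ x_neg_mem_Lv 3 t) B)
  let Φ : SL(2, K) →* chevF4.group K := MonoidHom.mk'
    (fun A => φ₀ (Matrix.SpecialLinearGroup.map φ A) * φ₃ A) fun A B => by
      rw [map_mul, map_mul, map_mul, (hc _ _).symm.mul_mul_mul_comm]
  have c1 : ∀ t, Matrix.SpecialLinearGroup.map φ (xU t) = xU (φ t) := fun t =>
    sl2_ext (by simp) (by simp) (by simp) (by simp)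
  have c2 : ∀ t, Matrix.SpecialLinearGroup.map φ (xL t) = xL (φ t) := fun t =>
    sl2_ext (by simp) (by simp) (by simp) (by simp)
  have e1 : ∀ t, Φ (xU t) = (CF4 K).x (RF4.simple 0) (φ t) * (CF4 K).x (RF4.simple 3) t := fun t => by
    rw [← a1, ← b1, ← c1]; rfl
  have e2 : ∀ t, Φ (xL t) = (CF4 K).x (RF4.neg (RF4.simple 0)) (φ t) *
      (CF4 K).x (RF4.neg (RF4.simple 3)) t := fun t => by
    rw [← a2, ← b2, ← c2]; rfl
  have e3 : ∀ t : Kˣ, Φ (wS t) = (CF4 K).n (RF4.simple 0) (Units.map (φ : K →* K) t) *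
      (CF4 K).n (RF4.simple 3) t := fun t => by
    change φ₀ _ * φ₃ _ = _
    simp [wS, c1, c2, a1, a2, b1, b2, PreSys.n]
  have hX : ∀ g, g ∈ S.X 0 ↔ ∃ t, g = Φ (xU t) := fun g => by
    simp only [h.mem_X0, e1, simple_F4]; rfl
  refine ⟨⟨Φ, h.isTw, sysG_grp checkedF4 K, by decide, by decide, fun r hr => ?_, hX, fun t => ?_,
    fun t => ?_, fun n hn hw => ?_, fun n hn w c hc hw => ?_⟩⟩
  · obtain ⟨i, hi, rfl⟩ := List.mem_map.1 ((Twist.mem_posJ_iff orb0_F4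
      (Twist.orth_two (by decide) A03_F4)).2 hr)
    exact ⟨i, (orb0_F4 i).1 hi, rfl⟩
  · rw [e2, neg_simple_F4, neg_simple_F4]; exact h.mem_Y0 t
  · rw [e3, keysF4.s_eq]
    simpa [refl_simple, keysF4] using (nw_n (C := CF4 K) (RF4.simple 0) _).mul (nw_n (RF4.simple 3) _)
  · obtain ⟨n₀, h0⟩ := exists_MK h.isTw 1
    obtain ⟨c, hc, e⟩ := h.H_inf.le (x := n * n₀⁻¹) ⟨NW.mem_H (by simpa using hw.mul h0.1.inv),
      (KF4 K _).mul_mem hn ((KF4 K _).inv_mem (h0.mem h.isTw))⟩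
    obtain ⟨t1, t2, t3, t4⟩ := h.mem_TFix.1 hc
    have e4 : Φ (wS (c 3 : K) * (wS ((1 : Kˣ) : K))⁻¹) = tor adjoint_F4 ![c 0, 1, 1, c 3] := by
      rw [map_mul, map_inv, e3, e3, map_one, show Units.map (φ : K →* K) (c 3) = c 0 from
        Units.ext t4.symm, show ![c 0, 1, 1, c 3] = Pi.mulSingle 0 (c 0) * Pi.mulSingle 3 (c 3) by
          funext i; fin_cases i <;> simp, map_mul, tor_mulSingle, tor_mulSingle, PreSys.h_def,
        PreSys.h_def, (commute_of_orth (by decide) A03_F4 (n_mem_Lv 0 1) (n_mem_Lv 3 1)).mul_inv,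
        (commute_of_orth (by decide) A03_F4 (inv_mem (n_mem_Lv 0 1))
          (n_mem_Lv 3 _)).symm.mul_mul_mul_comm]
    have e5 : (![1, c 1, c 2, 1] : Fin 4 → Kˣ) = Pi.mulSingle 1 (c 1) * Pi.mulSingle 2 (c 2) := by
      funext i; fin_cases i <;> simp
    have e6 : n₀ * tor adjoint_F4 ![1, c 1, c 2, 1] * n₀⁻¹ = (tor adjoint_F4 ![1, c 1, c 2, 1])⁻¹ := by
      obtain ⟨d, hd⟩ := h0.1.exists_acts
      have key : ∀ i t, symF4.orb i = 1 → n₀ * tor adjoint_F4 (Pi.mulSingle i t) * n₀⁻¹ =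
          (tor adjoint_F4 (Pi.mulSingle i t))⁻¹ := fun i t hi => by
        rw [tor_mulSingle, adjoint_F4.hMul.conj_h hd, ← hi, s_F4, h_eq_tor adjoint_F4,
          h_eq_tor adjoint_F4, ← map_inv, co_neg]
        congr 1
        funext j
        simp
      rw [e5, map_mul, ← conj_mul, key _ _ rfl, key _ _ rfl, ← map_inv, ← map_inv, ← map_mul,
        ← map_mul, ← map_inv, mul_inv]
    have e7 := h.H_inf.ge ⟨![1, c 1, c 2, 1], by simp [h.mem_TFix, t2, h.φψ], rfl⟩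
    obtain ⟨k, ⟨j, rfl⟩, e8⟩ := exists_mul_self_eq
      (A := Subgroup.zpowers (tor adjoint_F4 ![1, c 1, c 2, 1])) (n := Nat.card Kˣ) (by
        rw [Nat.card_units, h.card]
        exact Nat.Even.sub_odd Nat.one_le_two_pow ((Nat.even_pow' (by omega)).2 even_two) odd_one)
      (by
        rintro _ ⟨j, rfl⟩
        simp only
        rw [← map_zpow, ← map_pow, show ∀ c : Fin 4 → Kˣ, c ^ Nat.card Kˣ = 1 from
          fun c => funext fun i => pow_card_eq_one', map_one]) (Subgroup.mem_zpowers _)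
    simp only at e8
    refine ⟨(wS (c 3 : K) * (wS ((1 : Kˣ) : K))⁻¹)⁻¹, by
      rw [map_inv, e4]; exact inv_mem (tor_mem _ _), ?_⟩
    convert h0.conj h.isTw ((CF4 K).H.zpow_mem e7.1 j) ((KF4 K _).zpow_mem e7.2 j) using 1
    have e9 : n₀ * (tor adjoint_F4 ![1, c 1, c 2, 1] ^ j)⁻¹ =
        tor adjoint_F4 ![1, c 1, c 2, 1] ^ j * n₀ := by
      rw [← mul_inv_eq_iff_eq_mul, ← conj_inv, ← conj_zpow, e6, _root_.inv_zpow, inv_inv]
    rw [mul_assoc, e9, ← mul_assoc, e8, map_inv, e4, eq_mul_of_mul_inv_eq e.symm, ← mul_assoc,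
      ← map_inv, ← map_mul]
    congr 2
    funext i; fin_cases i <;> simp
  · have h3 := hw 0 rfl
    have h4 := hw 3 rfl
    have h5 := h.isTw.pos 0 ((hX _).2 ⟨1, rfl⟩)
    have h6 : n * Φ (xU 1) * n⁻¹ ∈ (CF4 K).XS (posJ RF4 (symF4.J 0)) := by
      rw [e1, ← conj_mul, hc.conj, hc.conj, h3, h4]
      have k : ∀ i, symF4.orb i = 0 → ∀ t, (CF4 K).x (RF4.simple i) t ∈
        (CF4 K).XS (posJ RF4 (symF4.J 0)) := fun i hi t => (CF4 K).x_mem (simple_mem_posJ (symF4.mem_J.2 hi)) t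
      exact Subgroup.mul_mem _ (k 0 (by decide) _) (k 3 (by decide) _)
    obtain ⟨t, ht⟩ := (hX (n * Φ (xU 1) * n⁻¹)).1 ⟨h6,
      h.isTw.le_fix ((KF4 K _).mul_mem ((KF4 K _).mul_mem hn h5) ((KF4 K _).inv_mem hn))⟩
    rw [e1, e1, ← conj_mul, hc.conj, hc.conj, h3, h4, map_one, mul_one, mul_one] at ht
    have := word_inj (faithful_F4 (K := K)) (f := htL _) (l := [RF4.simple 0, RF4.simple 3])
      (by simp [simple_F4]) (by simpa using ⟨(isPos_simple 0).ht_pos, (isPos_simple 3).ht_pos⟩)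
      (t := [c (RF4.simple 0), c (RF4.simple 3)]) (t' := [φ t, t]) rfl rfl (by simpa using ht)
    simp only [List.cons.injEq, and_true] at this
    refine ⟨c (RF4.simple 3), fun u => ?_, fun u => ?_⟩
    · rw [e1, e1, ← conj_mul, hc.conj, hc.conj, h3, h4, map_mul, this.1, this.2]
    · rw [e2, e2, ← conj_mul, hc.conj, hc.conj, hc.aut.neg, hc.aut.neg, h3, h4,
        (eq_inv_of_mul_eq_one_right (hc.neg (RF4.simple 0)) :),
        (eq_inv_of_mul_eq_one_right (hc.neg (RF4.simple 3)) :)]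
      simp [this.1, this.2]

theorem sq_KF4 (hm : 1 ≤ m) :
    ∃ x : KF4 K (2 ^ m), ¬ 2 ∣ orderOf x ∧ ∀ g, g ≠ 1 → Sq x g := by
  have := h.finite
  have := Fintype.ofFinite K
  have : CharP K 2 := CharTwo.of_one_ne_zero_of_two_eq_zero one_ne_zero h.two
  have := (h.simple hm).1
  obtain ⟨L⟩ := exists_lev_F4 h
  obtain ⟨n, h4, h5, h6⟩ := exists_m checkedF4 L (ρ := ρF4) (J := [0, 3]) (l := [39, 45])
    (fun _ => rfl) (Set.ext fun i : Fin 4 => by
      change orbF4 i = 0 ↔ i.val ∈ [0, 3]; revert i; decide) w0_F4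
    (fun (i : Fin 4) hi => hi ▸ s_F4 i) (by decide +kernel)
  obtain ⟨τ, hi⟩ := exists_irr (d := (1 : K)) one_ne_zero
  obtain ⟨t, ht⟩ := exists_sq_ne_one (K := K) (by
    rw [h.card]
    exact (by decide : 3 < 2 ^ 3).trans_le (Nat.pow_le_pow_right two_pos (by omega)))
  replace ht : t ≠ 1 := fun e => ht (by simp [e])
  set f : Kˣ →* Kˣ := Units.map (ψ : K →* K)
  set s := f t with hs
  have h1 : f s = t ^ 2 := Units.ext (by
    change ψ (ψ t) = t ^ 2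
    rw [h.ψ_eq, h.φψ])
  set c : Fin 4 → Kˣ := ![t ^ 3 * s ^ 2, t ^ 6 * s ^ 4, t ^ 8 * s ^ 6, t ^ 4 * s ^ 3] with hc
  have h7 : ∀ j, RF4.chr c (RF4.simple j) = ![1, t, s, 1] j := fun j => by
    rw [Twisted.chr_simple]
    refine Units.ext ?_
    fin_cases j <;> simp [RF4_A, Fin.prod_univ_four, hc] <;> field_simp
  have h8 : tor adjoint_F4 c ∈ KF4 K (2 ^ m) := by
    have e1 : c 3 = f (c 0) := by simp [hc, h1, ← hs, ← pow_mul, mul_comm]
    have e2 : c 2 = f (c 1) := by simp [hc, h1, ← hs, ← pow_mul, mul_comm]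
    refine (h.H_inf.ge ⟨c, h.mem_TFix.2 ⟨congrArg Units.val e1, congrArg Units.val e2, ?_, ?_⟩, rfl⟩).2
    · rw [e2]; exact (h.φψ _).symm
    · rw [e1]; exact (h.φψ _).symm
  have h9 := L.commute_of_acts (acts_tor adjoint_F4 c) fun i hi => ⟨rfl, by
    have := (orb0_F4 i).2 hi
    simp only [List.mem_cons, List.not_mem_nil, or_false] at this
    rcases this with rfl | rfl <;> exact h7 _⟩
  refine L.sq_two h.two h.two adjoint_F4 w0_F4 (fun e => ?_) h4 h5 h6 hi (cl_A₀ h.two τ)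
    ⟨tor_mem _ _, h8⟩ h9 (L.fpf_of hi (cl_A₀ h.two τ) ⟨tor_mem _ _, h8⟩ h9 fun y hy e _ => ?_)
  · have := orderOf_dvd_of_pow_eq_one e
    rw [keysF4.orderOf_eq (k := 1) (l := 0) (m := 8) (by decide) (by decide +kernel)] at this
    omega
  · rw [← map_pow, show c ^ (Fintype.card K + 1) = c * c from funext fun i => Units.ext (by
      simp [pow_succ, FiniteField.pow_card])] at e
    refine Subgroup.mem_bot.1 (PreSys.XS_le.2 (fun r hr u => absurd (hr.2 _ rfl) fun e => ?_)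
      (mem_XS_of_tor faithful_F4 adjoint_F4 hy (A := {c * c}) (by simpa using e)))
    rw [chr_mul, ← sq] at e
    have e1 := eq_one_of_pow_two_pow 1 e
    rw [Twisted.chr_eq_prod, Fin.prod_univ_four, h7, h7, h7, h7] at e1
    have key : ∀ x y : ℤ, t ^ x * s ^ y = 1 → t ^ (x * x - 2 * y * y) = 1 := fun x y e => by
      have e2 := congrArg f e
      rw [map_mul, map_zpow, map_zpow, h1, ← hs, map_one] at e2
      calc t ^ (x * x - 2 * y * y) = (t ^ x * s ^ y) ^ x / (s ^ x * (t ^ 2) ^ y) ^ y := by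
            simp only [mul_zpow, ← _root_.zpow_mul, ← zpow_natCast, mul_comm x y, _root_.zpow_sub, div_eq_mul_inv]
            simp [mul_comm, mul_left_comm, mul_assoc]
        _ = 1 := by rw [e, e2]; simp
    have e2 := key _ _ (by simpa using e1)
    have := coef_F4 r hr.1
    simp only [List.mem_cons, List.not_mem_nil, or_false, Prod.mk.injEq] at this
    rcases this with ⟨a, b⟩ | ⟨a, b⟩ | ⟨a, b⟩ | ⟨a, b⟩ | ⟨a, b⟩ | ⟨a, b⟩ | ⟨a, b⟩ | ⟨a, b⟩ <;>
      rw [a, b] at e2 <;> norm_num [zpow_ofNat] at e2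
    exacts [ht e2, ht (eq_one_of_pow_two_pow 1 e2), ht e2, ht (eq_one_of_pow_two_pow 1 e2),
      ht (eq_one_of_pow_two_pow 2 e2), ht e2, ht (eq_one_of_pow_two_pow 3 e2),
      ht (eq_one_of_pow_two_pow 1 e2)]

omit h in
theorem sq_2F4 {M : Type*} [Group M] (hM : Iso2F4 M) :
    ∃ x : M, ¬ 2 ∣ orderOf x ∧ ∀ g, g ≠ 1 → Sq x g := by
  obtain ⟨K, _, _, m, hm, hK, ⟨e⟩⟩ := hM
  obtain ⟨S, φ, ψ, h⟩ := exists_isF4 hK
  exact transfer (e.trans (equivOfMap (Subgroup.subtype_injective _) map_KF4)) (sq_KF4 h hm)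

end Cfsg.Lib.CC
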