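import Cfsg.Agent.Lib.CC.Gauss

/-!
# Rank two groups: elements conjugate into `Q⁻ SL₂ Q`
-/

set_option autoImplicit false

namespace Cfsg.Lib.CC

open Cfsg.Lib.BN Cfsg.Lib.Chev Cfsg.Lib.Chev.RootSys Cfsg.Lib.Chev.ChevSys Cfsg.Lib.Twisted Equiv
open Cfsg.Lib.Root Cfsg.Lib.St Matrix
open scoped MatrixGroups

theorem sl2_mem {E G : Type*} [Field E] [Group G] {φ : SL(2, E) →* G} {M : Subgroup G}
    (h1 : ∀ t, φ (xU t) ∈ M) (h2 : ∀ t, φ (xL t) ∈ M) (A : SL(2, E)) : φ A ∈ M := by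
  have : (⊤ : Subgroup SL(2, E)) ≤ M.comap φ := by
    rw [← upper_sup_lower]
    refine sup_le (fun g hg => ?_) fun g hg => ?_
    · obtain ⟨t, rfl⟩ := mem_upper_iff.1 hg; exact h1 t
    · obtain ⟨t, rfl⟩ := mem_lower_iff.1 hg; exact h2 t
  exact this (Subgroup.mem_top A)

theorem sl2_hom_ext {E G : Type*} [Field E] [Group G] {φ ψ : SL(2, E) →* G}
    (h1 : ∀ t, φ (xU t) = ψ (xU t)) (h2 : ∀ t, φ (xL t) = ψ (xL t)) (A : SL(2, E)) : φ A = ψ A :=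
  sl2_mem (φ := MonoidHom.id _) (M := φ.eqLocus ψ) h1 h2 A

variable {ι Φ : Type} [Fintype ι] [DecidableEq ι] {R : RootSys ι Φ} {κ : Type} {T : Sym R κ}
  {F : Type*} [Field F] {G : Type*} [Group G] {C : ChevSys R F G} [Fintype Φ]

theorem eq_of_comm {a b : κ} (hab : a ≠ b) (all : ∀ k, k = a ∨ k = b) {y : Perm Φ} (hy : y ∈ T.W1)
    (h : y * T.s b = T.s b * y) : y = 1 ∨ y = T.s b ∨ y = wJ R Set.univ * T.s b ∨ y = wJ R Set.univ := by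
  have key : ∀ y ∈ T.W1, y * T.s b = T.s b * y → ¬ T.Desc y b →
      y = 1 ∨ y = wJ R Set.univ * T.s b := by
    intro y hy h hb
    by_cases ha : T.Desc y a
    · right
      have h1 : y * T.s b = wJ R Set.univ := by
        refine eq_wJ (mem_WJ_univ.2 (T.W1.mul_mem hy (Sym.s_mem b)).1) fun i _ => ?_
        rcases all (T.orb i) with e | e
        · have h2 : ¬ R.InJ (T.J b) (y (R.simple i)) := fun h2 => by
            have h3 := Sym.conj_s hy h2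
            rw [e, ← mul_inv_eq_iff_eq_mul.2 h, mul_left_inj, mul_right_inj] at h3
            exact hab (Sym.s_injective h3)
          rw [h, Perm.mul_apply, Sym.s, isPos_apply_of_not_inJ (wJ_mem _) h2]
          exact (Sym.desc_iff hy).1 (e ▸ ha)
        · exact (Sym.desc_iff (T.W1.mul_mem hy (Sym.s_mem b))).1 (by
            rw [e]; exact (Sym.desc_mul_s hy).2 hb)
      rw [← h1, mul_assoc, Sym.s_mul_self, mul_one]
    · left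
      by_contra h1
      obtain ⟨k, hk⟩ := Sym.exists_desc hy h1
      rcases all k with rfl | rfl
      exacts [ha hk, hb hk]
  by_cases hb : T.Desc y b
  · rcases key (y * T.s b) (T.W1.mul_mem hy (Sym.s_mem b)) (by rw [← mul_assoc, h])
      (by rw [Sym.desc_mul_s hy, not_not]; exact hb) with e | e
    · exact Or.inr (Or.inl (by rw [mul_eq_one_iff_eq_inv.1 e, Sym.s_inv]))
    · exact Or.inr (Or.inr (Or.inr (mul_right_cancel e)))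
  · rcases key y hy h hb with e | e
    exacts [Or.inl e, Or.inr (Or.inr (Or.inl e))]

/-- A twisted group of rank two in which the node `b` has type `SL₂(E)`. -/
structure Lev (S : Twist C T) (K : Subgroup G) (a b : κ) (E : Type*) [Field E] where
  φ : SL(2, E) →* G
  tw : S.IsTw K
  top : C.grp = ⊤
  ne : a ≠ b
  all : ∀ k, k = a ∨ k = b
  orth : ∀ r ∈ posJ R (T.J b), ∃ i, T.orb i = b ∧ r = R.simple i
  X_iff : ∀ g, g ∈ S.X b ↔ ∃ t, g = φ (xU t)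
  Y_mem : ∀ t, φ (xL t) ∈ S.Y b
  nw' : ∀ t : Eˣ, C.NW (φ (wS t)) (T.s b)
  axa : ∀ n ∈ K, C.NW n (T.s a) → ∃ A, φ A ∈ C.H ∧ MK S a (φ A * n)
  act : ∀ n ∈ K, ∀ w c, C.Acts n w c → (∀ i, T.orb i = b → w (R.simple i) = R.simple i) →
    ∃ s : Eˣ, (∀ t, n * φ (xU t) * n⁻¹ = φ (xU (s * t))) ∧
      ∀ t, n * φ (xL t) * n⁻¹ = φ (xL ((s⁻¹ : Eˣ) * t))

namespace Lev

variable {S : Twist C T} {K : Subgroup G} {a b : κ} {E : Type*} [Field E] (L : Lev S K a b E)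

theorem nw : C.NW (L.φ (wS 1)) (T.s b) := L.nw' 1

theorem X_mem (t : E) : L.φ (xU t) ∈ S.X b := (L.X_iff _).2 ⟨t, rfl⟩

theorem φ_mem (A : SL(2, E)) : L.φ A ∈ K :=
  sl2_mem (fun t => L.tw.pos b (L.X_mem t)) (fun t => L.tw.Y_le b (L.Y_mem t)) A

theorem φ_mem_L (A : SL(2, E)) : L.φ A ∈ C.XS {r | R.InJ (T.J b) r} :=
  sl2_mem (fun t => C.XS_mono (fun _ h => h.2) (L.X_mem t).1)
    (fun t => C.XS_mono (fun _ h => h.2) (L.Y_mem t).1) A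

theorem exists_Y {y : G} (hy : y ∈ S.Y b) : ∃ t, y = L.φ (xL t) := by
  obtain ⟨t, ht⟩ := (L.X_iff (L.φ (wS 1) * y * (L.φ (wS 1))⁻¹)).1
    ⟨NW.conj_mem L.nw (fun r hr => wJ_mem_posJ.2 hr) hy.1, L.tw.le_fix (K.mul_mem
      (K.mul_mem (L.φ_mem _) (L.tw.Y_le b hy)) (K.inv_mem (L.φ_mem _)))⟩
  refine ⟨-t, mul_left_cancel (a := L.φ (wS 1)) ?_⟩
  rw [mul_inv_eq_iff_eq_mul.1 ht, ← map_mul, ← map_mul, wS_mul_xL one_ne_zero]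
  simp

theorem mk_b : MK S b (L.φ (wS 1)) :=
  ⟨L.nw, _, L.X_mem 1, _, L.Y_mem (-1⁻¹), _, L.X_mem 1, by rw [wS, map_mul, map_mul]⟩

include L in
theorem exists_mu {w : Perm Φ} (hw : w ∈ T.W1) (h1 : w ≠ 1) (h2 : w ≠ T.s b) :
    ∀ n ∈ K, C.NW n w → ∃ A, L.φ A ∈ C.H ∧ MU C K (L.φ A * n) := by
  suffices (w = 1 ∨ w = T.s b) ∨ ∀ n ∈ K, C.NW n w → ∃ A, L.φ A ∈ C.H ∧ MU C K (L.φ A * n) by tauto
  clear h1 h2
  refine Sym.induction_asc (p := fun w => (w = 1 ∨ w = T.s b) ∨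
    ∀ n ∈ K, C.NW n w → ∃ A, L.φ A ∈ C.H ∧ MU C K (L.φ A * n)) (Or.inl (Or.inl rfl)) ?_ hw
  rintro w - k hk ((rfl | rfl) | ih)
  · rcases L.all k with rfl | rfl
    · refine Or.inr fun n hn h => ?_
      obtain ⟨A, h1, h2⟩ := L.axa n hn (by simpa using h)
      exact ⟨A, h1, h2.mu L.tw⟩
    · exact Or.inl (Or.inr (one_mul _))
  · rcases L.all k with rfl | rfl
    · refine Or.inr fun n hn h => ?_
      obtain ⟨A, h1, h2⟩ := L.axa ((L.φ (wS 1))⁻¹ * n) (K.mul_mem (K.inv_mem (L.φ_mem _)) hn)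
        (by simpa using L.nw.inv.mul h)
      refine ⟨wS 1 * A * (wS 1)⁻¹, ?_, ?_⟩
      · rw [map_mul, map_mul, map_inv]; exact C.conj_mem_H L.nw.mem_N h1
      · have := (L.mk_b.mu L.tw).mul L.tw L.nw hk h2
        simpa [mul_assoc] using this
    · exact absurd (Sym.desc_s k) hk
  · refine Or.inr fun n hn h => ?_
    obtain ⟨m, hm⟩ := exists_MK L.tw k
    have h3 : C.NW (n * m⁻¹) w := by simpa using h.mul hm.1.inv
    obtain ⟨A, h1, h2⟩ := ih (n * m⁻¹) (K.mul_mem hn (K.inv_mem (hm.mem L.tw))) h3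
    exact ⟨A, h1, by
      simpa [mul_assoc] using h2.mul L.tw (by simpa using (nw_of_mem_H h1).mul h3) hk hm⟩

/-- the component of `r` in `SL₂` is `A` -/
def Pr (r : G) (A : SL(2, E)) : Prop := ∃ q ∈ C.UJ (T.J b) ⊓ K, r = L.φ A * q

variable {L}

theorem Pr.mul {r r' : G} {A A' : SL(2, E)} (h : L.Pr r A) (h' : L.Pr r' A') :
    L.Pr (r * r') (A * A') := by
  obtain ⟨q, hq, rfl⟩ := h
  obtain ⟨q', hq', rfl⟩ := h'
  exact ⟨_, mul_mem (inv_conj_mem_inf (L_norm_UJ _ (L.φ_mem_L A')) (L.φ_mem A') hq) hq',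
    by rw [map_mul]; group⟩

theorem Pr.mem {r : G} {A : SL(2, E)} (h : L.Pr r A) : r ∈ K := by
  obtain ⟨q, hq, rfl⟩ := h
  exact K.mul_mem (L.φ_mem A) hq.2

theorem pr_φ (A : SL(2, E)) : L.Pr (L.φ A) A := ⟨1, one_mem _, (mul_one _).symm⟩

theorem pr_Q {q : G} (hq : q ∈ C.UJ (T.J b) ⊓ K) : L.Pr q 1 := ⟨q, hq, by simp⟩

theorem pr_U {u : G} (hu : u ∈ C.U ⊓ K) : ∃ t, L.Pr u (xU t) := by
  obtain ⟨x, hx, q, hq, rfl⟩ := split_U L.tw b hu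
  obtain ⟨t, rfl⟩ := (L.X_iff x).1 hx
  exact ⟨t, q, hq, rfl⟩

variable (L) in
/-- `g` is conjugate to an element of `Q⁻ A Q` -/
def Cov (g : G) (A : SL(2, E)) : Prop :=
  ∃ v ∈ Qm C (T.J b) ⊓ K, ∃ r, L.Pr r A ∧ ConjK K g (v * r)

theorem Cov.of_conj {g g' : G} {A : SL(2, E)} (h : L.Cov g' A) (e : ConjK K g g') : L.Cov g A := by
  obtain ⟨v, hv, r, hr, h⟩ := h
  exact ⟨v, hv, r, hr, e.trans h⟩

variable (L) in
/-- `n ∈ Q A₁ Q⁻ A₂ Q` with `A₁ A₂ = A` -/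
def Dec (n : G) (A : SL(2, E)) : Prop := ∃ r₁ A₁ r₂ A₂, ∃ v ∈ Qm C (T.J b) ⊓ K,
  L.Pr r₁ A₁ ∧ L.Pr r₂ A₂ ∧ n = r₁ * v * r₂ ∧ A = A₁ * A₂

theorem Dec.cov {n r : G} {A B : SL(2, E)} (h : L.Dec n A) (hr : L.Pr r B) : L.Cov (n * r) (A * B) := by
  obtain ⟨_, A₁, r₂, A₂, v, hv, ⟨q, hq, rfl⟩, h2, rfl, rfl⟩ := h
  have h3 := conj_mem_inf (L_norm_UJ _ (L.φ_mem_L A₁)) (L.φ_mem A₁) hq
  refine ⟨_, conj_mem_inf (L_norm_Qm _ (L.φ_mem_L A₁)) (L.φ_mem A₁) hv, _,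
    by simpa using (((pr_φ A₁).mul h2).mul hr).mul (pr_Q h3), _, K.inv_mem h3.2, by group⟩

variable (L) in
theorem exists_dec {w : Perm Φ} (h1 : w ≠ 1) (h2 : w ≠ T.s b) {n : G} (hn : n ∈ K) (h : C.NW n w) :
    ∃ A, L.Dec n A := by
  obtain ⟨A, -, u, hu, v, hv, u', hu', e⟩ := L.exists_mu (L.tw.mem_W1_of_nw hn h) h1 h2 n hn h
  obtain ⟨q, hq, y, hy, rfl⟩ := split_V L.tw b hv
  obtain ⟨t, rfl⟩ := L.exists_Y hy
  obtain ⟨s, hs⟩ := pr_U (L := L) hu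
  obtain ⟨s', hs'⟩ := pr_U (L := L) hu'
  refine ⟨_, _, _, _, _, q, hq, (pr_φ A⁻¹).mul hs, (pr_φ (xL t)).mul hs', ?_, rfl⟩
  rw [map_inv, eq_inv_mul_iff_mul_eq.2 e]; group

variable (L) in
/-- the Bruhat cell -/
noncomputable def δ (g : K) : Perm Φ := (twTits L.tw L.top).δ g

theorem exists_conj_δ (g : K) : ∃ n ∈ K, C.NW n (L.δ g) ∧ ∃ u ∈ C.U ⊓ K, ConjK K g (n * u) := by
  obtain ⟨-, u, hu, n, hn, h, v, hv, e⟩ := L.tw.of_cell g.2 (cell_δ L.top L.tw.faithful g)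
  refine ⟨n, hn, h, v * u, mul_mem ⟨C.Uw_le_U _ hv.1, hv.2⟩ hu, ?_⟩
  rw [e, mul_assoc, ← mul_assoc n]
  exact conjK_comm hu.2 _

theorem cov_exists {g : K} (h1 : L.δ g ≠ 1) (h2 : L.δ g ≠ T.s b) : ∃ A, L.Cov g A := by
  obtain ⟨n, hn, h, u, hu, e⟩ := exists_conj_δ (L := L) g
  obtain ⟨A, hA⟩ := L.exists_dec h1 h2 hn h
  obtain ⟨t, ht⟩ := pr_U (L := L) hu
  exact ⟨_, (hA.cov ht).of_conj e⟩

theorem cov_good {g : K} (h : L.δ g * T.s b ≠ T.s b * L.δ g) :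
    ∃ A, (∀ σ, L.Cov g (A * xU σ)) ∨ ∀ σ, L.Cov g (A * xL σ) := by
  obtain ⟨n, hn, hw, u, hu, e⟩ := exists_conj_δ (L := L) g
  obtain ⟨A, hA⟩ := L.exists_dec (w := L.δ g) (fun e => h (by simp [e])) (fun e => h (by rw [e])) hn hw
  obtain ⟨t, ht⟩ := pr_U (L := L) hu
  have hW := T.W1.inv_mem (L.tw.mem_W1_of_nw hn hw)
  have h1 : ∀ r ∈ posJ R (T.J b), ¬ R.InJ (T.J b) ((L.δ g)⁻¹ r) := fun r hr h1 => by
    obtain ⟨i, hi, rfl⟩ := L.orth r hr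
    have := Sym.conj_s hW h1
    rw [hi, inv_inv, mul_assoc, inv_mul_eq_iff_eq_mul] at this
    exact h this.symm
  have key : ∀ B : SL(2, E), n⁻¹ * (L.φ B)⁻¹ * n⁻¹⁻¹ ∈ C.UJ (T.J b) → L.Cov g (A * xU t * B) := by
    intro B hB
    have h2 : n⁻¹ * (L.φ B)⁻¹ * n⁻¹⁻¹ ∈ K := K.mul_mem (K.mul_mem (K.inv_mem hn)
      (K.inv_mem (L.φ_mem B))) (K.inv_mem (K.inv_mem hn))
    have := hA.cov (((pr_Q ⟨hB, h2⟩).mul ht).mul (pr_φ B))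
    rw [one_mul, ← mul_assoc A] at this
    exact this.of_conj (e.trans ⟨_, K.inv_mem (L.φ_mem B), by group⟩)
  refine ⟨A * xU t, ?_⟩
  by_cases hd : T.Desc (L.δ g)⁻¹ b
  · refine Or.inr fun σ => key _ (NW.conj_mem hw.inv (fun r hr => ?_) (inv_mem (L.Y_mem σ).1))
    have h2 : R.neg r ∈ posJ R (T.J b) := ⟨isPos_neg_iff.2 hr.1, hr.2.neg⟩
    have h3 := hd.neg hW h2
    have h4 := h1 _ h2
    rw [(Sym.isAut_of_mem hW).neg] at h3 h4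
    exact fJ_pos_iff.2 ⟨by rwa [isPos_neg_iff, not_not] at h3, inJ_neg_iff.not.1 h4⟩
  · exact Or.inl fun σ => key _ (NW.conj_mem hw.inv (fun r hr => fJ_pos_iff.2
      ⟨Sym.pos_of_not_desc (Sym.isAut_of_mem hW) hd hr, h1 r hr⟩) (inv_mem (L.X_mem σ).1))

theorem δ_conj (g : K) : ∃ k : K, L.δ (k * g * k⁻¹) = T.s a * L.δ g * T.s a ∨
    L.δ (k * g * k⁻¹) = T.s a * L.δ g := by
  obtain ⟨n, hn, hw, u, hu, k, hk, e⟩ := exists_conj_δ (L := L) g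
  obtain ⟨m, hm, hm'⟩ := L.tw.exists_n a
  set P := twTits L.tw L.top
  have h1 : P.δ (⟨m, hm⟩ * ⟨n, hn⟩ * ⟨u, hu.2⟩) = T.s1 a * P.δ g := by
    rw [P.δ_mul_B _ (by rw [twTits_B]; exact C.U_le_B hu.1)]
    exact twTits_δ _ _ (hm'.mul hw)
  have h2 : P.δ (⟨m, hm⟩ : K)⁻¹ = T.s1 a := twTits_δ _ _ (by simpa [Sym.s_inv] using hm'.inv)
  have h3 : (⟨m, hm⟩ * ⟨k, hk⟩ : K) * g * (⟨m, hm⟩ * ⟨k, hk⟩ : K)⁻¹ =
      ⟨m, hm⟩ * ⟨n, hn⟩ * ⟨u, hu.2⟩ * (⟨m, hm⟩ : K)⁻¹ := Subtype.ext (by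
    simp only [Subgroup.coe_mul, Subgroup.coe_inv, mul_assoc m, ← e]; group)
  refine ⟨⟨m, hm⟩ * ⟨k, hk⟩, ?_⟩
  rw [h3, δ]
  rcases P.mul_simple (⟨m, hm⟩ * ⟨n, hn⟩ * ⟨u, hu.2⟩) h2 with e | e <;> rw [e, h1]
  exacts [Or.inl rfl, Or.inr rfl]

variable (L) in
theorem exists_conj_ne [IsSimpleGroup K] {g : K} (hg : g ≠ 1) :
    ∃ k : K, L.δ (k * g * k⁻¹) ≠ 1 ∧ L.δ (k * g * k⁻¹) ≠ T.s b := by
  set P := twTits L.tw L.top
  have h1 : ∀ g : K, g ∈ P.P {b} ↔ L.δ g = 1 ∨ L.δ g = T.s b := fun g => by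
    rw [P.mem_P (Set.subset_univ _), mem_WJ_s1]
    refine ⟨Sym.eq_one_or_eq_s (P.δ g).2, ?_⟩
    rintro (e | e) <;> rw [show (P.δ g : Perm Φ) = _ from e]
    exacts [one_mem _, wJ_mem _]
  obtain ⟨m, hm⟩ := P.surj a trivial
  obtain ⟨k, hk⟩ := exists_conj_notMem (P := P.P {b}) (fun e => by
    have h2 : L.δ m = T.s a := congrArg Subtype.val hm
    rcases (h1 m).1 (e ▸ Subgroup.mem_top m) with e | e <;> rw [h2] at e
    exacts [Sym.s_ne_one a e, L.ne (Sym.s_injective e)]) hg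
  exact ⟨k, not_or.1 ((h1 _).not.1 hk)⟩

theorem Cov.sqK [Finite G] {x g c₁ c₂ : G} {A : SL(2, E)} (h : L.Cov g A) (e : c₁ * c₂ = L.φ A)
    (h1 : ConjK K x c₁) (h2 : ConjK K x c₂) (f1 : Fpf c₁ (Qm C (T.J b) ⊓ K))
    (f2 : Fpf c₂ (C.UJ (T.J b) ⊓ K)) : SqK K x g := by
  obtain ⟨v, hv, _, ⟨q, hq, rfl⟩, h⟩ := h
  refine SqK.of_conj ?_ h
  rw [← e, ← mul_assoc]
  exact sqK_core inf_le_right inf_le_right h1 h2 f1 f2 hv hq

end Lev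

end Cfsg.Lib.CC
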