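import Cfsg.Agent.Lib.CC.Par
import Cfsg.Agent.Lib.Chev.Cent
import Cfsg.Agent.Lib.Chev.SL2Fin
import Cfsg.Agent.Lib.Chev.Invol

/-!
# Squares of semisimple classes in rank two groups: odd characteristic; nodes given by one root
-/

set_option autoImplicit false

namespace Cfsg.Lib.CC

open Cfsg.Lib.BN Cfsg.Lib.Chev Cfsg.Lib.Chev.RootSys Cfsg.Lib.Chev.ChevSys Cfsg.Lib.Twisted Equiv
open Cfsg.Lib.Root Cfsg.Lib.St Matrix
open scoped MatrixGroups

theorem exists_irr {E : Type*} [Field E] [Finite E] {d : E} (hd : d ≠ 0) : ∃ τ, Irr τ d := by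
  have := Fintype.ofFinite E
  classical
  have hs : ¬ Function.Surjective fun x : Eˣ => (x : E) + d / x := fun h => by
    have := Fintype.card_le_of_surjective _ h
    have := Fintype.card_pos (α := E)
    rw [Fintype.card_units] at *
    omega
  obtain ⟨τ, h⟩ := not_forall.1 hs
  refine ⟨τ, fun x hx => h ⟨Units.mk0 x fun e => hd (by simpa [e] using hx), ?_⟩⟩
  have : x ≠ 0 := fun e => hd (by simpa [e] using hx)
  simp only [Units.val_mk0]
  field_simp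
  linear_combination hx

variable {ι Φ : Type} [Fintype ι] [DecidableEq ι] {R : RootSys ι Φ} {κ : Type} {T : Sym R κ}
  {F : Type*} [Field F] {G : Type*} [Group G] {C : ChevSys R F G} [Fintype Φ]

theorem mem_XS_of_tor (hF : C.Faithful) (hA : C.Adjoint) {J : Set ι} {y : G} (hy : y ∈ C.UJ J)
    {A : Set (ι → Fˣ)} (h : ∀ c ∈ A, tor hA c * y * (tor hA c)⁻¹ = y) :
    y ∈ C.XS {r | 0 < fJ J (R.α r) ∧ ∀ c ∈ A, R.chr c r = 1} :=
  hF.mem_XS_of_comm hA.hMul (isClosed_lt _) (f := fJ J) (fun _ h => h) hy fun c hc => by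
    rw [eq_tor hA (hA.hMul.torus_mem_H c) (hA.hMul.acts_torus c), h c hc]

theorem pow_conj_eq {G : Type*} [Group G] {c y : G} (h : c * y * c⁻¹ = y) (k : ℕ) :
    c ^ k * y * (c ^ k)⁻¹ = y := by
  rw [mul_inv_eq_iff_eq_mul] at h ⊢
  exact (Commute.pow_left h k).eq

namespace Lev

variable {S : Twist C T} {K : Subgroup G} {a b : κ} {E : Type*} [Field E] (L : Lev S K a b E)

/-- the elements of the coset `h φ(SL₂)`, given by matrices of determinant `-1` -/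
def ψ (h : G) (M : M2 E) (hM : M.det = -1) : G :=
  h * L.φ (mkSL (!![-1, 0; 0, 1] * M) (by rw [det_mul, hM]; simp))

section Odd
variable {h : G} (h1 : h ∈ C.H ⊓ K) (h2 : h * h = 1)
  (h3 : ∀ A, h * L.φ A * h⁻¹ = L.φ (dc (-1) A))
include h2 h3

theorem φ_mul_h (A : SL(2, E)) : L.φ A * h = h * L.φ (dc (-1) A) := by
  rw [← h3, ← mul_assoc, ← mul_assoc, h2, one_mul, inv_eq_of_mul_eq_one_right h2]

theorem ψ_mul {M N : M2 E} (hM : M.det = -1) (hN : N.det = -1) {A : SL(2, E)} (e : M * N = A) :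
    L.ψ h M hM * L.ψ h N hN = L.φ A := by
  rw [ψ, ψ, mul_assoc, ← mul_assoc (L.φ _), L.φ_mul_h h2 h3, ← mul_assoc, ← mul_assoc, h2, one_mul,
    ← map_mul]
  congr 1
  refine sl2_ext ?_ ?_ ?_ ?_ <;>
    simp [dc_coe, ← e, Matrix.mul_apply, Fin.sum_univ_two, vecMul, dotProduct]

theorem ψ_conj {M N : M2 E} (hM : M.det = -1) (hN : N.det = -1) {P : SL(2, E)}
    (e : N * (P : M2 E) = (P : M2 E) * M) : L.φ P * L.ψ h M hM * (L.φ P)⁻¹ = L.ψ h N hN := by
  rw [mul_inv_eq_iff_eq_mul, ψ, ψ, ← mul_assoc, L.φ_mul_h h2 h3, mul_assoc, mul_assoc, ← map_mul,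
    ← map_mul]
  congr 2
  refine Subtype.ext ?_
  rw [Matrix.SpecialLinearGroup.coe_mul, Matrix.SpecialLinearGroup.coe_mul, mkSL_coe, mkSL_coe,
    Matrix.mul_assoc, e, ← Matrix.mul_assoc, ← Matrix.mul_assoc]
  congr 1
  ext i j
  fin_cases i <;> fin_cases j <;>
    simp [dc_coe, Matrix.mul_apply, Fin.sum_univ_two, vecMul, dotProduct]

theorem ψ_pow [Fintype E] (hE : (2 : E) ≠ 0) {τ : E} (hi : Irr τ (-1)) {M : M2 E}
    (hM : Cl τ (-1) M) : L.ψ h M hM.2 ^ (Fintype.card E + 1) = L.φ (-1) := by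
  obtain ⟨k, hk⟩ : 2 ∣ Fintype.card E + 1 := by
    have := FiniteField.odd_card_of_char_ne_two (F := E) fun e => hE (by
      have := (ringChar.spec E 2).2 (by rw [e]); exact_mod_cast this)
    omega
  rw [hk, pow_mul, sq, L.ψ_mul h2 h3 hM.2 hM.2 (A := mkSL (M * M) (by rw [det_mul, hM.2]; simp)) rfl,
    ← map_pow]
  congr 1
  refine Subtype.ext ?_
  rw [Matrix.SpecialLinearGroup.coe_pow, mkSL_coe, ← sq, ← pow_mul, ← hk, hM.pow_card_succ hi]
  simp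

include h1 in
theorem sq_odd [Fintype E] [Finite G] [IsSimpleGroup K] (p : ℕ) [Fact p.Prime] [CharP E p]
    (hE : (2 : E) ≠ 0) (hA : C.Adjoint) (hw0 : ∀ r, wJ R Set.univ r = R.neg r)
    (hs : ∀ i, T.orb i = b → T.s b (R.simple i) = R.neg (R.simple i))
    (hf : ∀ y ∈ C.UJ (T.J b), L.φ (-1) * y * (L.φ (-1))⁻¹ = y →
      (∀ A, Commute y (L.φ A)) ∧ (h * y * h⁻¹ = y → y = 1)) :
    ∃ x : K, ¬ p ∣ orderOf x ∧ ∀ g : K, g ≠ 1 → Sq x g := by
  obtain ⟨τ, hi⟩ := exists_irr (d := (-1 : E)) (by simp)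
  have hτ : τ ≠ 0 := fun e => hi 1 (by simp [e])
  have hK : ∀ M hM, L.ψ h M hM ∈ K := fun M hM => K.mul_mem h1.2 (L.φ_mem _)
  have f1 : ∀ τ M, Irr τ (-1) → ∀ hM : Cl τ (-1) M, Fpf (L.ψ h M hM.2) (C.UJ (T.J b) ⊓ K) := by
    refine fun τ M hi hM => ⟨fun y hy => conj_mem_inf (mul_mem (C.H_le_normalizer _ h1.1)
      (L_norm_UJ _ (L.φ_mem_L _))) (hK _ _) hy, fun y hy e => ?_⟩
    have := pow_conj_eq e (Fintype.card E + 1)
    rw [L.ψ_pow h2 h3 hE hi hM] at this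
    obtain ⟨e1, e2⟩ := hf y hy.1 this
    refine e2 (Eq.trans ?_ e)
    rw [ψ, mul_assoc h _ y, ← (e1 _).eq]; group
  obtain ⟨m, hm, hw⟩ := L.tw.exists_nw (T.W1.mul_mem Sym.w0_mem_W1 (Sym.s_mem b))
  have hw' := hw.mul L.nw
  rw [mul_assoc, Sym.s_mul_self, mul_one] at hw'
  have hh : h⁻¹ = h := inv_eq_of_mul_eq_one_right h2
  have e0 : m * h * m⁻¹ = h * L.φ (-1) := by
    have := Twist.conj_eq_inv hA hw' hw0 (C.conj_mem_H (inv_mem L.nw.mem_N) h1.1)
    calc m * h * m⁻¹ = ((L.φ (wS 1))⁻¹ * h * (L.φ (wS 1))⁻¹⁻¹)⁻¹ := by rw [← this]; group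
      _ = L.φ (wS 1)⁻¹ * h * L.φ (wS 1) := by simp [hh, mul_assoc]
      _ = _ := by
        rw [L.φ_mul_h h2 h3, mul_assoc, ← map_mul]
        congr 2
        refine sl2_ext ?_ ?_ ?_ ?_ <;> simp [dc_coe, wS_coe (one_ne_zero' E), adjugate_fin_two,
          Matrix.mul_apply, Fin.sum_univ_two]
  obtain ⟨s, hs⟩ := L.act' hm hw fun i hi => by rw [Perm.mul_apply, hs i hi, hw0, R.neg_neg]
  have f2 : ∀ τ M, ∀ hM : Cl τ (-1) M, ∃ N, ∃ hN : Cl (-τ) (-1) N,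
      m * L.ψ h N hN.2 * m⁻¹ = L.ψ h M hM.2 := by
    intro τ M hM
    obtain ⟨e1, e2⟩ := cl_iff.1 hM
    refine ⟨-!![M 0 0, (s⁻¹ : Eˣ) * M 0 1; s * M 1 0, M 1 1], Cl.neg (cl_iff.2 ⟨by simpa using e1,
      by simp; field_simp; linear_combination e2⟩), ?_⟩
    rw [ψ, ψ, ← conj_mul, e0, hs, mul_assoc, ← map_mul]
    congr 2
    refine sl2_ext ?_ ?_ ?_ ?_ <;> simp [dc_coe, vecMul, dotProduct]
  have f3 : ∀ τ M, Irr τ (-1) → ∀ hM : Cl τ (-1) M, Fpf (L.ψ h M hM.2) (Qm C (T.J b) ⊓ K) := by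
    intro τ M hi hM
    obtain ⟨N, hN, e⟩ := f2 τ M hM
    exact e ▸ fpf_m hw0 (f1 _ _ hi.neg hN) hm hw
  have f4 : ∀ M, ∀ hM : Cl τ (-1) M, ConjK K (L.ψ h _ (cl_cmp τ (-1)).2) (L.ψ h M hM.2) := by
    intro M hM
    obtain ⟨P, hP⟩ := (cl_cmp τ (-1)).exists_conj hi hM
    exact ⟨_, L.φ_mem P, L.ψ_conj h2 h3 _ _ hP⟩
  refine ⟨⟨_, hK _ (cl_cmp τ (-1)).2⟩, fun e => ?_, fun g hg => SqK.sq ?_⟩
  · rw [← Subgroup.orderOf_coe] at e
    have e1 := e.trans (orderOf_dvd_of_pow_eq_one (n := (Fintype.card E + 1) * 2) (by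
      rw [pow_mul, L.ψ_pow h2 h3 hE hi (cl_cmp τ (-1)), ← map_pow]; simp))
    have hp : p.Prime := Fact.out
    rcases hp.dvd_mul.1 e1 with e1 | e1
    · exact hp.one_lt.ne' (Nat.dvd_one.1 ((Nat.dvd_add_right
        ((CharP.cast_eq_zero_iff E p _).1 (Nat.cast_card_eq_zero E))).1 e1))
    · exact hE (by exact_mod_cast (CharP.cast_eq_zero_iff E p 2).2 e1)
  · obtain ⟨k, e1, e2⟩ := L.exists_conj_ne hg
    obtain ⟨A, hA⟩ := cov_exists e1 e2
    replace hA := hA.of_conj (conjK_conj k.2 _)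
    by_cases hc : (A : M2 E) = 1 ∨ (∀ c : E, (A : M2 E) ≠ c • 1) ∧ (A : M2 E).trace ≠ 2
    · obtain ⟨X, Y, hX, hY, e⟩ := exists_mul_sl hτ (d := -1) A.2 hc
      obtain ⟨N, hN, e'⟩ := f2 _ _ hX.neg
      exact hA.sqK (L.ψ_mul h2 h3 hX.neg.2 hY.2 (by simp [e]))
        (e' ▸ (f4 N (by simpa using hN)).trans (conjK_conj hm _)) (f4 Y hY) (f3 _ _ hi.neg hX.neg)
        (f1 _ _ hi hY)
    · obtain ⟨X, Y, hX, hY, e⟩ := exists_mul_sl hτ (d := -1) (A := -(A : M2 E))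
        (by rw [det_neg, A.2]; simp) (by
          rw [not_or, not_and_or, not_forall, not_not] at hc
          by_cases h5 : ∃ c : E, (A : M2 E) = c • 1
          · obtain ⟨c, h5⟩ := h5
            have := A.2
            rw [h5, det_smul, det_one, mul_one, Fintype.card_fin, sq_eq_one_iff] at this
            rcases this with rfl | rfl
            · exact absurd (by simp [h5]) hc.1
            · exact Or.inl (by simp [h5])
          · refine Or.inr ⟨fun c e => h5 ⟨-c, by rw [neg_smul, ← e, _root_.neg_neg]⟩, fun e => ?_⟩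
            rw [trace_neg, hc.2.resolve_left (by simpa using h5)] at e
            exact mul_ne_zero hE hE (by linear_combination -e))
      exact hA.sqK (L.ψ_mul h2 h3 hX.2 hY.2 (by simp [e])) (f4 X hX) (f4 Y hY) (f3 _ _ hi hX)
        (f1 _ _ hi hY)

end Odd

end Lev

section Single
variable {S : Twist C T} {K : Subgroup G} {a b : κ} {E : Type*} [Field E]

theorem s_single {i₀ : ι} (hb : ∀ i, i ∈ [i₀] ↔ T.orb i = b) : T.s b = R.sref i₀ :=
  (eq_wJ (J := T.J b) (Twisted.sref_mem_WJ ((hb i₀).1 (by simp))) fun i hi => by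
    obtain rfl : i = i₀ := by simpa using (hb i).2 hi
    rw [sref_simple, isPos_neg_iff, not_not]
    exact isPos_simple i).symm

theorem mk_orth {l : List ι} (hl : l.Nodup) (hk : ∀ i, i ∈ l ↔ T.orb i = a)
    (ho : ∀ i ∈ l, ∀ j ∈ l, i ≠ j → R.A i j = 0) (hs : T.s a = wp R.sref l) (hA : C.Adjoint)
    {c : ι → Fˣ} (hc : c ∈ S.TFix) : MK S a (tor hA (fun i => if i ∈ l then c i else 1) *
      wp (fun i => C.n (R.simple i) 1) l) := by
  have hc' := fun i (_ : i ∈ l) => Twist.mem_TFix.1 hc i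
  refine ⟨by simpa [hs] using (nw_of_mem_H (tor_mem hA _)).mul (C.nw_wp l),
    _, Twist.xs_mem_X hl hk ho (t := fun i => (c i : F)) hc',
    _, Twist.ys_mem_Y hl hk ho (t := fun i => -(((c i)⁻¹ : Fˣ) : F)) fun i hi => by simp [hc' i hi],
    _, Twist.xs_mem_X hl hk ho (t := fun i => (c i : F)) hc', ?_⟩
  have h1 : (fun i => if i ∈ l then c i else 1) = (l.map fun i => Pi.mulSingle i (c i)).prod := by
    rw [← List.prod_toFinset _ hl]
    funext j
    simp [Finset.prod_apply, Pi.mulSingle_apply]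
  rw [h1, map_list_prod, List.map_map, xs, ys, wp,
    ← prod_map_mul hl ho (fun i => x_mem_Lv i _) fun i => x_neg_mem_Lv i _,
    ← prod_map_mul hl ho (fun i => mul_mem (x_mem_Lv i _) (x_neg_mem_Lv i _)) fun i => x_mem_Lv i _]
  simp only [Function.comp_def, tor_mulSingle]
  rw [← prod_map_mul hl ho (f := fun i => C.h (R.simple i) (c i))
    (fun i => mul_mem (n_mem_Lv i _) (n_mem_Lv i _)) fun i => n_mem_Lv i _]
  simp only [← C.n_eq]
  rfl

theorem exists_lev (hK : S.IsTw K) (htop : C.grp = ⊤) (hA : C.Adjoint) (hab : a ≠ b)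
    (all : ∀ k, k = a ∨ k = b) {i₀ : ι} (hb : ∀ i, i ∈ [i₀] ↔ T.orb i = b) (j : E →+* F)
    (hj : ∀ t, S.θ i₀ t = t ↔ ∃ e, j e = t) {l : List ι} (hl : l.Nodup)
    (hk : ∀ i, i ∈ l ↔ T.orb i = a) (ho : ∀ i ∈ l, ∀ j ∈ l, i ≠ j → R.A i j = 0)
    (hs : T.s a = wp R.sref l) (hH : C.H ⊓ K ≤ S.TFix.map (tor hA)) :
    ∃ L : Lev S K a b E, (∀ t, L.φ (xU t) = C.x (R.simple i₀) (j t)) ∧
      ∀ t, L.φ (xL t) = C.x (R.neg (R.simple i₀)) (j t) := by
  obtain ⟨φ₀, h1, h2, -⟩ := hK.faithful.exists_sl2 hA.hMul (isPos_simple i₀)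
  set φ := φ₀.comp (Matrix.SpecialLinearGroup.map j)
  have e1 : ∀ t, φ (xU t) = C.x (R.simple i₀) (j t) := fun t => by
    rw [← h1]; exact congrArg φ₀ (sl2_ext (by simp) (by simp) (by simp) (by simp))
  have e2 : ∀ t, φ (xL t) = C.x (R.neg (R.simple i₀)) (j t) := fun t => by
    rw [← h2]; exact congrArg φ₀ (sl2_ext (by simp) (by simp) (by simp) (by simp))
  have e3 : ∀ t : Eˣ, φ (wS t) = C.n (R.simple i₀) (Units.map (j : E →* F) t) := fun t => by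
    simp [wS, e1, e2, PreSys.n]
  have hX : ∀ g, g ∈ S.X b ↔ ∃ t, g = φ (xU t) := fun g => by
    simp only [Twist.mem_X_one hb hK.faithful, hj, e1]
    exact ⟨fun ⟨_, ⟨e, he⟩, h⟩ => ⟨e, he ▸ h⟩, fun ⟨e, h⟩ => ⟨_, ⟨e, rfl⟩, h⟩⟩
  refine ⟨⟨φ, hK, htop, hab, all, fun r hr => ?_, hX, fun t => e2 t ▸ Twist.mem_Y_one hb
    ((hj _).2 ⟨t, rfl⟩), fun t => by rw [e3, s_single hb, ← refl_simple]; exact nw_n _ _,
    fun n hn h => ?_, fun n hn w c hc hw => ?_⟩, e1, e2⟩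
  · obtain ⟨i, hi, rfl⟩ := List.mem_map.1 ((Twist.mem_posJ_iff hb (by simp)).2 hr)
    exact ⟨i, (hb i).1 hi, rfl⟩
  · have h0 := mk_orth (S := S) hl hk ho hs hA (one_mem _)
    rw [show (fun i => if i ∈ l then (1 : ι → Fˣ) i else 1) = 1 by funext i; simp, map_one,
      one_mul] at h0
    obtain ⟨c, hc, e⟩ := hH (x := n * (wp (fun i => C.n (R.simple i) 1) l)⁻¹)
      ⟨NW.mem_H (by simpa using h.mul h0.1.inv), K.mul_mem hn (K.inv_mem (h0.mem hK))⟩
    obtain ⟨t, ht⟩ := (hj (c i₀)).1 (by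
      simpa [Twist.π_eq_self hb] using (Twist.mem_TFix.1 hc i₀).symm)
    obtain ⟨t, rfl⟩ : IsUnit t := Ne.isUnit fun e => (c i₀).ne_zero (by rw [← ht, e, map_zero])
    have e4 : φ (wS (t : E) * (wS ((1 : Eˣ) : E))⁻¹) = tor hA (Pi.mulSingle i₀ (c i₀)) := by
      rw [map_mul, map_inv, e3, e3, map_one, ← C.h_def, tor_mulSingle]
      congr 1
      exact Units.ext ht
    refine ⟨(wS (t : E) * (wS ((1 : Eˣ) : E))⁻¹)⁻¹, by rw [map_inv, e4]; exact inv_mem (tor_mem _ _), ?_⟩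
    convert mk_orth (S := S) hl hk ho hs hA hc using 1
    rw [map_inv, e4, eq_mul_of_mul_inv_eq e.symm, ← mul_assoc, ← map_inv, ← map_mul]
    congr 2
    funext i
    by_cases hi : i = i₀
    · have : i₀ ∉ l := fun h => hab (((hk _).1 h).symm.trans ((hb i₀).1 (by simp)))
      simp [hi, this]
    · have : i ∈ l := (hk i).2 ((all _).resolve_right fun e => hi (by simpa using (hb i).2 e))
      simp [hi, this]
  · have h3 := hw i₀ ((hb i₀).1 (by simp))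
    have h4 := hK.pos b ((hX _).2 ⟨1, rfl⟩)
    have h5 := hK.le_fix (K.mul_mem (K.mul_mem hn h4) (K.inv_mem hn))
    rw [e1, hc.conj, h3, map_one, mul_one, Twist.mem_Fix, S.σ_pos, Twist.π_eq_self hb] at h5
    obtain ⟨s, hs⟩ := (hj _).1 (hK.faithful.x_inj h5)
    obtain ⟨s, rfl⟩ : IsUnit s := Ne.isUnit fun e => (c _).ne_zero (by rw [← hs, e, map_zero])
    refine ⟨s, fun t => by rw [e1, e1, hc.conj, h3, map_mul, hs], fun t => ?_⟩
    rw [e2, e2, hc.conj, hc.aut.neg, h3, map_mul, (eq_inv_of_mul_eq_one_right (hc.neg _) :)]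
    simp [hs]

variable (L : Lev S K a b E) {i₀ : ι} {j : E →+* F}
  (e1 : ∀ t, L.φ (xU t) = C.x (R.simple i₀) (j t))
  (e2 : ∀ t, L.φ (xL t) = C.x (R.neg (R.simple i₀)) (j t))
include e1 e2

theorem φ_wS : L.φ (wS 1) = C.n (R.simple i₀) 1 := by simp [wS, e1, e2, PreSys.n]

theorem commute_φ {y : G} (h : ∀ t, Commute y (C.x (R.simple i₀) t))
    (h' : ∀ t, Commute y (C.x (R.neg (R.simple i₀)) t)) (A : SL(2, E)) : Commute y (L.φ A) :=
  (Subgroup.mem_centralizer_singleton_iff.1 (sl2_mem (M := Subgroup.centralizer {y})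
    (fun t => Subgroup.mem_centralizer_singleton_iff.2 (e1 t ▸ (h _).eq.symm))
    (fun t => Subgroup.mem_centralizer_singleton_iff.2 (e2 t ▸ (h' _).eq.symm)) A)).symm

theorem sq_odd_single [Fintype E] [Finite G] [IsSimpleGroup K] (p : ℕ) [Fact p.Prime] [CharP E p]
    (hE : (2 : E) ≠ 0) (hA : C.Adjoint) (hw0 : ∀ r, wJ R Set.univ r = R.neg r)
    (hb : ∀ i, i ∈ [i₀] ↔ T.orb i = b) {l : List ι} (hl : l.Nodup)
    (hk : ∀ i, i ∈ l ↔ T.orb i = a) (ho : ∀ i ∈ l, ∀ j ∈ l, i ≠ j → R.A i j = 0)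
    (h1 : Odd (∑ i with i ∈ l, R.pair (R.simple i) (R.simple i₀)))
    (h2 : ∀ r, 0 < fJ (T.J b) (R.α r) → Even (R.pair (R.simple i₀) r) →
      Odd (∑ i with i ∈ l, R.pair (R.simple i) r) ∧ (∀ t u, Commute (C.x r t) (C.x (R.simple i₀) u)) ∧
        ∀ t u, Commute (C.x r t) (C.x (R.neg (R.simple i₀)) u)) :
    ∃ x : K, ¬ p ∣ orderOf x ∧ ∀ g : K, g ≠ 1 → Sq x g := by
  set c : ι → Fˣ := fun i => if i ∈ l then -1 else 1 with hc
  have h3 : ∀ r, R.chr c r = (-1) ^ ∑ i with i ∈ l, R.pair (R.simple i) r := fun r => by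
    rw [← prod_zpow_eq, Finset.prod_filter, chr]
    exact Finset.prod_congr rfl fun i _ => by by_cases hi : i ∈ l <;> simp [hc, hi]
  have h4 : (-1 : Fˣ) ≠ 1 := fun e => hE (j.injective (by
    have : (-1 : F) = 1 := by simpa using congrArg Units.val e
    rw [map_ofNat, map_zero]; linear_combination -this))
  have h5 : L.φ (-1) = tor hA (Pi.mulSingle i₀ (-1)) := by
    rw [tor_mulSingle, PreSys.h, C.n_neg, ← φ_wS L e1 e2, ← map_inv, ← map_mul]
    congr 1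
    refine sl2_ext ?_ ?_ ?_ ?_ <;> simp [wS_coe (one_ne_zero' E), adjugate_fin_two]
  refine L.sq_odd (h := tor hA c) ⟨tor_mem _ _, L.tw.tor_mem hl hk ho hA fun i _ => by simp⟩
    (by rw [← map_mul, ← map_one (tor hA)]; congr 1; funext i; by_cases hi : i ∈ l <;> simp [hc, hi])
    (sl2_hom_ext (φ := (MulAut.conj _).toMonoidHom.comp L.φ) (ψ := L.φ.comp (dc (-1)))
      (fun t => ?_) fun t => ?_) p hE hA hw0 (fun i hi => ?_) fun y hy e => ?_
  · change _ * L.φ _ * _ = L.φ (dc (-1) _)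
    rw [show dc (-1) (xU t) = xU (-t) from
      sl2_ext (by simp [dc_coe]) (by simp [dc_coe]) (by simp [dc_coe]) (by simp [dc_coe]), e1, e1,
      (acts_tor hA c).conj, h3, h1.neg_one_zpow]
    simp
  · change _ * L.φ _ * _ = L.φ (dc (-1) _)
    rw [show dc (-1) (xL t) = xL (-t) from
      sl2_ext (by simp [dc_coe]) (by simp [dc_coe]) (by simp [dc_coe]) (by simp [dc_coe]), e2, e2,
      (acts_tor hA c).conj, (eq_inv_of_mul_eq_one_right ((acts_tor hA c).neg _) :), h3,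
      h1.neg_one_zpow]
    simp
  · obtain rfl : i = i₀ := by simpa using (hb i).2 hi
    rw [s_single hb, sref_simple]
  · rw [h5] at e
    have h6 : ∀ r, R.chr (Pi.mulSingle i₀ (-1 : Fˣ)) r = 1 → Even (R.pair (R.simple i₀) r) :=
      fun r h => by
        rw [Twisted.chr_mulSingle] at h
        exact Int.not_odd_iff_even.1 fun h' => h4 (h'.neg_one_zpow.symm.trans h)
    have h7 := mem_XS_of_tor L.tw.faithful hA hy (A := {Pi.mulSingle i₀ (-1)}) (by simpa using e)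
    refine ⟨commute_φ L e1 e2 (fun t => ?_) fun t => ?_, fun e' => ?_⟩
    · exact Subgroup.mem_centralizer_singleton_iff.1 (PreSys.XS_le.2 (fun r hr u =>
        Subgroup.mem_centralizer_singleton_iff.2 ((h2 r hr.1 (h6 r (hr.2 _ rfl))).2.1 u t).eq) h7)
    · exact Subgroup.mem_centralizer_singleton_iff.1 (PreSys.XS_le.2 (fun r hr u =>
        Subgroup.mem_centralizer_singleton_iff.2 ((h2 r hr.1 (h6 r (hr.2 _ rfl))).2.2 u t).eq) h7)
    · have h8 := mem_XS_of_tor L.tw.faithful hA hy (A := {Pi.mulSingle i₀ (-1), c})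
        (by simpa using ⟨e, e'⟩)
      refine Subgroup.mem_bot.1 (PreSys.XS_le.2 (fun r hr u => absurd (hr.2 c (by simp)) ?_) h8)
      rw [h3, (h2 r hr.1 (h6 r (hr.2 _ (by simp)))).1.neg_one_zpow]
      exact h4

end Single

end Cfsg.Lib.CC
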