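import Cfsg.Agent.Lib.CC.Lev
import Cfsg.Agent.Lib.Twisted.Classes

/-!
# Squares of semisimple classes in rank two groups: odd and even characteristic
-/

set_option autoImplicit false

namespace Cfsg.Lib.CC

open Cfsg.Lib.BN Cfsg.Lib.Chev Cfsg.Lib.Chev.RootSys Cfsg.Lib.Chev.ChevSys Cfsg.Lib.Twisted Equiv
open Cfsg.Lib.Root Cfsg.Lib.St Matrix Polynomial
open scoped MatrixGroups

section SL2
variable {E : Type*} [Field E]

theorem Cl.pow_card_succ [Fintype E] {τ d : E} (hi : Irr τ d) {A : M2 E} (hA : Cl τ d A) :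
    A ^ (Fintype.card E + 1) = d • (1 : M2 E) := by
  set f : E[X] := C 1 * X ^ 2 + C (-τ) * X + C d with hf
  have hd : f.natDegree = 2 := natDegree_quadratic one_ne_zero
  have hf0 : f ≠ 0 := fun e => by simp [e] at hd
  have hirr : Irreducible f := (irreducible_iff_roots_eq_zero_of_degree_le_three hd.ge (by omega)).2
    (Multiset.eq_zero_of_forall_notMem fun x hx => hi x (by
      have := (mem_roots hf0).1 hx
      simp only [hf, IsRoot, eval_add, eval_mul, eval_C, eval_pow, eval_X] at this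
      linear_combination this))
  have := Fact.mk hirr
  have hfin : Module.Finite E (AdjoinRoot f) := (AdjoinRoot.powerBasis hf0).finite
  have : Finite (AdjoinRoot f) := Module.finite_of_finite E
  set r := AdjoinRoot.root f
  have h1 : r ^ 2 - algebraMap E _ τ * r + algebraMap E _ d = 0 := by
    have := AdjoinRoot.aeval_eq (f := f) f
    rw [AdjoinRoot.mk_self] at this
    simpa [hf, sub_eq_add_neg] using this
  have h2 := congrArg (FiniteField.frobeniusAlgHom E (AdjoinRoot f)) h1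
  simp only [map_add, map_sub, map_mul, map_pow, AlgHom.commutes, map_zero] at h2
  have h3 : FiniteField.frobeniusAlgHom E (AdjoinRoot f) r ≠ r := fun e => by
    have h4 : FiniteField.frobeniusAlgHom E (AdjoinRoot f) = 1 := AdjoinRoot.algHom_ext e
    have h5 := FiniteField.orderOf_frobeniusAlgHom E (AdjoinRoot f)
    rw [h4, orderOf_one, (AdjoinRoot.powerBasis hf0).finrank, AdjoinRoot.powerBasis_dim, hd] at h5
    omega
  have h4 : FiniteField.frobeniusAlgHom E (AdjoinRoot f) r = algebraMap E _ τ - r :=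
    sub_eq_zero.1 ((mul_eq_zero.1 (by linear_combination h2 - h1)).resolve_left (sub_ne_zero.2 h3))
  have h5 : f ∣ X ^ (Fintype.card E + 1) - C d := by
    rw [← AdjoinRoot.mk_eq_zero, ← AdjoinRoot.aeval_eq, map_sub, map_pow, aeval_X, aeval_C, pow_succ]
    rw [show r ^ Fintype.card E = _ from h4]
    linear_combination -h1
  have h6 : aeval A f = 0 := by
    obtain ⟨e1, e2⟩ := cl_iff.1 hA
    simp only [hf, map_add, map_mul, map_pow, aeval_X, aeval_C, Algebra.algebraMap_eq_smul_one]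
    ext i j
    fin_cases i <;> fin_cases j <;> simp [sq, Matrix.mul_apply, Fin.sum_univ_two, ← e1, ← e2] <;> ring
  obtain ⟨g, hg⟩ := h5
  have h7 := congrArg (aeval A) hg
  rw [map_mul, h6, zero_mul, map_sub, map_pow, aeval_X, aeval_C, sub_eq_zero] at h7
  rw [h7, Algebra.algebraMap_eq_smul_one]

/-- a matrix of determinant one as an element of `SL₂` -/
def mkSL (M : M2 E) (h : M.det = 1) : SL(2, E) := ⟨M, h⟩

@[simp] theorem mkSL_coe (M : M2 E) (h : M.det = 1) : (mkSL M h : M2 E) = M := rfl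

/-- conjugation by `diag(s, 1)` -/
def dc (s : Eˣ) : SL(2, E) →* SL(2, E) where
  toFun A := mkSL !![A 0 0, s * A 0 1; (s⁻¹ : Eˣ) * A 1 0, A 1 1] (by
    have := sl2_det A
    rw [det_fin_two_of]; simp; field_simp; linear_combination this)
  map_one' := sl2_ext (by simp) (by simp) (by simp) (by simp)
  map_mul' A B := by
    refine sl2_ext ?_ ?_ ?_ ?_ <;> simp [Matrix.mul_apply, Fin.sum_univ_two] <;> field_simp

theorem dc_coe (s : Eˣ) (A : SL(2, E)) :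
    (dc s A : M2 E) = !![A 0 0, s * A 0 1; (s⁻¹ : Eˣ) * A 1 0, A 1 1] := rfl

theorem dc_sq (s : Eˣ) (A : SL(2, E)) :
    dc (s ^ 2) A = wS (s : E) * (wS 1)⁻¹ * A * (wS (s : E) * (wS 1)⁻¹)⁻¹ := by
  rw [eq_mul_inv_iff_mul_eq]
  refine sl2_ext ?_ ?_ ?_ ?_ <;>
    simp [dc_coe, wS_coe s.ne_zero, wS_coe (one_ne_zero' E), Matrix.mul_apply, Fin.sum_univ_two,
      adjugate_fin_two, vecMul, dotProduct] <;> field_simp

theorem exists_unip (h2 : (2 : E) = 0) {A : SL(2, E)} (h : (A : M2 E).trace = 0) :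
    ∃ (P : SL(2, E)) (σ : E), A * P = P * xU σ := by
  have h1 := sl2_det A
  rw [trace_fin_two] at h
  have h3 : A 1 1 = A 0 0 := by linear_combination h - A 0 0 * h2
  rw [h3] at h1
  by_cases hc : A 1 0 = 0
  · have h4 : A 0 0 = 1 := sub_eq_zero.1 (pow_eq_zero_iff two_ne_zero |>.1 (by
      rw [hc] at h1; linear_combination h1 + (1 - A 0 0) * h2))
    exact ⟨1, A 0 1, sl2_ext (by simp [h4]) (by simp) (by simp [hc]) (by simp [h3, h4])⟩
  · refine ⟨mkSL !![A 0 0 + 1, -(A 1 0)⁻¹; A 1 0, 0] (by simp [hc]), -(A 1 0)⁻¹, ?_⟩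
    refine sl2_ext ?_ ?_ ?_ ?_ <;> simp [Matrix.mul_apply, Fin.sum_univ_two, h3, hc]
    · linear_combination h1 + A 0 1 * A 1 0 * h2
    · linear_combination (A 1 0)⁻¹ * h2
    · linear_combination A 0 0 * A 1 0 * h2

theorem exists_noninv (h2 : (2 : E) = 0) (A : SL(2, E)) :
    (∃ σ, A * xU σ = 1 ∨ ((A * xU σ : SL(2, E)) : M2 E).trace ≠ 0) ∧
      ∃ σ, A * xL σ = 1 ∨ ((A * xL σ : SL(2, E)) : M2 E).trace ≠ 0 := by
  have h1 := sl2_det A
  have key : A 0 0 * A 1 1 = 1 → A 0 0 + A 1 1 = 0 → A 0 0 = 1 ∧ A 1 1 = 1 := fun e e' => by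
    have : A 0 0 = 1 := sub_eq_zero.1 (pow_eq_zero_iff two_ne_zero |>.1 (by
      linear_combination -e + A 0 0 * e' - A 0 0 * h2))
    exact ⟨this, by simpa [this] using e⟩
  constructor
  · by_cases hc : A 1 0 = 0
    · refine ⟨-A 0 1, or_iff_not_imp_right.2 fun e => ?_⟩
      obtain ⟨e1, e2⟩ := key (by simpa [hc] using h1) (by
        simpa [trace_fin_two, Matrix.mul_apply, Fin.sum_univ_two, hc] using e)
      refine sl2_ext ?_ ?_ ?_ ?_ <;> simp [Matrix.mul_apply, Fin.sum_univ_two, e1, e2, hc]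
    · refine ⟨(1 - A 0 0 - A 1 1) / A 1 0, Or.inr ?_⟩
      simp [trace_fin_two, Matrix.mul_apply, Fin.sum_univ_two, mul_div_cancel₀, hc]
  · by_cases hc : A 0 1 = 0
    · refine ⟨-A 1 0, or_iff_not_imp_right.2 fun e => ?_⟩
      obtain ⟨e1, e2⟩ := key (by simpa [hc] using h1) (by
        simpa [trace_fin_two, Matrix.mul_apply, Fin.sum_univ_two, hc] using e)
      refine sl2_ext ?_ ?_ ?_ ?_ <;> simp [Matrix.mul_apply, Fin.sum_univ_two, e1, e2, hc]
    · refine ⟨(1 - A 0 0 - A 1 1) / A 0 1, Or.inr fun e => ?_⟩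
      simp [trace_fin_two, Matrix.mul_apply, Fin.sum_univ_two, mul_div_cancel₀, hc] at e
      exact one_ne_zero (α := E) (by linear_combination e)

theorem exists_mul_sl [Finite E] {τ : E} (hτ : τ ≠ 0) {d : E} {A : M2 E} (h1 : A.det = 1)
    (h : A = 1 ∨ (∀ c : E, A ≠ c • 1) ∧ A.trace ≠ 2) :
    ∃ X Y, Cl τ d X ∧ Cl τ d Y ∧ X * Y = d • A := by
  rcases h with rfl | h
  · exact ⟨_, _, cl_cmp τ d, (cl_cmp τ d).adjugate, by rw [mul_adjugate, (cl_cmp τ d).2]⟩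
  · exact exists_mul hτ d h.1 h1 h.2

theorem not_dvd_orderOf_sl [Finite E] {τ d : E} (hi : Irr τ d) {A : SL(2, E)} (h0 : Cl τ d (A : M2 E))
    (p : ℕ) [Fact p.Prime] [CharP E p] : ¬ p ∣ orderOf A := by
  refine not_dvd_orderOf (x := A) Fact.out fun k e => Subtype.ext ?_
  have := congrArg Subtype.val e
  simp only [Matrix.SpecialLinearGroup.coe_pow, Matrix.SpecialLinearGroup.coe_one] at this ⊢
  exact h0.pow_eq_one hi p this

end SL2

variable {ι Φ : Type} [Fintype ι] [DecidableEq ι] {R : RootSys ι Φ} {κ : Type} {T : Sym R κ}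
  {F : Type*} [Field F] {G : Type*} [Group G] {C : ChevSys R F G} [Fintype Φ]

theorem w0_comm (hw0 : ∀ r, wJ R Set.univ r = R.neg r) {w : Perm Φ} (hw : w ∈ T.W1) :
    w * wJ R Set.univ = wJ R Set.univ * w :=
  Equiv.ext fun r => by simp only [Perm.mul_apply, hw0, (Sym.isAut_of_mem hw).neg]

namespace Lev

variable {S : Twist C T} {K : Subgroup G} {a b : κ} {E : Type*} [Field E] (L : Lev S K a b E)

theorem act' {n : G} (hn : n ∈ K) {w : Perm Φ} (h : C.NW n w)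
    (hw : ∀ i, T.orb i = b → w (R.simple i) = R.simple i) :
    ∃ s : Eˣ, ∀ A, n * L.φ A * n⁻¹ = L.φ (dc s A) := by
  obtain ⟨c, hc⟩ := h.exists_acts
  obtain ⟨s, h1, h2⟩ := L.act n hn w c hc hw
  refine ⟨s, sl2_hom_ext (φ := (MulAut.conj n).toMonoidHom.comp L.φ) (ψ := L.φ.comp (dc s))
    (fun t => (h1 t).trans (congrArg L.φ ?_)) fun t => (h2 t).trans (congrArg L.φ ?_)⟩ <;>
  exact sl2_ext (by simp [dc_coe]) (by simp [dc_coe]) (by simp [dc_coe]) (by simp [dc_coe])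

variable {L} in
theorem fpf_φ {c : G} (h : Fpf c (C.UJ (T.J b) ⊓ K)) (P : SL(2, E)) :
    Fpf (L.φ P * c * (L.φ P)⁻¹) (C.UJ (T.J b) ⊓ K) :=
  h.conj (fun _ => conj_mem_inf (L_norm_UJ _ (L.φ_mem_L P)) (L.φ_mem P))
    fun _ => inv_conj_mem_inf (L_norm_UJ _ (L.φ_mem_L P)) (L.φ_mem P)

omit L in
theorem fpf_m (hw0 : ∀ r, wJ R Set.univ r = R.neg r) {c m : G} (h : Fpf c (C.UJ (T.J b) ⊓ K))
    (hm : m ∈ K) (hw : C.NW m (wJ R Set.univ * T.s b)) : Fpf (m * c * m⁻¹) (Qm C (T.J b) ⊓ K) := by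
  have key : ∀ r, 0 < (-fJ (T.J b)) (R.α ((wJ R Set.univ * T.s b) r)) ↔ 0 < fJ (T.J b) (R.α r) := by
    intro r
    rw [neg_fJ_pos_iff, fJ_pos_iff, Perm.mul_apply, hw0, isPos_neg_iff, not_not, inJ_neg_iff, Sym.s,
      inJ_apply (wJ_mem _)]
    exact and_congr_left fun h => isPos_apply_of_not_inJ (wJ_mem _) h
  exact h.conj (fun y hy => ⟨NW.conj_mem hw (fun r hr => (key r).2 hr) hy.1,
      K.mul_mem (K.mul_mem hm hy.2) (K.inv_mem hm)⟩)
    fun y hy => ⟨NW.inv_conj_mem hw (fun r hr => (key r).1 hr) hy.1,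
      K.mul_mem (K.mul_mem (K.inv_mem hm) hy.2) hm⟩

section Two
variable [Finite E] [Finite F] (h2 : (2 : E) = 0) (h2' : (2 : F) = 0) (hA : C.Adjoint)
  (hw0 : ∀ r, wJ R Set.univ r = R.neg r) (h4 : (T.s a * T.s b) ^ 4 ≠ 1) {m : G}
  (hm : C.NW m (wJ R Set.univ * T.s b)) (hc : ∀ A, Commute m (L.φ A)) (hd : L.Dec m 1)

omit [Finite F] in
include h2 in
theorem exists_Z {h : G} (h1 : h ∈ C.H) (hK : h ∈ K) :
    ∃ z ∈ C.H ⊓ K, (∀ A, Commute z (L.φ A)) ∧ ∃ B, h = z * L.φ B := by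
  obtain ⟨s, hs⟩ := L.act' hK (nw_of_mem_H h1) fun _ _ => rfl
  obtain ⟨t, ht⟩ := exists_sq_eq h2 (s : E)
  obtain ⟨t, rfl⟩ : IsUnit t := Ne.isUnit fun e => s.ne_zero (by rw [← ht, e]; simp)
  obtain rfl : s = t ^ 2 := Units.ext ht.symm
  set D := wS (t : E) * (wS 1)⁻¹
  have hD : L.φ D ∈ C.H := by
    rw [map_mul, map_inv]
    exact NW.mem_H (by simpa using (L.nw' t).mul L.nw.inv)
  have h3 : ∀ A, Commute ((L.φ D)⁻¹ * h) (L.φ A) := fun A => by
    rw [Commute, SemiconjBy, mul_assoc, mul_inv_eq_iff_eq_mul.1 (hs A), dc_sq]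
    simp [D, mul_assoc]
  exact ⟨_, ⟨C.H.mul_mem (C.H.inv_mem hD) h1, K.mul_mem (K.inv_mem (L.φ_mem D)) hK⟩, h3, D,
    by rw [(h3 D).eq, mul_inv_cancel_left]⟩

omit [Finite E] [Finite F] in
include hA hw0 hm in
theorem conj_Z {z : G} (hz : z ∈ C.H) (h : ∀ A, Commute z (L.φ A)) : m * z * m⁻¹ = z⁻¹ := by
  have h1 := hm.mul L.nw
  rw [mul_assoc, Sym.s_mul_self, mul_one] at h1
  rw [← Twist.conj_eq_inv hA h1 hw0 hz, mul_assoc m _ z, ← (h _).eq]; group

omit [Finite E] in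
include h2' hA hw0 hm hd in
theorem dec_Z {z : G} (hz : z ∈ C.H ⊓ K) (h : ∀ A, Commute z (L.φ A)) : L.Dec (z * m) 1 := by
  have : CharP F 2 := CharTwo.of_one_ne_zero_of_two_eq_zero one_ne_zero h2'
  have := Fintype.ofFinite F
  obtain ⟨e, ⟨he, he'⟩, rfl⟩ := exists_mul_self_eq
    (A := (C.H ⊓ K) ⊓ Subgroup.centralizer (L.φ.range : Set G)) (n := Nat.card Fˣ) (g := z) (by
      rw [Nat.card_units, Nat.card_eq_fintype_card]
      exact Nat.Even.sub_odd Fintype.card_pos (FiniteField.even_card_of_char_two (ringChar.eq F 2) |>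
        Nat.even_iff.2) odd_one) (fun g hg => by
      obtain ⟨c, rfl⟩ := exists_eq_tor hA hg.1.1
      rw [← map_pow, show c ^ Nat.card Fˣ = 1 from funext fun i => pow_card_eq_one', map_one])
    ⟨hz, by rintro _ ⟨A, rfl⟩; exact (h A).eq.symm⟩
  have h1 : ∀ A, Commute e (L.φ A) := fun A => (he' _ ⟨A, rfl⟩).symm
  have h3 : ∀ r A, L.Pr r A → L.Pr (e * r * e⁻¹) A := by
    rintro _ A ⟨q, hq, rfl⟩
    exact ⟨_, conj_mem_inf (C.H_le_normalizer _ he.1) he.2 hq, by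
      rw [← mul_assoc e, (h1 A).eq]; group⟩
  obtain ⟨r₁, A₁, r₂, A₂, v, hv, p₁, p₂, e1, e2⟩ := hd
  refine ⟨_, A₁, _, A₂, _, conj_mem_inf (C.H_le_normalizer _ he.1) he.2 hv, h3 _ _ p₁, h3 _ _ p₂,
    ?_, e2⟩
  calc e * e * m = e * (m * e * m⁻¹)⁻¹ * m := by rw [L.conj_Z hA hw0 hm he.1 h1]; group
    _ = e * m * e⁻¹ := by group
    _ = _ := by rw [e1]; group

omit [Finite E] [Finite F] in
include h2 in
theorem cov_of_good {g : K} (h : L.δ g * T.s b ≠ T.s b * L.δ g) :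
    ∃ A, L.Cov g A ∧ (A = 1 ∨ (A : M2 E).trace ≠ 0) := by
  obtain ⟨A, h | h⟩ := cov_good h
  · obtain ⟨σ, e⟩ := (exists_noninv h2 A).1; exact ⟨_, h σ, e⟩
  · obtain ⟨σ, e⟩ := (exists_noninv h2 A).2; exact ⟨_, h σ, e⟩

omit [Finite E] [Finite F] in
include h2 hw0 h4 in
theorem cov_of_w1 {g : K} (h : L.δ g = wJ R Set.univ * T.s b) :
    ∃ A, L.Cov g A ∧ (A = 1 ∨ (A : M2 E).trace ≠ 0) := by
  obtain ⟨k, hk⟩ := δ_conj (L := L) g
  obtain ⟨A, h1, h3⟩ := L.cov_of_good h2 (g := k * g * k⁻¹) fun e => h4 (by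
    have ha := w0_comm hw0 (Sym.s_mem (T := T) a)
    have hb := w0_comm hw0 (Sym.s_mem (T := T) b)
    have ea : ∀ x, T.s a * (T.s a * x) = x := fun x => by rw [← mul_assoc, Sym.s_mul_self, one_mul]
    have eb : ∀ x, T.s b * (T.s b * x) = x := fun x => by rw [← mul_assoc, Sym.s_mul_self, one_mul]
    rcases hk with e' | e' <;> rw [e', h, ← mul_assoc, ha] at e <;>
      simp only [← mul_assoc, hb] at e <;> simp only [mul_assoc, mul_right_inj] at e
    · calc _ = T.s a * (T.s b * (T.s a * T.s b)) * (T.s a * (T.s b * (T.s a * T.s b))) := by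
            simp only [pow_succ, pow_zero, one_mul, mul_assoc]
        _ = 1 := by
            nth_rw 1 [e]; simp only [mul_assoc, ea, eb, Sym.s_mul_self]
    · calc _ = T.s a * (T.s b * (T.s a * T.s b)) * (T.s a * (T.s b * (T.s a * T.s b))) := by
            simp only [pow_succ, pow_zero, one_mul, mul_assoc]
        _ = 1 := by rw [← e]; simp only [mul_assoc, ea, eb, Sym.s_mul_self, mul_one])
  exact ⟨A, h1.of_conj (conjK_conj k.2 _), h3⟩

include h2 h2' hA hw0 h4 hm hc hd in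
theorem cov_two {g : K} (h1 : L.δ g ≠ 1) (h3 : L.δ g ≠ T.s b) :
    ∃ A, L.Cov g A ∧ (A = 1 ∨ (A : M2 E).trace ≠ 0) := by
  by_cases h : L.δ g * T.s b = T.s b * L.δ g
  swap
  · exact L.cov_of_good h2 h
  rcases eq_of_comm L.ne L.all ((twTits L.tw L.top).δ g).2 h with e | e | e | e
  · exact absurd e h1
  · exact absurd e h3
  · exact L.cov_of_w1 h2 hw0 h4 e
  obtain ⟨n, hn, hw, u, hu, e1⟩ := exists_conj_δ (L := L) g
  have hmK : m ∈ K := by
    obtain ⟨_, _, _, _, v, hv, p₁, p₂, rfl, -⟩ := hd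
    exact mul_mem (mul_mem p₁.mem hv.2) p₂.mem
  have h5 := hm.mul L.nw
  rw [mul_assoc, Sym.s_mul_self, mul_one, ← show L.δ g = _ from e] at h5
  obtain ⟨z, hz, hz', B, e2⟩ := L.exists_Z h2 (h := n * (m * L.φ (wS 1))⁻¹)
    (NW.mem_H (by simpa using hw.mul h5.inv)) (mul_mem hn (inv_mem (mul_mem hmK (L.φ_mem _))))
  obtain ⟨t, ht⟩ := pr_U (L := L) hu
  have h6 := (pr_φ (L := L) (B * wS 1)).mul ht
  have e3 : n * u = z * m * (L.φ (B * wS 1) * u) := by
    rw [mul_inv_eq_iff_eq_mul.1 e2, map_mul, mul_assoc z, ← mul_assoc (L.φ B), ← (hc B).eq]; group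
  rw [e3] at e1
  generalize B * wS 1 * xU t = A, L.φ (B * wS 1) * u = r at h6 e1
  by_cases h7 : (A : M2 E).trace = 0
  · obtain ⟨P, σ, e4⟩ := exists_unip h2 h7
    have h8 := ((pr_φ P⁻¹).mul h6).mul (pr_φ P)
    rw [mul_assoc P⁻¹, e4, inv_mul_cancel_left] at h8
    obtain ⟨q, hq, e5⟩ := h8
    have h9 : z * m ∈ K := mul_mem hz.2 hmK
    have h10 := mul_mem (X_le_UK L.tw b (L.X_mem σ)) (show q ∈ C.U ⊓ K from ⟨C.UJ_le_U _ hq.1, hq.2⟩)
    obtain ⟨A', h11, h12⟩ := L.cov_of_w1 h2 hw0 h4 (g := ⟨_, h9⟩ * ⟨_, h10.2⟩) (by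
      rw [δ, Tits.δ_mul_B _ _ (by rw [twTits_B]; exact C.U_le_B h10.1),
        twTits_δ (w := ⟨_, T.W1.mul_mem Sym.w0_mem_W1 (Sym.s_mem b)⟩) _ _
          (by simpa using (nw_of_mem_H hz.1).mul hm)])
    refine ⟨A', h11.of_conj (e1.trans ⟨_, L.φ_mem P⁻¹, ?_⟩), h12⟩
    simp only [Subgroup.coe_mul, ← e5, ← mul_assoc, (((hz' _).mul_left (hc _)).eq)]
    simp
  · exact ⟨A, by simpa using ((L.dec_Z h2' hA hw0 hm hd hz hz').cov h6).of_conj e1, Or.inr h7⟩

include h2 h2' hA hw0 h4 hm hc hd in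
theorem sq_two [Finite G] [IsSimpleGroup K] {τ : E} (hi : Irr τ 1) {A₀ : SL(2, E)}
    (h0 : Cl τ 1 (A₀ : M2 E)) {z : G} (hz : z ∈ C.H ⊓ K) (hz' : ∀ A, Commute z (L.φ A))
    (hf : Fpf (z * L.φ A₀) (C.UJ (T.J b) ⊓ K)) :
    ∃ x : K, ¬ 2 ∣ orderOf x ∧ ∀ g : K, g ≠ 1 → Sq x g := by
  have : CharP F 2 := CharTwo.of_one_ne_zero_of_two_eq_zero one_ne_zero h2'
  have : CharP E 2 := CharTwo.of_one_ne_zero_of_two_eq_zero one_ne_zero h2
  have hmK : m ∈ K := by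
    obtain ⟨_, _, _, _, v, hv, p₁, p₂, rfl, -⟩ := hd
    exact mul_mem (mul_mem p₁.mem hv.2) p₂.mem
  refine ⟨⟨z * L.φ A₀, mul_mem hz.2 (L.φ_mem _)⟩, fun h => ?_, fun g hg => SqK.sq ?_⟩
  · rw [← Subgroup.orderOf_coe] at h
    rcases (Nat.Prime.dvd_mul Nat.prime_two).1 (h.trans (hz' A₀).orderOf_mul_dvd_mul_orderOf) with h | h
    · obtain ⟨c, rfl⟩ := exists_eq_tor hA hz.1
      have := Fintype.ofFinite F
      have h1 := h.trans (orderOf_dvd_of_pow_eq_one (n := Nat.card Fˣ) (by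
        rw [← map_pow, show c ^ Nat.card Fˣ = 1 from funext fun i => pow_card_eq_one', map_one]))
      have h3 := FiniteField.even_card_of_char_two (ringChar.eq F 2)
      rw [Nat.card_units, Nat.card_eq_fintype_card] at h1
      have := Fintype.card_pos (α := F)
      omega
    · exact not_dvd_orderOf_sl hi h0 2 (h.trans (orderOf_map_dvd L.φ A₀))
  · obtain ⟨k, h1, h3⟩ := L.exists_conj_ne hg
    obtain ⟨A, h5, h6⟩ := L.cov_two h2 h2' hA hw0 h4 hm hc hd h1 h3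
    have hτ : τ ≠ 0 := fun e => hi.disc (by rw [e]; linear_combination -2 * h2)
    obtain ⟨X, Y, hX, hY, e⟩ := exists_mul_sl hτ (d := 1) A.2 (h6.imp (fun e => by rw [e]; rfl)
      fun e => ⟨fun c e' => e (by rw [e', trace_smul, trace_one]; simp [h2]), by rwa [h2]⟩)
    have key : ∀ (X : M2 E) (hX : Cl τ 1 X), ∃ P : SL(2, E),
        L.φ P * (z * L.φ A₀) * (L.φ P)⁻¹ = z * L.φ (mkSL X hX.2) := fun X hX => by
      obtain ⟨P, hP⟩ := h0.exists_conj hi hX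
      refine ⟨P, ?_⟩
      rw [mul_inv_eq_iff_eq_mul, ← mul_assoc, ← (hz' P).eq, mul_assoc, mul_assoc, ← map_mul,
        ← map_mul]
      congr 2
      exact Subtype.ext hP.symm
    obtain ⟨P, hP⟩ := key X hX
    obtain ⟨P', hP'⟩ := key Y hY
    refine (h5.of_conj (conjK_conj k.2 _)).sqK (c₁ := m * (L.φ P * (z * L.φ A₀) * (L.φ P)⁻¹) * m⁻¹)
      ?_ ((conjK_conj (L.φ_mem P) _).trans (conjK_conj hmK _)) (conjK_conj (L.φ_mem P') _)
      (fpf_m hw0 (fpf_φ hf P) hmK hm) (fpf_φ hf P')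
    rw [hP, hP', show A = mkSL X hX.2 * mkSL Y hY.2 from Subtype.ext (e.trans (one_smul _ _)).symm, map_mul,
      ← mul_assoc m, mul_assoc _ _ m⁻¹, ← (hc _).inv_left.eq, ← mul_assoc, ← mul_assoc,
      L.conj_Z hA hw0 hm hz.1 hz', mul_assoc z⁻¹, ← (hz' _).eq, inv_mul_cancel_left]

end Two

end Lev

end Cfsg.Lib.CC
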