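import Cfsg.Agent.Lib.CC.Basic

/-!
# The Siegel parabolic subgroup of the symplectic group
-/

set_option autoImplicit false

namespace Cfsg.Lib.CC

open Matrix SymplecticGroup
open scoped MatrixGroups

variable {l : Type*} [Fintype l] [DecidableEq l] {F : Type*} [Field F]

/-- the symplectic group -/
abbrev Sp (l : Type*) [Fintype l] [DecidableEq l] (F : Type*) [Field F] := symplecticGroup l F

theorem sp_ext {g h : Sp l F} (e : g.1 = h.1) : g = h := Subtype.ext e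

theorem sp_mul (g h : Sp l F) : (g * h).1 = g.1 * h.1 := rfl

/-- upper unitriangular block matrices -/
def spU (s : Matrix l l F) (hs : sᵀ = s) : Sp l F :=
  ⟨fromBlocks 1 s 0 1, fromBlocks_mem_iff.2 (by simp [hs])⟩

/-- lower unitriangular block matrices -/
def spV (s : Matrix l l F) (hs : sᵀ = s) : Sp l F :=
  ⟨fromBlocks 1 0 s 1, fromBlocks_mem_iff.2 (by simp [hs])⟩

/-- the Levi complement -/
def spL : GL l F →* Sp l F where
  toFun M := ⟨fromBlocks M 0 0 M⁻¹.valᵀ, fromBlocks_mem_iff.2 (by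
    simp only [← transpose_mul]; simp)⟩
  map_one' := sp_ext (by simp)
  map_mul' M N := sp_ext (by simp [sp_mul, fromBlocks_multiply, Matrix.mul_inv_rev])

theorem spL_coe (M : GL l F) :
    (spL M).1 = fromBlocks M.val 0 0 M⁻¹.valᵀ := rfl

variable (l F) in
/-- the unipotent radical -/
def QU : Subgroup (Sp l F) where
  carrier := {g | ∃ s, g.1 = fromBlocks 1 s 0 1}
  mul_mem' := by
    rintro a b ⟨s, hs⟩ ⟨t, ht⟩
    exact ⟨t + s, by rw [sp_mul, hs, ht]; simp [fromBlocks_multiply]⟩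
  one_mem' := ⟨0, by simp⟩
  inv_mem' := by
    rintro a ⟨s, hs⟩
    exact ⟨-sᵀ, by rw [coe_inv, hs]; simp [J, fromBlocks_multiply, fromBlocks_transpose, fromBlocks_neg]⟩

variable (l F) in
/-- the opposite unipotent radical -/
def QV : Subgroup (Sp l F) where
  carrier := {g | ∃ s, g.1 = fromBlocks 1 0 s 1}
  mul_mem' := by
    rintro a b ⟨s, hs⟩ ⟨t, ht⟩
    exact ⟨s + t, by rw [sp_mul, hs, ht]; simp [fromBlocks_multiply]⟩
  one_mem' := ⟨0, by simp⟩
  inv_mem' := by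
    rintro a ⟨s, hs⟩
    exact ⟨-sᵀ, by rw [coe_inv, hs]; simp [J, fromBlocks_multiply, fromBlocks_transpose, fromBlocks_neg]⟩

theorem symJ_coe : (symJ l F).1 = fromBlocks 0 (-1) 1 0 := rfl

theorem symJ_inv_coe : (symJ l F)⁻¹.1 = fromBlocks 0 1 (-1) 0 := by
  rw [coe_inv, symJ_coe]; simp [J, fromBlocks_multiply, fromBlocks_transpose, fromBlocks_neg]

theorem J_conj {g : Sp l F} {A B C D : Matrix l l F} (h : g.1 = fromBlocks A B C D) :
    (symJ l F * g * (symJ l F)⁻¹).1 = fromBlocks D (-C) (-B) A := by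
  rw [sp_mul, sp_mul, symJ_inv_coe, symJ_coe, h]; simp [fromBlocks_multiply]

theorem J_inv_conj {g : Sp l F} {A B C D : Matrix l l F} (h : g.1 = fromBlocks A B C D) :
    ((symJ l F)⁻¹ * g * symJ l F).1 = fromBlocks D (-C) (-B) A := by
  rw [sp_mul, sp_mul, symJ_inv_coe, symJ_coe, h]; simp [fromBlocks_multiply]

theorem Fpf.J {c : Sp l F} (h : Fpf c (QV l F)) : Fpf (symJ l F * c * (symJ l F)⁻¹) (QU l F) :=
  h.conj (by rintro y ⟨s, hs⟩; exact ⟨-s, by simpa using J_conj hs⟩)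
    (by rintro y ⟨s, hs⟩; exact ⟨-s, by simpa using J_inv_conj hs⟩)

theorem spL_conj (M : GL l F) {g : Sp l F} {A B C D : Matrix l l F} (h : g.1 = fromBlocks A B C D) :
    (spL M * g * (spL M)⁻¹).1 = fromBlocks (M.val * A * M⁻¹.val) (M.val * B * M.valᵀ)
      (M⁻¹.valᵀ * C * M⁻¹.val)
      (M⁻¹.valᵀ * D * M.valᵀ) := by
  rw [← map_inv, sp_mul, sp_mul, spL_coe, spL_coe, h, inv_inv]; simp only [fromBlocks_multiply]; simp

theorem spL_conj_QV (M : GL l F) : ∀ y ∈ QV l F, spL M * y * (spL M)⁻¹ ∈ QV l F := by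
  rintro y ⟨s, hs⟩
  exact ⟨_, by rw [spL_conj M hs]; simp only [Matrix.mul_one, ← transpose_mul]; simp; rfl⟩

theorem fpf_spL {M : GL l F} (h : ∀ s : Matrix l l F, sᵀ = s →
    M.valᵀ * s * M.val = s → s = 0) : Fpf (spL M) (QV l F) := by
  refine ⟨spL_conj_QV M, ?_⟩
  rintro y ⟨s, hs⟩ e
  have h1 := spL_conj M hs
  rw [e, hs] at h1
  have h2 := (fromBlocks_inj.1 h1).2.2.1
  have h3 : sᵀ = s := by
    have := (fromBlocks_mem_iff.1 (hs ▸ y.2)).1
    rw [transpose_one, Matrix.one_mul, Matrix.mul_one] at this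
    exact this.symm
  have := h s h3 (by
    conv_lhs => rw [h2]
    simp only [← Matrix.mul_assoc, ← transpose_mul]
    simp only [Matrix.mul_assoc]; simp)
  exact sp_ext (by rw [hs, this]; simp)

theorem exists_decomp {g : Sp l F} {B C D : Matrix l l F} {A : GL l F}
    (h : g.1 = fromBlocks A.val B C D) :
    ∃ v ∈ QV l F, ∃ u ∈ QU l F, g = v * spL A * u := by
  obtain ⟨h1, -, h3⟩ := fromBlocks_mem_iff.1 (h ▸ g.2)
  have hs : (C * A⁻¹.val)ᵀ = C * A⁻¹.val := by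
    calc (C * A⁻¹.val)ᵀ =
        A⁻¹.valᵀ * (Cᵀ * A.val) * A⁻¹.val := by simp [Matrix.mul_assoc]
      _ = _ := by rw [← h1, ← Matrix.mul_assoc, ← transpose_mul]; simp
  have hs' : (-(C * A⁻¹.val))ᵀ = -(C * A⁻¹.val) := by rw [transpose_neg, hs]
  refine ⟨(spV _ hs')⁻¹, (QV l F).inv_mem ⟨_, rfl⟩, spL A⁻¹ * spV _ hs' * g, ⟨A⁻¹.val * B, ?_⟩,
    by simp [mul_assoc]⟩
  rw [sp_mul, sp_mul, spL_coe, h, inv_inv]
  simp only [spV, fromBlocks_multiply]
  have : A.valᵀ * C * A⁻¹.val = Cᵀ := by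
    rw [h1, Matrix.mul_assoc]; simp
  simp only [Matrix.mul_one, Matrix.mul_zero, Matrix.zero_mul, zero_add, add_zero, Matrix.mul_neg,
    ← Matrix.mul_assoc, this, Matrix.neg_mul, ← h1, transpose_transpose]
  rw [← h3]
  simp [sub_eq_neg_add]
  rw [← sub_eq_neg_add, h3]

theorem U_conj {g : Sp l F} {A B C D : Matrix l l F} (h : g.1 = fromBlocks A B C D)
    {s : Matrix l l F} (hs : sᵀ = s) : ∃ B' D', (spU s hs * g * (spU s hs)⁻¹).1 =
      fromBlocks (A + s * C) B' C D' := by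
  refine ⟨-((A + s * C) * s) + (B + s * D), -(C * s) + D, ?_⟩
  rw [sp_mul, sp_mul, coe_inv, h]
  simp [spU, J, fromBlocks_multiply, fromBlocks_transpose, fromBlocks_neg, hs]

theorem V_conj {g : Sp l F} {A D : Matrix l l F} (h : g.1 = fromBlocks A 0 0 D)
    {s : Matrix l l F} (hs : sᵀ = s) : (spV s hs * g * (spV s hs)⁻¹).1 =
      fromBlocks A 0 (s * A - D * s) D := by
  rw [sp_mul, sp_mul, coe_inv, h]
  simp [spV, J, fromBlocks_multiply, fromBlocks_transpose, fromBlocks_neg, hs, sub_eq_add_neg]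

theorem mem_center_of_smul {g : Sp l F} {a : F} (h : g.1 = a • 1) : g ∈ Subgroup.center (Sp l F) :=
  Subgroup.mem_center_iff.2 fun k => sp_ext (by simp [sp_mul, h])

end Cfsg.Lib.CC
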