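import Cfsg.Agent.Lib.CC.TData

/-!
# The data on the classical root systems
-/

set_option autoImplicit false

namespace Cfsg.Lib.CC

open Cfsg.Lib.Chev Cfsg.Lib.Chev.RootSys Fin

theorem simple_A {n : ℕ} (i : Fin n) : ((rootA n).simple i).1 = (i.castSucc, i.succ) := rfl

theorem td_A {n : ℕ} (hn : 1 ≤ n) : TD (rootA n) := by
  rcases eq_or_ne n 3 with rfl | h3
  · refine td_of_orth (k := 0) (by decide) ![] ![⟨(0, 3), by decide⟩, ⟨(1, 2), by decide⟩] ![2, 1]
      ⟨(0, 1), by decide⟩ _ (fun _ => rfl) ?_ (by decide) (by simp) ?_ ?_ (by simp) <;>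
    simp only [pair_A, simple_A] <;> decide +kernel
  refine td_of_orth (k := n - 2) (by omega) (fun j => ⟨j + 1, by omega⟩)
    (fun _ : Unit => ⟨(0, last n), by simp [Fin.ext_iff]; omega⟩) 1
    ((rootA n).neg ((rootA n).simple ⟨0, hn⟩)) _ (fun _ => rfl) (fun _ _ h => (h rfl).elim)
    (fun i j => ?_) (fun j => ?_) (fun i hi => ?_) (fun r => ?_) fun j => ?_
  · simp only [A_A, Fin.ext_iff]
    omega
  · simp only [pair_A, simple_A, pA, Fin.ext_iff, val_castSucc, val_succ, val_zero, val_last]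
    simp
    omega
  · have : ¬ (1 ≤ i.val ∧ i.val ≤ n - 2) := fun h => hi ⟨i - 1, by omega⟩ (Fin.ext (by simp; omega))
    simp only [pair_A, simple_A, pA, Fin.ext_iff, val_castSucc, val_succ, val_zero, val_last]
    simp
    omega
  · simp only [pair_A, pA]
    simp
    omega
  · simp only [pair_neg_left, pair_simple_simple, A_A, Fin.ext_iff]
    omega

theorem sum_dl {N m : ℕ} (h : m ≤ N) (c : ℕ → ℤ) (x : Fin N) :
    ∑ a : Fin m, c a * dl (castLE h a) x = (if x.val < m then c x else 0) -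
      if N - 1 - x < m then c (N - 1 - x) else 0 := by
  have h1 : ∀ a : ℕ, a + x + 1 = N ↔ a = N - 1 - x := fun a => by omega
  simp only [dl_def, val_castLE, h1, mul_sub, mul_ite, mul_one, mul_zero, Finset.sum_sub_distrib]
  rw [Fin.sum_univ_eq_sum_range fun a => if a = x then c a else 0,
    Fin.sum_univ_eq_sum_range fun a => if a = N - 1 - x then c a else 0]
  simp

theorem simple_C {n : ℕ} (i : Fin n) :
    ((rootC n).simple i).1 = (⟨i, by omega⟩, ⟨2 * n - 2 - i, by omega⟩) := rfl

theorem td_C {n : ℕ} (hn : 2 ≤ n) : TD (rootC n) := by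
  rcases hn.eq_or_lt with rfl | h3
  · refine td_of_orth (k := 0) (by decide) ![] ![.long 0, .long 1] ![2, 1] (.long 0) _
      (fun _ => rfl) ?_ (by decide) (by simp) ?_ ?_ (by simp) <;>
    simp only [pair_C, Rt.P, simple_C] <;> decide +kernel
  refine td_of_orth (k := n - 1) (by omega) (castLE (by omega))
    (fun a : Fin n => .long (castLE (by omega) a)) (fun _ => 1) (.long ⟨0, by omega⟩)
    (fun s => (if s.1.1.val < n then 1 else -1) + if s.1.2.val < n then 1 else -1) (fun s => ?_)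
    (fun a b h => ?_) (fun i j => ?_) (fun j => ?_) (fun i hi => ?_) (fun r => ?_) fun j => ?_
  · simp only [pair_C, Rt.P_long, mul_add, Finset.sum_add_distrib,
      sum_dl (by omega : n ≤ 2 * n) fun _ => 1]
    have := s.1.1.2
    have := s.1.2.2
    omega
  · rw [pair_C, Rt.P_long]
    simp only [Rt.long, dl_def, val_castLE, ne_eq, Fin.ext_iff] at h ⊢
    omega
  · simp only [A_C, Fin.ext_iff, val_castLE]
    omega
  · simp only [simple_C, val_castLE]
    omega
  · have : ¬ i.val < n - 1 := fun h => hi ⟨i, h⟩ rfl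
    simp only [simple_C]
    omega
  · omega
  · simp only [pair_C, Rt.P_long, simple_C, dl_def, val_castLE]
    omega

theorem simple_B {n : ℕ} (i : Fin n) :
    ((rootB n).simple i).1 = (⟨i, by omega⟩, ⟨2 * n - 1 - i, by omega⟩) := rfl

theorem td_B {n : ℕ} (hn : 3 ≤ n) : TD (rootB n) := by
  rcases hn.eq_or_lt with rfl | h3
  · refine td_of_orth (k := 0) (by decide) ![] ![⟨(0, 2), by decide⟩, ⟨(0, 4), by decide⟩,
      ⟨(1, 3), by decide⟩] ![2, 1, 1] ⟨(0, 1), by decide⟩ _
      (fun _ => rfl) ?_ (by decide) (by simp) ?_ ?_ (by simp) <;>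
    simp only [pair_B, Rt.P, simple_B] <;> decide +kernel
  let r : Fin n → Rt (2 * n + 1) false := fun a => ⟨(castLE (by omega) a, ⟨n, by omega⟩),
    .inl a.2, by simp [Fin.ext_iff]; omega⟩
  have hr : ∀ a s, (rootB n).pair (r a) s =
      2 * dl (castLE (by omega) a) s.1.1 + 2 * dl (castLE (by omega) a) s.1.2 := fun a s => by
    have : (⟨n, by omega⟩ : Fin (2 * n + 1)) = rev ⟨n, by omega⟩ := by simp [Fin.ext_iff]; omega
    simp only [pair_B, Rt.P, r, pc_def, dl_mid this, val_castLE, a.2.ne, or_true, if_true, if_false,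
      add_zero]
  let c : ℕ → ℤ := fun a => if a = 0 then 4 else 2
  let X : Fin (2 * n + 1) → ℤ := fun x => (if x.val < n then c x else 0) -
    if 2 * n + 1 - 1 - x < n then c (2 * n + 1 - 1 - x) else 0
  refine td_of_orth (k := n - 2) (by omega) (fun j => ⟨j + 1, by omega⟩) r
    (fun a => if a.val = 0 then 2 else 1) ((rootB n).neg ((rootB n).simple ⟨0, by omega⟩))
    (fun s => X s.1.1 + X s.1.2) (fun s => ?_)
    (fun a b h => ?_) (fun i j => ?_) (fun j => ?_) (fun i hi => ?_) (fun r => ?_) fun j => ?_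
  · simp only [hr, X, ← sum_dl (by omega : n ≤ 2 * n + 1) c, ← Finset.sum_add_distrib]
    exact Finset.sum_congr rfl fun a _ => by simp only [c]; split_ifs <;> ring
  · simp only [hr, r, dl_def, val_castLE, ne_eq, Fin.ext_iff] at h ⊢
    omega
  · simp only [A_B, Fin.ext_iff]
    omega
  · simp only [simple_B, X, c]
    omega
  · have : ¬ (1 ≤ i.val ∧ i.val ≤ n - 2) := fun h => hi ⟨i - 1, by omega⟩ (Fin.ext (by simp; omega))
    simp only [simple_B, X, c]
    omega
  · have := r.lt
    simp only [X, c]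
    omega
  · simp only [pair_neg_left, pair_simple_simple, A_B, Fin.ext_iff]
    omega

theorem simple_D {n : ℕ} (hn : 2 ≤ n) (i : Fin n) :
    ((rootD hn).simple i).1 = (⟨min i (n - 2), by omega⟩, ⟨2 * n - 2 - i, by omega⟩) := rfl

theorem td_D {n : ℕ} (hn : 2 ≤ n) (h4 : 4 ≤ n) : TD (rootD hn) := by
  have h0 : n - 1 ≤ 2 * n := by omega
  let p : Fin (n - 1) → Rt (2 * n) false := fun a => ⟨(castLE h0 a, ⟨n - 1, by omega⟩),
    .inl a.2, by simp [Fin.ext_iff]; omega⟩
  let m : Fin (n - 1) → Rt (2 * n) false := fun a => ⟨(castLE h0 a, ⟨n, by omega⟩),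
    .inl (a.2.trans_le (Nat.sub_le _ _)), by simp [Fin.ext_iff]; omega⟩
  have hr : ∀ a s, (rootD hn).pair (p a) s + (rootD hn).pair (m a) s =
      2 * dl (castLE h0 a) s.1.1 + 2 * dl (castLE h0 a) s.1.2 := fun a s => by
    have : (⟨n, by omega⟩ : Fin (2 * n)) = rev ⟨n - 1, by omega⟩ := by simp [Fin.ext_iff]; omega
    simp only [pair_D, Rt.P_D, p, m, this, dl_rev_left]
    ring
  let X : Fin (2 * n) → ℤ := fun x => (if x.val < n - 1 then 2 else 0) -
    if 2 * n - 1 - x < n - 1 then 2 else 0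
  refine td_of_family (k := n - 2) (by omega) (castLE (by omega))
    (fun a => (rootD hn).pair (p a) + (rootD hn).pair (m a)) 1 (p ⟨0, by omega⟩)
    (fun s => X s.1.1 + X s.1.2) (fun s => ?_) (fun _ => add_mem (pair_mem_Qv _) (pair_mem_Qv _))
    (fun a => ⟨_, mul_mem (refl_mem_W _ (p a)) (refl_mem_W _ (m a)), fun s => ?_, fun b hb s => ?_⟩)
    (fun i j => ?_) (fun j => ?_) (fun i hi => ?_) (fun r => ?_) fun j => ?_
  · simp only [Pi.add_apply, hr, X, ← sum_dl h0 fun _ => 2, ← Finset.sum_add_distrib, Pi.one_apply,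
      one_mul]
  · have h1 : (rootD hn).pair (p a) (m a) = 0 := by
      simp only [pair_D, Rt.P_D, p, m, dl_def, val_castLE, if_true]
      omega
    have h2 := (pair_eq_zero_comm _).1 h1
    simp only [Pi.add_apply, Equiv.Perm.mul_apply, pair_refl, h1, h2, pair_self]
    ring
  · have h1 := hr b (p a)
    have h2 := hr b (m a)
    rw [show 2 * _ + 2 * _ = (0 : ℤ) by
      simp only [p, m, dl_def, val_castLE, ne_eq, Fin.ext_iff] at hb ⊢; omega] at h1 h2
    simp only [Pi.add_apply, Equiv.Perm.mul_apply]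
    rw [pair_refl, pair_refl _ (p a), pair_refl (p b), pair_refl (m b)]
    linear_combination -(rootD hn).pair (p a) ((rootD hn).refl (m a) s) * h1 -
      (rootD hn).pair (m a) s * h2
  · simp only [A_D, Fin.ext_iff, val_castLE]
    omega
  · simp only [simple_D, X, val_castLE]
    omega
  · have : ¬ i.val < n - 2 := fun h => hi ⟨i, h⟩ rfl
    simp only [simple_D, X]
    omega
  · simp only [X]
    omega
  · simp only [pair_D, Rt.P_D, simple_D, p, dl_def, val_castLE]
    omega

end Cfsg.Lib.CC
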