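import Cfsg.Agent.Lib.CC.TGauss
import Cfsg.Agent.Lib.Chev.Cent
import Cfsg.Agent.Lib.Chev.OverA
import Cfsg.Agent.Lib.Chev.CT
import Cfsg.Agent.Lib.Chev.Top

/-!
# Squares of classes in Chevalley groups: reduction to a Levi subgroup
-/

set_option autoImplicit false

namespace Cfsg.Lib.CC

open Cfsg.Lib.BN Cfsg.Lib.Chev Cfsg.Lib.Chev.RootSys Cfsg.Lib.Chev.ChevSys Cfsg.Lib.Twisted Equiv

variable {ι Φ : Type} [Fintype ι] [DecidableEq ι] {R : RootSys ι Φ}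
  {F : Type*} [Field F] {G : Type*} [Group G] {C : ChevSys R F G}

variable (R) in
/-- the coroot lattice, as functions on the roots -/
def Qv : AddSubgroup (Φ → ℤ) := AddSubgroup.closure (Set.range R.pair)

theorem pair_mem_Qv (r : Φ) : R.pair r ∈ Qv R := AddSubgroup.subset_closure ⟨r, rfl⟩

theorem exists_hom_of_Qv {f : Φ → ℤ} (hf : f ∈ Qv R) :
    ∃ φ : (ι → ℤ) →+ ℤ, ∀ s, f s = φ (R.α s) := by
  induction hf using AddSubgroup.closure_induction with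
  | mem _ h => obtain ⟨r, rfl⟩ := h; exact ⟨R.cv r, fun _ => rfl⟩
  | zero => exact ⟨0, fun _ => rfl⟩
  | add _ _ _ _ h1 h2 =>
    obtain ⟨a, ha⟩ := h1
    obtain ⟨b, hb⟩ := h2
    exact ⟨a + b, fun s => by simp [ha, hb]⟩
  | neg _ _ h1 => obtain ⟨a, ha⟩ := h1; exact ⟨-a, fun s => by simp [ha]⟩

variable (C) in
theorem exists_acts_of_Qv {f : Φ → ℤ} (hf : f ∈ Qv R) (t : Fˣ) :
    ∃ h ∈ C.H, C.Acts h 1 fun s => t ^ f s := by
  induction hf using AddSubgroup.closure_induction with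
  | mem _ h => obtain ⟨r, rfl⟩ := h; exact ⟨_, C.h_mem_H r t, C.acts_h r t⟩
  | zero => exact ⟨1, one_mem _, C.acts_one.congr rfl fun _ => by simp⟩
  | add _ _ _ _ h1 h2 =>
    obtain ⟨a, ha, ha'⟩ := h1
    obtain ⟨b, hb, hb'⟩ := h2
    exact ⟨a * b, mul_mem ha hb, (ha'.mul hb').congr (mul_one _) fun s => by simp [zpow_add]⟩
  | neg _ _ h1 =>
    obtain ⟨a, ha, ha'⟩ := h1
    exact ⟨a⁻¹, inv_mem ha, ha'.inv.congr inv_one fun s => by simp⟩

theorem exists_W_of_family {κ : Type*} [Finite κ] (g : κ → Φ → ℤ) (h : ∀ a, ∃ w ∈ R.W,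
    (∀ s, g a (w s) = -g a s) ∧ ∀ b, b ≠ a → ∀ s, g b (w s) = g b s) :
    ∃ w ∈ R.W, ∀ a s, g a (w s) = -g a s := by
  classical
  have := Fintype.ofFinite κ
  have key : ∀ A : Finset κ, ∃ w ∈ R.W, ∀ a s, g a (w s) = if a ∈ A then -g a s else g a s :=
    fun A => by
    induction A using Finset.induction_on with
    | empty => exact ⟨1, one_mem _, by simp⟩
    | insert b A hb ih =>
      obtain ⟨w, hw, h1⟩ := ih
      obtain ⟨v, hv, h2, h3⟩ := h b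
      refine ⟨w * v, mul_mem hw hv, fun a s => ?_⟩
      rcases eq_or_ne a b with rfl | e
      · simp [h1, h2, hb]
      · simp [h1, h3 a e, e]
  simpa using key Finset.univ

theorem pair_refl (r t s : Φ) : R.pair r (R.refl t s) = R.pair r s - R.pair t s * R.pair r t := by
  rw [pair, α_refl, map_sub, map_zsmul]; rfl

theorem acts_pow {z : G} {c : Φ → Fˣ} (h : C.Acts z 1 c) (m : ℕ) :
    C.Acts (z ^ m) 1 fun s => c s ^ m := by
  induction m with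
  | zero => exact (pow_zero z).symm ▸ C.acts_one.congr rfl fun _ => by simp
  | succ m ih => exact (pow_succ z m).symm ▸ (ih.mul h).congr (mul_one _) fun s => by simp [pow_succ]

variable [Fintype Φ]

theorem fpf_mul [Finite F] (hF : C.Faithful) {S : Set Φ} {f : (ι → ℤ) →+ ℤ} (hS : R.IsClosed S)
    (hf : ∀ r ∈ S, 0 < f (R.α r)) {z u : G} {c : Φ → Fˣ} (hz : C.Acts z 1 c) (hc : ∀ r ∈ S, c r ≠ 1)
    (hu : u ∈ C.U) (h1 : u ∈ Subgroup.normalizer (C.XS S : Set G)) (h2 : Commute z u) :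
    Fpf (z * u) (C.XS S) := by
  refine ⟨fun y hy => conj_mem_of_norm (mul_mem (hz.mem_normalizer fun _ => Iff.rfl) h1) hy,
    fun y hy e => ?_⟩
  obtain ⟨p, hp⟩ := CharP.exists F
  have := Fact.mk (CharP.char_is_prime F p)
  obtain ⟨m, hm⟩ := C.isPGroup_U p ⟨u, hu⟩
  have h3 : Commute ((z * u) ^ p ^ m) y := (show Commute (z * u) y from
    mul_inv_eq_iff_eq_mul.1 e).pow_left _
  rw [h2.mul_pow, show u ^ p ^ m = 1 from congrArg Subtype.val hm, mul_one] at h3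
  refine Subgroup.mem_bot.1 (hF.mem_of_map_eq hS hf hy (p := fun _ t => t = 0)
    (fun r _ t ht => by simp [ht]) fun r hr t ht => ⟨(MulAut.conj (z ^ p ^ m)).toMonoidHom,
      fun s t => (c s ^ p ^ m : Fˣ) * t, (acts_pow hz _).conj, mul_inv_eq_iff_eq_mul.2 h3.eq,
      fun e => hc r hr (Units.ext ?_)⟩)
  have h4 : (c r : F) ^ p ^ m = 1 := (mul_eq_right₀ ht).1 e
  have h5 := sub_pow_char_pow (c r : F) 1 (p := p) m
  rw [h4, one_pow, sub_self] at h5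
  exact sub_eq_zero.1 (pow_eq_zero_iff (pow_ne_zero _ this.out.ne_zero) |>.1 h5)

section Fun
variable {J : Set ι} {f : (ι → ℤ) →+ ℤ} (f0 : ∀ j ∈ J, f (R.α (R.simple j)) = 0)
  (f1 : ∀ i ∉ J, 0 < f (R.α (R.simple i)))
include f0

omit [Fintype Φ] in
theorem eq_zero_of_inJ {r : Φ} (hr : R.InJ J r) : f (R.α r) = 0 := by
  rw [R.map_eq_sum]
  refine Finset.sum_eq_zero fun i _ => ?_
  by_cases h : i ∈ J
  · rw [f0 i h, smul_zero]
  · rw [hr i h, zero_smul]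

include f1

omit [Fintype Φ] in
theorem pos_of_not_inJ {r : Φ} (hr : R.IsPos r) (h : ¬ R.InJ J r) : 0 < f (R.α r) := by
  rw [R.map_eq_sum]
  obtain ⟨i, hi, h⟩ : ∃ i, i ∉ J ∧ R.α r i ≠ 0 := by simpa [InJ] using h
  refine Finset.sum_pos' (fun j _ => ?_) ⟨i, Finset.mem_univ _,
    mul_pos ((hr i).lt_of_ne' h) (f1 i hi)⟩
  by_cases h : j ∈ J
  · rw [f0 j h, smul_zero]
  · exact mul_nonneg (hr j) (f1 j h).le

omit [Fintype Φ] in
theorem inJ_of_eq_zero {r : Φ} (h : f (R.α r) = 0) : R.InJ J r := by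
  by_contra h1
  rcases isPos_or_neg (R := R) r with h2 | h2
  · exact (pos_of_not_inJ f0 f1 h2 h1).ne' h
  · have := pos_of_not_inJ f0 f1 h2 (inJ_neg_iff.not.2 h1)
    rw [R.α_neg, map_neg, h] at this
    omega

theorem exists_min (hw : ∃ w ∈ R.W, ∀ s, f (R.α (w s)) = -f (R.α s)) :
    ∃ w ∈ R.W, (∀ s, f (R.α (w s)) = -f (R.α s)) ∧
      ∀ j ∈ J, ∃ j' ∈ J, w (R.simple j) = R.simple j' := by
  obtain ⟨w₀, h₀, h₀'⟩ := hw
  obtain ⟨w, hw, hmin⟩ := Set.exists_min_image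
    {w : R.W | ∀ s, f (R.α ((w : Perm Φ) s)) = -f (R.α s)} (len R.sW) (Set.toFinite _)
    ⟨⟨w₀, h₀⟩, h₀'⟩
  have h1 : ∀ s, f (R.α ((w : Perm Φ)⁻¹ s)) = -f (R.α s) := fun s => by
    have := hw ((w : Perm Φ)⁻¹ s)
    rw [apply_inv] at this
    omega
  have key : ∀ v : R.W, (∀ s, f (R.α ((v : Perm Φ) s)) = -f (R.α s)) → len R.sW v = len R.sW w →
      ∀ j ∈ J, R.IsPos ((v : Perm Φ) (R.simple j)) := fun v hv e j hj => by
    by_contra h
    have h2 := len_mul_sW_of_neg h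
    have := hmin (v * R.sW j) fun s => by
      rw [Subgroup.coe_mul, Perm.mul_apply, hv, coe_sW, α_sref', map_sub, map_zsmul, f0 j hj,
        smul_zero, sub_zero]
    omega
  refine ⟨w, w.2, hw, fun j hj => ?_⟩
  have h2 : R.InJ J ((w : Perm Φ) (R.simple j)) :=
    inJ_of_eq_zero f0 f1 (by rw [hw, f0 j hj, neg_zero])
  obtain ⟨i, h3, h4⟩ := (isAut_of_mem_W w.2).inv.eq_simple (r := (w : Perm Φ) (R.simple j))
    (fun i hi => key w⁻¹ h1 (R.invGen.len_inv w) i (by_contra fun h => hi (h2 i h))) (Chev.inv_apply _ _)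
  exact ⟨i, by_contra fun h => h3 (h2 i h), h4⟩

end Fun

omit [Fintype Φ] in
variable (C) in
/-- what is needed of the Levi subgroup: a class of unipotent elements whose square contains
`V_J U_J`, stable under the elements permuting the simple root subgroups -/
def LevA (J : Set ι) : Prop := ∃ u₀ ∈ C.XS (posJ R J),
  (∀ v ∈ C.XS (negJ R J), ∀ u ∈ C.XS (posJ R J), SqK (C.LJ J) u₀ (v * u)) ∧
    ∀ n w c, C.Acts n w c → (∀ j ∈ J, ∃ j' ∈ J, w (R.simple j) = R.simple j') →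
      ConjK (C.LJ J) u₀ (n * u₀ * n⁻¹)

omit [Fintype Φ] in
theorem levA_empty : LevA C ∅ := by
  have h : ∀ r, ¬ R.InJ ∅ r := fun r h => R.α_ne_zero r (funext fun i => h i (Set.notMem_empty i))
  have h1 : C.XS (posJ R ∅) = ⊥ := by
    rw [show posJ R ∅ = ∅ from Set.eq_empty_of_forall_notMem fun r hr => h r hr.2, C.XS_empty]
  have h2 : C.XS (negJ R ∅) = ⊥ := by
    rw [show negJ R ∅ = ∅ from Set.eq_empty_of_forall_notMem fun r hr => h r hr.2, C.XS_empty]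
  refine ⟨1, one_mem _, fun v hv u hu => ⟨1, 1, .refl _ _, .refl _ _, ?_⟩, fun n _ _ _ _ => by
    simpa using ConjK.refl _ _⟩
  rw [h1, Subgroup.mem_bot] at hu
  rw [h2, Subgroup.mem_bot] at hv
  rw [hu, hv]

theorem sq_of_levA [Finite F] [Nonempty ι] (hq : 9 ≤ Nat.card F) (hF : C.Faithful)
    (htop : C.grp = ⊤) (hc : R.Conn) (hA : C.Adjoint) [IsSimpleGroup G] {J : Set ι} (hL : LevA C J)
    {f : Φ → ℤ} (hf : f ∈ Qv R) (f0 : ∀ j ∈ J, f (R.simple j) = 0)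
    (f1 : ∀ i ∉ J, 0 < f (R.simple i)) (f2 : ∀ r, f r < 8)
    (hw : ∃ w ∈ R.W, ∀ s, f (w s) = -f s) : ∃ c : G, ∀ g, Sq c g := by
  have hM := hA.hMul
  have := hF.finite htop
  obtain ⟨φ, hφ⟩ := exists_hom_of_Qv hf
  obtain ⟨ζ, hζ⟩ := IsCyclic.exists_ofOrder_eq_natCard (α := Fˣ)
  obtain ⟨z, hz, hz'⟩ := exists_acts_of_Qv C hf ζ
  obtain rfl : f = fun s => φ (R.α s) := funext hφ
  obtain ⟨w, hw, h1, h2⟩ := exists_min f0 f1 hw
  obtain ⟨u₀, h3, h4, h5⟩ := hL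
  obtain ⟨n, hn⟩ := C.exists_nw_of_mem_W hw
  obtain ⟨d, hd⟩ := hn.exists_acts
  have h6 : C.Acts z⁻¹ 1 fun s => ζ ^ (-φ (R.α s)) := hz'.inv.congr inv_one fun s => by simp
  have h7 : n * z * n⁻¹ = z⁻¹ := hA.eq_of_acts (C.conj_mem_H hn.mem_N hz) (inv_mem hz)
    (((hd.mul hz').mul hd.inv).congr (by simp) fun s => by
      simp only [Perm.one_apply, mul_inv_cancel_comm]
      rw [← _root_.neg_neg (φ (R.α (w⁻¹ s))), ← h1, apply_inv]) h6
  have h8 : ∀ a ∈ C.LJ J, Commute z a := fun a ha => by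
    refine Subgroup.mem_centralizer_singleton_iff.1 ((sup_le (fun _ hg => ?_)
      (PreSys.XS_le.2 fun r hr t => ?_) : C.LJ J ≤ Subgroup.centralizer {z}) ha) |>.symm
    · exact Subgroup.mem_centralizer_singleton_iff.2 (hM.H_comm hg hz)
    · refine Subgroup.mem_centralizer_singleton_iff.2 (Eq.symm ?_)
      simpa [eq_zero_of_inJ f0 hr] using hz'.conj' r t
  have h9 : ∀ m : ℤ, 0 < m → m < 8 → ζ ^ m ≠ 1 := fun m h h' e => by
    have := Int.le_of_dvd h (orderOf_dvd_iff_zpow_eq_one.2 e)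
    rw [hζ, Nat.card_units] at this
    omega
  have h10 : u₀ ∈ C.XS {r | R.InJ J r} := C.XS_mono (fun _ h => h.2) h3
  have h11 : Fpf (z * u₀) (C.UJ J) := fpf_mul hF (isClosed_lt _) (fun _ h => h) hz'
    (fun r hr => h9 _ (pos_of_not_inJ f0 f1 (fJ_pos_iff.1 hr).1 (fJ_pos_iff.1 hr).2) (f2 r))
    (XS_posJ_le_U _ h3) (L_norm_UJ J h10) (h8 _ (Subgroup.mem_sup_right h10))
  have h12 : Fpf (z⁻¹ * u₀) (Qm C J) := fpf_mul hF (isClosed_lt _) (fun _ h => h) h6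
    (fun r hr => by
      rw [← map_neg, ← R.α_neg]
      exact h9 _ (pos_of_not_inJ f0 f1 (isPos_neg_iff.2 (neg_fJ_pos_iff.1 hr).1)
        (inJ_neg_iff.not.2 (neg_fJ_pos_iff.1 hr).2)) (f2 _))
    (XS_posJ_le_U _ h3) (L_norm_Qm J h10) (h8 _ (Subgroup.mem_sup_right h10)).inv_left
  have h13 : IsConj (z * u₀) (z⁻¹ * u₀) := by
    obtain ⟨a, ha, e⟩ := h5 n w d hd h2
    refine isConj_iff.2 ⟨a⁻¹ * n, ?_⟩
    calc _ = a⁻¹ * (n * z * n⁻¹ * (n * u₀ * n⁻¹)) * a := by group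
      _ = _ := by rw [h7, ← e, ← mul_assoc, ← mul_assoc, ← mul_assoc,
        ← (h8 a ha).inv_inv.eq]; group
  have key : ∀ v ∈ C.V, ∀ u ∈ C.U, Sq (z * u₀) (v * u) := fun v hv u hu => by
    obtain ⟨v₁, hv₁, v₂, hv₂, rfl⟩ := C.exists_mul_of_mem_XS isClosed_neg (f := -htL ι)
      (fun _ h => neg_ht_pos h) (fun r => ¬ R.InJ J r) hv
    obtain ⟨u₁, hu₁, u₂, hu₂, rfl⟩ := C.exists_mul_of_mem_XS isClosed_pos (f := htL ι)
      (fun _ h => h.ht_pos) (fun r => R.InJ J r) hu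
    obtain ⟨_, _, ⟨a, ha, rfl⟩, ⟨b, hb, rfl⟩, e⟩ := h4 v₂
      (C.XS_mono (fun r hr => And.intro hr.1 (not_not.1 hr.2)) hv₂) u₁ hu₁
    have n1 : a ∈ Subgroup.normalizer (Qm C J : Set G) :=
      (sup_le (C.H_le_normalizer _) (L_norm_Qm J) : C.LJ J ≤ _) ha
    have n2 : b ∈ Subgroup.normalizer (C.UJ J : Set G) :=
      (sup_le (C.H_le_normalizer _) (L_norm_UJ J) : C.LJ J ≤ _) hb
    have := sq_core (h13.trans (isConj_iff.2 ⟨a, rfl⟩)) (isConj_iff.2 ⟨b, rfl⟩)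
      (h12.conj (fun _ => conj_mem_of_norm n1) fun _ => inv_conj_mem_of_norm n1)
      (h11.conj (fun _ => conj_mem_of_norm n2) fun _ => inv_conj_mem_of_norm n2)
      (C.XS_mono (fun r hr => neg_fJ_pos_iff.2 hr) hv₁) (C.XS_mono (fun r hr => fJ_pos_iff.2 hr) hu₂)
    convert this using 1
    have e1 : a * (z⁻¹ * u₀) * a⁻¹ = a * u₀ * a⁻¹ * z⁻¹ := by
      rw [(h8 _ (Subgroup.mem_sup_right h10)).inv_left.eq, mul_assoc _ _ z⁻¹,
        ← (h8 a ha).inv_inv.eq]; group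
    have e2 : b * (z * u₀) * b⁻¹ = z * (b * u₀ * b⁻¹) := by
      rw [← mul_assoc, ← (h8 b hb).eq]; group
    rw [e1, e2, mul_assoc _ z⁻¹, inv_mul_cancel_left, ← e]; group
  refine ⟨z * u₀, fun g => ?_⟩
  rcases eq_or_ne g 1 with rfl | hg
  · simpa using key 1 (one_mem _) 1 (one_mem _)
  · obtain ⟨i⟩ := ‹Nonempty ι›
    obtain ⟨v, hv, u, hu, e⟩ := gauss hF htop hc hM (exists_conj_notMem (P := C.B) (fun e =>
      one_ne_zero (hF.x_eq_one_iff.1 (hF.eq_one_of_B_V (e ▸ trivial) (C.x_mem_V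
        (r := R.neg (R.simple i)) (fun h => isPos_neg_iff.1 h (isPos_simple i)) 1)))) hg)
    exact (key v hv u hu).of_isConj e

end Cfsg.Lib.CC
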