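import Cfsg.Agent.Lib.CC.TLev
import Cfsg.Agent.Lib.Chev.Perfect

/-!
# The data on the root systems
-/

set_option autoImplicit false

namespace Cfsg.Lib.CC

open Cfsg.Lib.Chev Cfsg.Lib.Chev.RootSys Cfsg.Lie Fin

section Gen
variable {ι Φ : Type} [Fintype ι] [DecidableEq ι] {R : RootSys ι Φ}

theorem td_of_family {k : ℕ} (hk : k ≠ 1) (ρ : Fin k → ι) {κ : Type} [Fintype κ] (g : κ → Φ → ℤ)
    (e : κ → ℤ) (y : Φ) (f : Φ → ℤ) (hf : ∀ s, ∑ a, e a * g a s = f s) (hg : ∀ a, g a ∈ Qv R)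
    (hw : ∀ a, ∃ w ∈ R.W, (∀ s, g a (w s) = -g a s) ∧ ∀ b, b ≠ a → ∀ s, g b (w s) = g b s)
    (hρ : ∀ i j, R.A (ρ i) (ρ j) =
      if i = j then 2 else if i.val + 1 = j ∨ j.val + 1 = i then -1 else 0)
    (h0 : ∀ j, f (R.simple (ρ j)) = 0) (h1 : ∀ i, (∀ j, ρ j ≠ i) → 0 < f (R.simple i))
    (h2 : ∀ r, f r < 8) (h3 : ∀ j, R.pair y (R.simple (ρ j)) = if j.val = 0 then 1 else 0) :
    TD R := by
  obtain ⟨w, hw, h⟩ := exists_W_of_family g hw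
  refine ⟨k, ρ, f, _, hk, fun i j => by rw [hρ, A_A], ?_, pair_mem_Qv y, h0, h1, h2,
    ⟨w, hw, fun s => by simp [← hf, h]⟩, h3⟩
  rw [show f = ∑ a, e a • g a from funext fun s => by simp [← hf]]
  exact sum_mem fun a _ => zsmul_mem (hg a) _

theorem td_of_orth {k : ℕ} (hk : k ≠ 1) (ρ : Fin k → ι) {κ : Type} [Fintype κ] (r : κ → Φ)
    (e : κ → ℤ) (y : Φ) (f : Φ → ℤ) (hf : ∀ s, ∑ a, e a * R.pair (r a) s = f s)
    (hr : ∀ a b, b ≠ a → R.pair (r b) (r a) = 0) (hρ : ∀ i j, R.A (ρ i) (ρ j) =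
      if i = j then 2 else if i.val + 1 = j ∨ j.val + 1 = i then -1 else 0)
    (h0 : ∀ j, f (R.simple (ρ j)) = 0) (h1 : ∀ i, (∀ j, ρ j ≠ i) → 0 < f (R.simple i))
    (h2 : ∀ r, f r < 8) (h3 : ∀ j, R.pair y (R.simple (ρ j)) = if j.val = 0 then 1 else 0) :
    TD R :=
  td_of_family hk ρ (fun a => R.pair (r a)) e y f hf (fun _ => pair_mem_Qv _)
    (fun a => ⟨_, R.refl_mem_W (r a), R.pair_refl_right _, fun b hb s => by
      rw [pair_refl, hr a b hb, mul_zero, sub_zero]⟩) hρ h0 h1 h2 h3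

end Gen

/-- the finite check for a tabulated root system -/
def TDChk (D : ChevalleyDatum) {k m : ℕ} (ρ : Fin k → ℕ) (r : Fin m → ℕ) (e : Fin m → ℤ) (y : ℕ) :
    Prop :=
  ((∀ j, ρ j < D.rank) ∧ (∀ a, r a < D.nroots) ∧ y < D.nroots) ∧
    (∀ a b, b ≠ a → D.pairing (r b) (r a) = 0) ∧ (∀ i j, AN D (ρ i) (ρ j) =
    if i = j then 2 else if i.val + 1 = j ∨ j.val + 1 = i then -1 else 0) ∧
    (∀ j, ∑ a, e a * D.pairing (r a) (D.simple (ρ j)) = 0) ∧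
    (∀ i < D.rank, (∀ j, ρ j ≠ i) → 0 < ∑ a, e a * D.pairing (r a) (D.simple i)) ∧
    (∀ s < D.nroots, ∑ a, e a * D.pairing (r a) s < 8) ∧
    ∀ j, D.pairing y (D.simple (ρ j)) = if j.val = 0 then 1 else 0

instance decTDChk (D : ChevalleyDatum) {k m : ℕ} (ρ : Fin k → ℕ) (r : Fin m → ℕ) (e : Fin m → ℤ)
    (y : ℕ) :
    Decidable (TDChk D ρ r e y) := by
  unfold TDChk; infer_instance

theorem td_checked {D : ChevalleyDatum} {c : Cert} (h : Checked D c) {k m : ℕ} (hk : k ≠ 1)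
    (ρ : Fin k → ℕ) (r : Fin m → ℕ) (e : Fin m → ℤ) (y : ℕ) (H : TDChk D ρ r e y) : TD h.R :=
  td_of_orth hk (fun j => ⟨ρ j, H.1.1 j⟩) (fun a => ⟨r a, H.1.2.1 a⟩) e ⟨y, H.1.2.2⟩
    (fun s => ∑ a, e a * D.pairing (r a) s) (by simp [← h.pairing_eq])
    (by simpa [← h.pairing_eq] using H.2.1) H.2.2.1 H.2.2.2.1
    (fun i hi => H.2.2.2.2.1 i i.2 fun j e => hi j (Fin.ext e)) (fun s => H.2.2.2.2.2.1 s s.2)
    fun j => (h.pairing_eq _ _).symm.trans (H.2.2.2.2.2.2 j)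

theorem td_G2 : TD checkedG2.R :=
  td_checked _ (k := 0) (by decide) ![] ![8, 10] ![1, 2] 0 (by decide +kernel)

theorem td_F4 : TD checkedF4.R :=
  td_checked _ (by decide) ![0, 1] ![26, 31, 42, 46] ![1, 1, 1, 2] 15 (by decide +kernel)

theorem td_E6 : TD checkedE6.R :=
  td_checked _ (by decide) ![2, 3, 4] ![60, 71] ![1, 2] 15 (by decide +kernel)

theorem td_E7 : TD checkedE7.R :=
  td_checked _ (by decide) ![0, 2, 3, 4, 5, 6] ![78, 87, 92, 104, 107, 111, 112] 1 125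
    (by decide +kernel)

theorem td_E8 : TD checkedE8.R :=
  td_checked _ (by decide) ![0, 2, 3, 4, 5, 6, 7] ![204, 209, 218, 232] 1 14 (by decide +kernel)

end Cfsg.Lib.CC
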