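import Cfsg.Agent.Lib.CC.Gauss
import Cfsg.Agent.Lib.St.Chev

/-!
# Gauss decomposition: every non-trivial element of a simple Chevalley group is conjugate into `V U`
-/

set_option autoImplicit false

namespace Cfsg.Lib.CC

open Cfsg.Lib.BN Cfsg.Lib.Chev Cfsg.Lib.Chev.RootSys Cfsg.Lib.Chev.ChevSys Cfsg.Lib.St Equiv

variable {ι Φ : Type} [Fintype ι] [DecidableEq ι] {R : RootSys ι Φ}
  {F : Type*} [Field F] {G : Type*} [Group G] {C : ChevSys R F G}

variable (C) in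
/-- `m ∈ U V U` -/
def UVU (m : G) : Prop := ∃ u ∈ C.U, ∃ v ∈ C.V, ∃ u' ∈ C.U, m = u * v * u'

theorem uvu_aux {m u v u' x y n q a : G} (e : m = u * v * u') (e2 : n = x * y * x)
    (e' : x * u' = q * a) : m * n = m * a * m⁻¹ * u * (v * y) * (x * (n⁻¹ * q * n)) := by
  obtain rfl : v = u⁻¹ * m * u'⁻¹ := by rw [e]; group
  obtain rfl : y = x⁻¹ * n * x⁻¹ := by rw [e2]; group
  obtain rfl : q = x * u' * a⁻¹ := by rw [e']; group
  group

theorem UVU.mul {m : G} {w : Perm Φ} {i : ι} (h : UVU C m) (hm : C.NW m w)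
    (hi : R.IsPos (w (R.simple i))) (t : Fˣ) : UVU C (m * C.n (R.simple i) t) := by
  obtain ⟨u, hu, v, hv, u', hu', e⟩ := h
  have hx := C.x_mem_U (isPos_simple i) (t : F)
  obtain ⟨q, hq, s, e'⟩ := (C.mem_U_iff i).1 (mul_mem hx hu')
  have h1 : m * C.x (R.simple i) s * m⁻¹ ∈ C.U :=
    Twisted.NW.conj_mem hm (S := {R.simple i}) (T := {r | R.IsPos r}) (by rintro _ rfl; exact hi)
      (C.x_mem (Set.mem_singleton _) s)
  have h0 : C.n (R.simple i) t ∈ Subgroup.normalizer (C.Ui i : Set G) :=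
    C.n_mem (r := R.simple i) (C.x_mem_normalizer_Ui (.inl (isPos_simple i)))
      (C.x_mem_normalizer_Ui (.inr rfl)) t
  have h2 := C.Ui_le_U i (inv_conj_mem_of_norm h0 hq)
  have h3 := C.x_mem_V (r := R.neg (R.simple i)) (fun h => isPos_neg_iff.1 h (isPos_simple i))
    (-((t⁻¹ : Fˣ) : F))
  exact ⟨_, C.U.mul_mem h1 hu, _, C.V.mul_mem hv h3, _, C.U.mul_mem hx h2, uvu_aux e rfl e'⟩

variable (C) in
/-- the part of the torus belonging to a list of nodes -/
def KH (l : List ι) : Subgroup G := Subgroup.closure {g | ∃ i ∈ l, ∃ t, g = C.h (R.simple i) t}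

theorem KH_le (l : List ι) : KH C l ≤ C.H :=
  (Subgroup.closure_le _).2 (by rintro _ ⟨i, -, t, rfl⟩; exact C.h_mem_H _ _)

theorem KH_split (hM : C.HMul) {l : List ι} {i : ι} {h : G} (hh : h ∈ KH C (l ++ [i])) :
    ∃ k ∈ KH C l, ∃ t, h = k * C.h (R.simple i) t := by
  induction hh using Subgroup.closure_induction with
  | mem g hg =>
    obtain ⟨j, hj, t, rfl⟩ := hg
    rcases List.mem_append.1 hj with hj | hj
    · exact ⟨_, Subgroup.subset_closure ⟨j, hj, t, rfl⟩, 1, by simp⟩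
    · exact ⟨1, one_mem _, t, by rw [List.mem_singleton.1 hj, one_mul]⟩
  | one => exact ⟨1, one_mem _, 1, by simp⟩
  | mul _ _ _ _ h1 h2 =>
    obtain ⟨k, hk, t, rfl⟩ := h1
    obtain ⟨k', hk', t', rfl⟩ := h2
    exact ⟨_, mul_mem hk hk', t * t', by
      rw [hM, mul_assoc, mul_assoc, ← mul_assoc k', hM.h_comm (KH_le _ hk') _ t, mul_assoc]⟩
  | inv _ _ h1 =>
    obtain ⟨k, hk, t, rfl⟩ := h1
    exact ⟨_, inv_mem hk, t⁻¹, by rw [hM.h_comm (inv_mem (KH_le _ hk)), hM.h_inv, mul_inv_rev]⟩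

theorem exists_n_mul (hM : C.HMul) (i : ι) {k : G} (hk : k ∈ C.H) :
    ∃ s, C.n (R.simple i) 1 * k * (C.n (R.simple i) 1)⁻¹ = k * C.h (R.simple i) s := by
  induction hk using Subgroup.closure_induction with
  | mem g hg =>
    obtain ⟨r, t, rfl⟩ := hg
    exact ⟨_, (hM.conj_h (C.acts_n_simple i) r t).trans (hM.h_sref i r t)⟩
  | one => exact ⟨1, by simp⟩
  | mul a b _ hb h1 h2 =>
    obtain ⟨s, e⟩ := h1
    obtain ⟨s', e'⟩ := h2
    exact ⟨s * s', by
      rw [← conj_mul, e, e', hM, mul_assoc, mul_assoc, ← mul_assoc b, hM.h_comm hb _ s, mul_assoc]⟩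
  | inv a ha h1 =>
    obtain ⟨s, e⟩ := h1
    exact ⟨s⁻¹, by rw [← conj_inv, e, hM.h_comm (inv_mem ha), hM.h_inv, mul_inv_rev]⟩

variable [Fintype Φ]

theorem pos_of_reduced {l : List ι} {i : ι}
    (h : len R.sW (wp R.sW (l ++ [i])) = (l ++ [i]).length) : R.IsPos (wp R.sref l (R.simple i)) := by
  by_contra h1
  have h2 := len_mul_sW_of_neg (w := wp R.sW l) (i := i) (by rwa [coe_wp])
  have h3 := len_wp_le R.sW l
  rw [wp_append, wp_singleton, List.length_append, List.length_singleton] at h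
  omega

theorem uvu_wp (hM : C.HMul) {l : List ι} (hl : len R.sW (wp R.sW l) = l.length) :
    ∀ h ∈ KH C l, UVU C (wp (fun i => C.n (R.simple i) 1) l * h) := by
  induction l using List.reverseRecOn with
  | nil =>
    intro h hh
    rw [show KH C [] = ⊥ by simp [KH], Subgroup.mem_bot] at hh
    exact ⟨1, one_mem _, 1, one_mem _, 1, one_mem _, by simp [hh]⟩
  | append_singleton l i ih =>
    intro h hh
    obtain ⟨k, hk, t, rfl⟩ := KH_split hM hh
    obtain ⟨s, e⟩ := exists_n_mul hM i (KH_le _ hk)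
    have h1 := (ih (R.invGen.reduced_left hl) k hk).mul
      (by simpa using (C.nw_wp l).mul (nw_of_mem_H (KH_le _ hk))) (pos_of_reduced hl) (s * t⁻¹)
    have h2 := hM.conj_h (C.acts_n_simple i) (R.simple i) t
    rw [hM.h_sref, pair_self, ← hM, show t * t ^ (-2 : ℤ) = t⁻¹ by group] at h2
    convert h1 using 1
    rw [wp_append, wp_singleton, C.n_eq _ (s * t⁻¹), hM, ← h2, mul_assoc, mul_assoc,
      ← mul_assoc k, ← mul_assoc k, ← e]
    group

theorem ht_wp {j : ι} {l : List ι} (hl : len R.sW (wp R.sW l) = l.length) (hj : j ∉ l) :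
    1 ≤ R.ht (wp R.sref l (R.simple j)) ∧
      ((∃ i ∈ l, R.A i j ≠ 0) → 1 < R.ht (wp R.sref l (R.simple j))) := by
  induction l using List.reverseRecOn with
  | nil => simp [ht_simple]
  | append_singleton l i ih =>
    have h1 := ih (R.invGen.reduced_left hl) fun h => hj (by simp [h])
    have h2 := (pos_of_reduced hl).ht_pos
    have h3 := R.A_nonpos (i := i) (j := j) (by rintro rfl; simp at hj)
    have h4 : R.α (wp R.sref l (R.sref i (R.simple j))) = (1 : ℤ) • R.α (wp R.sref l (R.simple j)) +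
        (-R.A i j) • R.α (wp R.sref l (R.simple i)) := (isAut_wp l).comb.2 (by
      rw [α_sref', pair_simple_simple, one_smul, neg_smul, sub_eq_add_neg])
    have h5 : R.ht (wp R.sref (l ++ [i]) (R.simple j)) = R.ht (wp R.sref l (R.simple j)) +
        -R.A i j * R.ht (wp R.sref l (R.simple i)) := by
      rw [wp_append, wp_singleton, Perm.mul_apply, ht, h4, map_add, map_zsmul, map_zsmul, one_smul,
        smul_eq_mul, ht, ht]
    rw [h5]
    refine ⟨by nlinarith [h1.1], fun ⟨k, hk, h6⟩ => ?_⟩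
    rcases List.mem_append.1 hk with hk | hk
    · nlinarith [h1.2 ⟨k, hk, h6⟩]
    · rw [List.mem_singleton.1 hk] at h6
      nlinarith [h1.1, h3.lt_of_ne h6]

theorem exists_full (hF : C.Faithful) (htop : C.grp = ⊤) (hc : R.Conn) {g : G}
    (hg : ∃ k, k * g * k⁻¹ ∉ C.B) : ∃ k, ∃ l : List ι, (∀ i, i ∈ l) ∧
      len R.sW (wp R.sW l) = l.length ∧ (chevTits hF htop).δ (k * g * k⁻¹) = wp R.sW l := by
  set τ := chevTits hF htop
  obtain ⟨w, ⟨k, hk⟩, hmax⟩ := Set.exists_max_image (Set.range fun k => τ.δ (k * g * k⁻¹))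
    (len R.sW) (Set.toFinite _) (Set.range_nonempty _)
  beta_reduce at hk
  obtain ⟨l, h1, rfl⟩ := R.invGen.exists_reduced w
  refine ⟨k, l, by_contra fun h => ?_, h1.symm, hk⟩
  have h2 : l ≠ [] := by
    rintro rfl
    obtain ⟨k', hk'⟩ := hg
    exact hk' (τ.mem_B.2 (R.invGen.eq_one_of_len (Nat.le_zero.1
      ((hmax _ ⟨k', rfl⟩).trans h1.ge))))
  obtain ⟨i, hi, j, hj, h3⟩ := hc {i | i ∈ l} (List.exists_mem_of_ne_nil l h2) (not_forall.1 h)
  have h4 := ht_wp (j := j) (l := l.reverse) (by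
    rw [wp_reverse R.invGen.sq, R.invGen.len_inv, List.length_reverse, h1]) (by simpa using hj)
  have h5 := (ht_wp h1.symm hj).2 ⟨i, hi, h3⟩
  have h6 : τ.δ (C.n (R.simple j) 1) = R.sW j := chevTits_δ hF htop (nw_simple j)
  have h7 : len R.sW (R.sW j * wp R.sW l) = len R.sW (wp R.sW l) + 1 := by
    rw [← R.invGen.len_inv, mul_inv_rev, R.invGen.inv, ← wp_reverse R.invGen.sq,
      len_mul_sW_of_pos (by rw [coe_wp, isPos_iff_ht]; omega), wp_reverse R.invGen.sq,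
      R.invGen.len_inv]
  have h8 : len R.sW (R.sW j * wp R.sW l * R.sW j) = len R.sW (R.sW j * wp R.sW l) + 1 :=
    len_mul_sW_of_pos (by
      rw [Subgroup.coe_mul, coe_sW, coe_wp, Perm.mul_apply]
      exact IsPos.sref (isPos_iff_ht.2 (by omega)) fun e => by rw [e, ht_simple] at h5; omega)
  have h9 : τ.δ (C.n (R.simple j) 1 * (k * g * k⁻¹)) = R.sW j * wp R.sW l := by
    rw [τ.simple_mul_of_le h6 _ (by rw [hk]; omega), hk]
  have := hmax _ ⟨C.n (R.simple j) 1 * k, rfl⟩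
  beta_reduce at this
  rw [show C.n (R.simple j) 1 * k * g * (C.n (R.simple j) 1 * k)⁻¹ =
    C.n (R.simple j) 1 * (k * g * k⁻¹) * (C.n (R.simple j) 1)⁻¹ by group,
    τ.mul_simple_of_le _ (i := j) (by rw [τ.δ_inv, h6, R.invGen.inv]) (by rw [h9]; omega),
    h9] at this
  omega

theorem gauss (hF : C.Faithful) (htop : C.grp = ⊤) (hc : R.Conn) (hM : C.HMul) {g : G}
    (hg : ∃ k, k * g * k⁻¹ ∉ C.B) : ∃ v ∈ C.V, ∃ u ∈ C.U, IsConj g (v * u) := by
  obtain ⟨k, l, h1, h2, h3⟩ := exists_full hF htop hc hg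
  have h4 := chevTits_δ hF htop (w := wp R.sW l) (by rw [coe_wp]; exact C.nw_wp l)
  obtain ⟨b, hb, b', hb', e⟩ := (chevTits hF htop).eq_of (h4.trans h3.symm)
  obtain ⟨h, hh, u, hu, e'⟩ := C.mem_B_iff'.1 (mul_mem hb' hb)
  obtain ⟨a, ha, v, hv, a', ha', e''⟩ := uvu_wp hM h2 h (by
    rw [hM.H_eq_closure] at hh
    exact Subgroup.closure_mono (by rintro _ ⟨i, t, e⟩; exact ⟨i, h1 i, t, e⟩) hh)
  refine ⟨v, hv, a' * u * a, mul_mem (mul_mem ha' hu) ha, isConj_iff.2 ⟨a⁻¹ * b⁻¹ * k, ?_⟩⟩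
  calc _ = a⁻¹ * b⁻¹ * (k * g * k⁻¹) * b * a := by group
    _ = a⁻¹ * (wp (fun i => C.n (R.simple i) 1) l * (b' * b)) * a := by rw [e]; group
    _ = _ := by rw [e', ← mul_assoc _ h, e'']; group

end Cfsg.Lib.CC
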