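import Cfsg.Agent.Lib.CC.TCore
import Cfsg.Agent.Lib.Chev.CTA2
import Cfsg.Agent.Lib.Ore.Top
import Cfsg.Agent.Lib.GLC.Mat

/-!
# Levi subgroups of type `A`
-/

set_option autoImplicit false

namespace Cfsg.Lib.CC

open Cfsg.Lib.BN Cfsg.Lib.Chev Cfsg.Lib.Chev.RootSys Cfsg.Lib.Chev.ChevSys Cfsg.Lib.Twisted Equiv
open Cfsg.Lib.GLC Cfsg.Lib.Ore Matrix Polynomial Module
open scoped MatrixGroups

section Mat
variable {F : Type*} [Field F] {k : ℕ}

/-- regular unipotent -/
def Reg (A : SL(k + 1, F)) : Prop :=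
  Blocks (toLin' A.1) {(X - 1) ^ finrank F (Fin (k + 1) → F)}

/-- unitriangular with superdiagonal `c` -/
def Tri (A : SL(k + 1, F)) (c : Fin k → F) : Prop :=
  (∀ i j, j < i → A i j = 0) ∧ (∀ i, A i i = 1) ∧ ∀ i : Fin k, A i.castSucc i.succ = c i

theorem Tri.mul {A : SL(k + 1, F)} {c : Fin k → F} (h : Tri A c) (j : Fin k) (t : F) :
    Tri ((realSL F k).y ((rootA k).simple j) t * A) (Pi.single j t + c) := by
  have e : ∀ a b, ((realSL F k).y ((rootA k).simple j) t * A) a b =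
      A a b + if a = j.castSucc then t * A j.succ b else 0 := fun a b => by
    show (transvection j.castSucc j.succ t * A.1) a b = _
    split_ifs with e
    · rw [e, transvection_mul_apply_same]
    · rw [transvection_mul_apply_of_ne _ _ _ _ e, add_zero]
  refine ⟨fun a b hab => ?_, fun a => ?_, fun a => ?_⟩ <;> rw [e] <;> split_ifs with e'
  · rw [h.1 _ _ hab, h.1 _ _ ((e' ▸ hab).trans j.castSucc_lt_succ), mul_zero, add_zero]
  · rw [h.1 _ _ hab, add_zero]
  · rw [h.2.1, h.1 _ _ (e' ▸ j.castSucc_lt_succ), mul_zero, add_zero]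
  · rw [h.2.1, add_zero]
  · rw [Fin.castSucc_inj.1 e', h.2.2, h.2.1, Pi.add_apply, Pi.single_eq_same, mul_one, add_comm]
  · rw [h.2.2, Pi.add_apply, Pi.single_eq_of_ne (Fin.castSucc_inj.not.1 e'), add_comm]

theorem Tri.reg {A : SL(k + 1, F)} {c : Fin k → F} (h : Tri A c) (hc : ∀ j, c j ≠ 0) : Reg A := by
  have e : toLin' A.1 - 1 = toLin' (A.1 - 1) := by rw [map_sub, toLin'_one]; rfl
  have h0 : ∀ i j, j ≤ i → (A.1 - 1) i j = 0 := fun i j hij => by
    rcases hij.eq_or_lt with rfl | h1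
    · rw [Matrix.sub_apply, one_apply_eq]; exact sub_eq_zero.2 (h.2.1 _)
    · rw [Matrix.sub_apply, one_apply_ne h1.ne', sub_zero]; exact h.1 _ _ h1
  refine reg_iff.2 ⟨?_, ?_⟩ <;> rw [e]
  · rw [LinearMap.isNilpotent_iff_charpoly, charpoly_toLin',
      charpoly_of_isUpperTriangular _ fun i j hij => h0 i j (le_of_lt hij)]
    simp [h0]
  · suffices LinearMap.ker (toLin' (A.1 - 1)) = Submodule.span F {Pi.single 0 1} by
      rw [this, finrank_span_singleton (by simp)]
    refine le_antisymm (fun v hv => ?_) ?_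
    · have h1 : ∀ i : Fin k, v i.succ = 0 := fun i => by
        induction i using WellFoundedGT.induction with
        | ind i ih =>
          have := congrFun (LinearMap.mem_ker.1 hv) i.castSucc
          rw [toLin'_apply, mulVec, dotProduct, Finset.sum_eq_single i.succ (fun b _ hb => ?_)
            (by simp), Matrix.sub_apply, one_apply_ne i.castSucc_lt_succ.ne, sub_zero] at this
          · exact (mul_eq_zero.1 this).resolve_left (h.2.2 i ▸ hc i)
          · rcases le_or_gt b i.castSucc with h2 | h2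
            · rw [h0 _ _ h2, zero_mul]
            · obtain ⟨b, rfl⟩ := Fin.exists_succ_eq.2 h2.ne_zero
              rw [ih b (by
                simp only [ne_eq, Fin.ext_iff, Fin.lt_def, Fin.val_succ, Fin.val_castSucc] at *
                omega), mul_zero]
      refine Submodule.mem_span_singleton.2 ⟨v 0, funext fun i => ?_⟩
      induction i using Fin.cases <;> simp [h1]
    · rw [Submodule.span_singleton_le_iff_mem, LinearMap.mem_ker, toLin'_apply, mulVec_single_one]
      exact funext fun i => h0 i 0 i.zero_le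

/-- a product of simple transvections -/
def prodT (σ : Fin k → Fin k) (c : Fin k → F) : SL(k + 1, F) :=
  ((List.finRange k).map fun j => (realSL F k).y ((rootA k).simple (σ j)) (c j)).prod

theorem reg_prodT {σ : Fin k → Fin k} (hσ : Function.Injective σ) {c : Fin k → F}
    (hc : ∀ j, c j ≠ 0) : Reg (prodT σ c) := by
  have key : ∀ l : List (Fin k), Tri (l.map fun j => (realSL F k).y ((rootA k).simple (σ j))
      (c j)).prod (l.map fun j => Pi.single (σ j) (c j)).sum := fun l => by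
    induction l with
    | nil => exact ⟨fun _ _ h => one_apply_ne h.ne', fun _ => one_apply_eq _,
        fun i => one_apply_ne i.castSucc_lt_succ.ne⟩
    | cons a l ih => exact ih.mul _ _
  refine (key _).reg fun j => ?_
  obtain ⟨j, rfl⟩ := Finite.surjective_of_injective hσ j
  rw [← Fin.sum_univ_def, Finset.sum_apply, Finset.sum_eq_single j
    (fun b _ hb => Pi.single_eq_of_ne (hσ.ne hb.symm) _) (by simp), Pi.single_eq_same]
  exact hc j

theorem Reg.inv {A : SL(k + 1, F)} (h : Reg A) : Reg A⁻¹ := blocks_inv (by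
  rw [End.mul_eq_comp, ← toLin'_mul, show A⁻¹.1 * A.1 = 1 from congrArg Subtype.val (inv_mul_cancel A),
    toLin'_one, End.one_eq_id]) h

theorem exists_reg_mul (hF : ∀ a b c : F, ∃ t, t ≠ a ∧ t ≠ b ∧ t ≠ c) (hk : 2 ≤ k)
    {A : SL(k + 1, F)} (hA : A ∉ Subgroup.center _) : ∃ B B', Reg B ∧ Reg B' ∧ A = B * B' := by
  obtain ⟨c, h1, h2⟩ := fac_unipotent (S := toLin' A.1) hF (by simp; omega)
    (fun c e => hA (Subgroup.mem_center_iff.2 fun B => Subtype.ext (by
      simp [toLin'_eq_smul_one_iff.1 e]))) (by simp)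
  obtain ⟨c, rfl⟩ := toLin'.surjective c
  have h3 : c.det = 1 := by
    rw [← LinearMap.det_toLin', det_eq_one_of_isNilpotent (reg_iff.1 h1).1]
  rw [End.mul_eq_comp, ← toLin'_mul] at h2
  obtain ⟨B, rfl⟩ : ∃ B : SL(k + 1, F), B.1 = c := ⟨⟨c, h3⟩, rfl⟩
  exact ⟨A * B, B⁻¹, h2, Reg.inv h1, (mul_inv_cancel_right _ _).symm⟩

theorem Reg.exists_conj {A : SL(k + 1, F)} (h : Reg A) : ∃ (d : Fˣ) (s : SL(k + 1, F)),
    A = s * prodT id (fun j => if j.val = 0 then (d : F) else 1) * s⁻¹ := by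
  obtain ⟨x, hx⟩ := isConj_iff.1 ((gl_isConj_iff_sim (a := SpecialLinearGroup.toGL (prodT id 1))
    (b := SpecialLinearGroup.toGL A)).2
      ((reg_prodT Function.injective_id fun _ => one_ne_zero).sim h))
  let d : Fin (k + 1) → Fˣ := fun i => if i = 0 then GeneralLinearGroup.det x else 1
  have h1 : (diagonal fun i => (d i : F)).det = x.1.det := by simp [d, apply_ite, det_diagonal]
  let D := GeneralLinearGroup.mkOfDetNeZero _ (h1 ▸ x.det_ne_zero)
  have h2 := (repA k).acts_diagonal F (g := D) (d := d) rfl (χ := fun s => d s.1.1 / d s.1.2)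
    (fun s => by simp [EucData.rootSys, eucA]) fun s x y h => by
      obtain ⟨rfl, rfl⟩ := single_ne_zero_iff h
      simp
  have h3 : D * SpecialLinearGroup.toGL (prodT id 1) * D⁻¹ = SpecialLinearGroup.toGL
      (prodT id fun j => if j.val = 0 then ((GeneralLinearGroup.det x : Fˣ) : F) else 1) := by
    rw [← MulAut.conj_apply, prodT, prodT, map_list_prod, map_list_prod, map_list_prod]
    simp only [List.map_map]
    refine congrArg _ (List.map_congr_left fun j _ => ?_)
    refine ((congrArg _ ((realSL F k).hy _ _)).trans (h2.conj _ _)).trans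
      (Eq.trans ?_ ((realSL F k).hy _ _).symm)
    refine congrArg _ ?_
    show ((d j.castSucc / d j.succ : Fˣ) : F) * 1 = _
    simp only [d, Fin.val_succ, Nat.succ_ne_zero, if_false, div_one, mul_one, Fin.ext_iff,
      Fin.val_castSucc, Fin.val_zero, apply_ite Units.val, Units.val_one]
  obtain ⟨s, hs⟩ : ∃ s : SL(k + 1, F), SpecialLinearGroup.toGL s = x * D⁻¹ :=
    ⟨⟨(x * D⁻¹).1, by
      rw [← GeneralLinearGroup.val_det_apply, map_mul, map_inv,
        show GeneralLinearGroup.det D = GeneralLinearGroup.det x from Units.ext h1, mul_inv_cancel,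
        Units.val_one]⟩, Units.ext rfl⟩
  refine ⟨GeneralLinearGroup.det x, s, SpecialLinearGroup.toGL_injective ?_⟩
  rw [map_mul, map_mul, map_inv, ← h3, ← hx, hs]
  group

end Mat

variable {ι Φ : Type} [Fintype ι] [DecidableEq ι] {R : RootSys ι Φ}
  {F : Type*} [Field F] {G : Type*} [Group G] {C : ChevSys R F G} {T : ChevTab R}

theorem exists_hom_A (hM : C.HMul) (hT : T.StrongComm C.x) (hA : T.Anti) {k : ℕ} {ρ : Fin k → ι}
    (hρ : ∀ i j, R.A (ρ i) (ρ j) = (rootA k).A i j) : ∃ φ : SL(k + 1, F) →* G,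
      (∀ i t, φ ((realSL F k).y ((rootA k).simple i) t) = C.x (R.simple (ρ i)) t) ∧ ∀ i t,
        φ ((realSL F k).y ((rootA k).neg ((rootA k).simple i)) t) =
          C.x (R.neg (R.simple (ρ i))) t := by
  have hL : (rootA k).Laced := fun i j h => by rw [A_A, if_neg h]; split_ifs <;> simp
  refine (realSL F k).faithful.exists_hom_laced_sc (realSL F k).strongComm (realSL F k).hMul
    (repA k).anti hL (realSL F k).grp_eq ((realSL F k).torus_injective (full_repA k))
    ⟨fun _ => hM.rk1 _, fun i j h => ?_, fun i j h =>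
      hM.a2Pair hT hA ((hρ i j).trans h) ((hρ j i).trans (hL.symm h))⟩
  rw [← hρ] at h
  generalize ρ i = i at h
  generalize ρ j = j at h
  have h1 : i ≠ j := by
    rintro rfl
    simp [R.A_diag] at h
  have h2 : ∀ k, ¬ R.Between (R.simple i) (R.simple j) k := fun k hk => by
    obtain ⟨a, ha, e | e⟩ := inJ_pr_of_orth (.inr h) (isClosed_inJ _ (inJ_simple_iff.2 (.inl rfl))
      _ (inJ_simple_iff.2 (.inr rfl)) k hk)
    · rcases ha with rfl | rfl
      exacts [hk.ne_left (simple_ne_neg _ _) e, hk.symm.ne_left (simple_ne_neg _ _) e]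
    · exact isPos_neg_iff.1 (e ▸ hk.isPos (isPos_simple _) (isPos_simple _)) (isPos_simple a)
  simp only [List.forall_mem_cons, List.not_mem_nil, false_imp_iff, implies_true, and_true]
  exact ⟨⟨C.commute_of_not_between (simple_ne_neg _ _) h2, C.commute_of_not_between
    (R.neg_injective.ne (R.simple_injective.ne h1.symm)) (not_between_simple_neg h1)⟩,
    fun t u => (C.commute_of_not_between (R.neg_injective.ne (R.simple_injective.ne h1))
      (not_between_simple_neg h1.symm) u t).symm, C.commute_of_not_between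
        (R.neg_injective.ne (simple_ne_neg _ _)) fun k hk => h2 _ (by simpa using hk.neg)⟩

theorem levA_of_A [Fintype Φ] (hq : ∀ a b c : F, ∃ t, t ≠ a ∧ t ≠ b ∧ t ≠ c) (hF : C.Faithful)
    (hM : C.HMul) (hT : T.StrongComm C.x) (hA : T.Anti) {k : ℕ} (hk : 2 ≤ k) {ρ : Fin k → ι}
    (hρ : ∀ i j, R.A (ρ i) (ρ j) = (rootA k).A i j) {y : Φ → ℤ} (hy : y ∈ Qv R)
    (hy' : ∀ j, y (R.simple (ρ j)) = if j.val = 0 then 1 else 0) : LevA C (Set.range ρ) := by
  obtain ⟨φ, h1, h2⟩ := exists_hom_A hM hT hA hρ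
  have h3 : ∀ σ c, φ (prodT σ c) =
      ((List.finRange k).map fun j => C.x (R.simple (ρ (σ j))) (c j)).prod := fun σ c => by
    simp [prodT, map_list_prod, Function.comp_def, h1]
  have h4 : ∀ {n w c}, C.Acts n w c → ∀ σ : Fin k → Fin k,
      (∀ j, w (R.simple (ρ j)) = R.simple (ρ (σ j))) → n * φ (prodT id 1) * n⁻¹ =
        φ (prodT σ fun j => c (R.simple (ρ j))) := fun {n w c} h σ hσ => by
    rw [h3, h3, ← MulAut.conj_apply, map_list_prod]
    simp [Function.comp_def, h.conj, hσ]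
  have h5 : ∀ A, φ A ∈ C.LJ (Set.range ρ) := fun A => Subgroup.mem_sup_right
    ((realSL F k).sys.grp_le_of_simple (K := (C.XS _).comap φ)
      (fun i t => (h1 i t).symm ▸ C.x_mem (S := {r | R.InJ (Set.range ρ) r})
        (inJ_simple_iff.2 ⟨i, rfl⟩) t : ∀ i t, φ _ ∈ _)
      (fun i t => (h2 i t).symm ▸ C.x_mem (S := {r | R.InJ (Set.range ρ) r})
        (inJ_simple_iff.2 (Set.mem_range_self i)).neg t : ∀ i t, φ _ ∈ _)
      ((realSL F k).grp_eq ▸ Subgroup.mem_top A))
  have h6 : ∀ A, Reg A → ConjK (C.LJ (Set.range ρ)) (φ (prodT id 1)) (φ A) := fun A h => by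
    obtain ⟨d, s, rfl⟩ := h.exists_conj
    obtain ⟨z, hz, hz'⟩ := exists_acts_of_Qv C hy d
    refine (conjK_conj (Subgroup.mem_sup_left hz) _).trans ⟨_, h5 s, ?_⟩
    rw [h4 hz' id fun _ => rfl, map_mul, map_mul, map_inv]
    simp only [hy', apply_ite fun m : ℤ => ((d ^ m : Fˣ) : F), zpow_one, zpow_zero,
      Units.val_one]
  have h7 := reg_prodT (F := F) (k := k) (c := 1) Function.injective_id fun _ => one_ne_zero
  refine ⟨φ (prodT id 1), h3 _ _ ▸ list_prod_mem fun g hg => ?_, fun v hv u hu => ?_,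
    fun n w c h hw => ?_⟩
  · obtain ⟨j, -, rfl⟩ := List.mem_map.1 hg
    exact C.x_mem (simple_mem_posJ (Set.mem_range_self _)) _
  · obtain ⟨A, e⟩ : v * u ∈ φ.range := C.XS_inJ_le (J := Set.range ρ)
      (by rintro _ ⟨i, rfl⟩ t; exact ⟨_, h1 i t⟩) (by rintro _ ⟨i, rfl⟩ t; exact ⟨_, h2 i t⟩)
      (mul_mem (C.XS_mono (fun _ h => h.2) hv) (C.XS_mono (fun _ h => h.2) hu))
    by_cases hc : A ∈ Subgroup.center _
    · have h8 : v * u ∈ C.H := by
        obtain ⟨c, -, rfl⟩ := (realSL F k).center_eq ▸ hc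
        have := (realSL F k).hMul.torus_mem_H c
        rw [(realSL F k).hMul.H_eq_closure] at this
        refine e ▸ (Subgroup.closure_le (C.H.comap φ)).2 ?_ this
        rintro _ ⟨i, t, rfl⟩
        have : φ ((realSL F k).sys.h ((rootA k).simple i) t) = C.h (R.simple (ρ i)) t := by
          simp only [PreSys.h, PreSys.n, map_mul, MinRep.Real.sys_x, h1, h2]
        exact (this.symm ▸ C.h_mem_H _ _ : φ _ ∈ _)
      have h9 : v = 1 := hF.eq_one_of_B_V ((C.B.mul_mem_cancel_right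
        (C.U_le_B (XS_posJ_le_U _ hu))).1 (C.H_le_B h8)) (XS_negJ_le_V _ hv)
      rw [h9, one_mul] at h8 ⊢
      exact ⟨_, _, h6 _ h7.inv, h6 _ h7, by simp [hF.eq_one_of_U_H (XS_posJ_le_U _ hu) h8]⟩
    · obtain ⟨B, B', h8, h9, rfl⟩ := exists_reg_mul hq hk hc
      exact ⟨_, _, h6 _ h8, h6 _ h9, by rw [← e, map_mul]⟩
  · choose σ hσ using fun j => show ∃ i, w (R.simple (ρ j)) = R.simple (ρ i) from
      let ⟨_, ⟨i, e⟩, h⟩ := hw _ ⟨j, rfl⟩; ⟨i, e ▸ h⟩
    rw [h4 h σ hσ]
    refine h6 _ (reg_prodT (fun i j e => ?_) fun _ => Units.ne_zero _)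
    have h8 := hρ i j
    rw [R.simple_injective (w.injective ((hσ i).trans (e ▸ (hσ j).symm))), R.A_diag, A_A] at h8
    split_ifs at h8 <;> first | assumption | omega

/-- the data on a root system -/
def TD (R : RootSys ι Φ) : Prop := ∃ (k : ℕ) (ρ : Fin k → ι) (f y : Φ → ℤ), k ≠ 1 ∧
  (∀ i j, R.A (ρ i) (ρ j) = (rootA k).A i j) ∧ f ∈ Qv R ∧ y ∈ Qv R ∧ (∀ j, f (R.simple (ρ j)) = 0) ∧
    (∀ i, (∀ j, ρ j ≠ i) → 0 < f (R.simple i)) ∧ (∀ r, f r < 8) ∧
      (∃ w ∈ R.W, ∀ s, f (w s) = -f s) ∧ ∀ j, y (R.simple (ρ j)) = if j.val = 0 then 1 else 0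

theorem TD.sq [Fintype Φ] [Finite F] [Nonempty ι] (h : TD R) (hq : 9 ≤ Nat.card F)
    (hF : C.Faithful) (htop : C.grp = ⊤) (hc : R.Conn) (hA : C.Adjoint) (hT : T.StrongComm C.x)
    (hT' : T.Anti) : ∃ c : G, ∀ g, Sq c g := by
  classical
  obtain ⟨k, ρ, f, y, hk, h1, h2, h3, h4, h5, h6, h7, h8⟩ := h
  have h9 : ∀ a b c : F, ∃ t, t ≠ a ∧ t ≠ b ∧ t ≠ c := fun a b c => by
    simpa using exists_ne_of_card (n := 3) (by omega) [a, b, c] le_rfl
  have := hF.isSimpleGroup hA htop hc (eq_top_iff.2 (htop ▸ grp_le_commutator hT (.inl (h9 _ _ _))))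
  refine sq_of_levA hq hF htop hc hA (J := Set.range ρ) ?_ h2 (by rintro _ ⟨j, rfl⟩; exact h4 j)
    (fun i hi => h5 i fun j e => hi ⟨j, e⟩) h6 h7
  rcases Nat.eq_zero_or_pos k with rfl | h
  · rw [Set.range_eq_empty]
    exact levA_empty
  · exact levA_of_A h9 hF hA.hMul hT hT' (by omega) h1 h3 h8

end Cfsg.Lib.CC
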