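import Cfsg.Agent.Lib.CC.TitsE
import Cfsg.Agent.Lib.CC.Basic
import Cfsg.Agent.Lib.Tits.Over

/-!
Every non-identity element of the Tits group is a product of two conjugates of an element of
order five.
-/

namespace Cfsg.Lib.CC
open Cfsg.Lib.Tits Cfsg.Lib.Calc Cfsg.Lib.F2 Cfsg.Lib.St Cfsg.Lib.BN Subgroup

section Red
variable {ι W G : Type*} [Group W] [Group G] {s : ι → W} (T : St.Tits G s Set.univ) {n : ι → G}

theorem δ_wp (hn : ∀ i, T.δ (n i) = s i) :
    ∀ l : List ι, len s (wp s l) = l.length → T.δ (wp n l) = wp s l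
  | [], _ => T.δ_one
  | i :: l, hr => by
    have h1 := T.invGen.reduced_tail hr
    have h2 := δ_wp hn l h1
    rw [wp_cons, T.simple_mul_of_le (hn i), h2, wp_cons]
    rw [h2, ← wp_cons, hr, h1]; simp

theorem eq_alt (h : InvGen s) {a b : ι} (hc : ∀ i, i = a ∨ i = b) :
    ∀ l : List ι, len s (wp s l) = l.length → l = alt a b l.length ∨ l = alt b a l.length
  | [], _ => .inl rfl
  | [i], _ => by rcases hc i with rfl | rfl; exacts [.inl rfl, .inr rfl]
  | i :: j :: l, hr => by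
    have h1 : i ≠ j := by
      rintro rfl
      have := len_wp_le s l
      rw [wp_cons, wp_cons, ← mul_assoc, h.sq, one_mul] at hr
      simp only [List.length_cons] at hr
      omega
    rcases eq_alt h hc (j :: l) (h.reduced_tail hr) with e | e
    · obtain rfl : i = b := (hc i).resolve_left fun e' => h1 (e'.trans (List.cons.inj e).1.symm)
      exact .inr (congrArg (i :: ·) e)
    · obtain rfl : i = a := (hc i).resolve_right fun e' => h1 (e'.trans (List.cons.inj e).1.symm)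
      exact .inl (congrArg (i :: ·) e)

theorem alt_le (hn : ∀ i, T.δ (n i) = s i) {a b : ι} (h8 : wp n (alt a b 8) = wp n (alt b a 8))
    {k : ℕ} (hr : len s (wp s (alt a b k)) = k) : k ≤ 8 := by
  by_contra hk
  obtain ⟨r, rfl⟩ : ∃ r, k = r + 9 := ⟨k - 9, by omega⟩
  have h1 : len s (wp s (alt a b 9)) = (alt a b 9).length :=
    T.invGen.reduced_left (l' := alt b a r) (hr.trans (length_alt a b (r + 9)).symm)
  have h2 := δ_wp T hn (alt b a 8) (T.invGen.reduced_tail h1)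
  have h3 := δ_wp T hn (alt a b 8) (T.invGen.reduced_left (l' := [a]) h1)
  have h4 := len_wp_le s (alt b a 7)
  rw [alt_succ, wp_cons, ← h2, ← h8, h3, alt_succ a b 7, wp_cons, ← mul_assoc, T.invGen.sq,
    one_mul] at h1
  simp only [List.length_cons, length_alt] at h1 h4
  omega

theorem red (hn : ∀ i, T.δ (n i) = s i) {a b : ι} (hc : ∀ i, i = a ∨ i = b)
    (h8 : wp n (alt a b 8) = wp n (alt b a 8)) {P : G → Prop}
    (hP : ∀ g c, P (c⁻¹ * g * c) → P g)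
    (h : ∀ l ∈ [[], [a], [b], alt a b 2, alt a b 4, alt a b 6, alt a b 8], ∀ u ∈ T.B,
      P (wp n l * u)) (g : G) : P g := by
  induction hk : len s (T.δ g) using Nat.strong_induction_on generalizing g with
  | _ k ih =>
  have h0 : ∀ l ∈ [[], [a], [b], alt a b 2, alt a b 4, alt a b 6, alt a b 8], l.length ≤ k →
      ∀ g, T.δ g = wp s l → P g := fun l hl hk g hg => by
    rcases (len_wp_le s l).eq_or_lt with e | e
    · obtain ⟨c, h1, d, h2, rfl⟩ := T.eq_of ((δ_wp T hn l e).trans hg.symm)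
      exact hP _ c (by simpa [mul_assoc] using h l hl _ (mul_mem h2 h1))
    · exact ih _ (hg ▸ e.trans_le hk) g rfl
  obtain ⟨l, h1, h2⟩ := T.invGen.exists_reduced (T.δ g)
  have h3 : len s (wp s l) = l.length := by rw [h2, h1]
  have hs : ∀ i m, l = i :: m → (∀ g, T.δ g = wp s (m ++ [i]) → P g) → P g := by
    rintro i m rfl h4
    obtain ⟨x, y, h5, h6, rfl⟩ := T.split_cons (fun _ _ => Set.mem_univ _) h3 h2.symm
    refine hP _ x ?_
    rw [← mul_assoc, inv_mul_cancel, one_mul]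
    rcases T.mul_simple y h5 with e | e
    · exact h4 _ (by simp [e, h6])
    · exact ih _ (by rw [e, h6, T.invGen.reduced_tail h3, ← hk, ← h1]; simp) _ rfl
  have ho : ∀ i m, l = i :: (m ++ [i]) → P g := fun i m e => hs i _ e fun g' h4 => by
    refine ih _ ?_ g' rfl
    have := len_wp_le s m
    rw [h4, wp_append, wp_append, mul_assoc, wp_singleton, T.invGen.sq, mul_one, ← hk, ← h1, e]
    simp only [List.length_cons, List.length_append]
    omega
  rw [hk] at h1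
  rcases eq_alt T.invGen hc l h3 with e | e <;> rw [h1] at e h3
  · have := alt_le T hn h8 (e ▸ h3)
    rw [e] at h2
    interval_cases k
    exacts [h0 [] (by simp) le_rfl g h2.symm, h0 [a] (by simp) le_rfl g h2.symm,
      h0 _ (by simp) le_rfl g h2.symm, ho a [b] e, h0 _ (by simp) le_rfl g h2.symm,
      ho a [b, a, b] e, h0 _ (by simp) le_rfl g h2.symm, ho a [b, a, b, a, b] e,
      h0 _ (by simp) le_rfl g h2.symm]
  · have := alt_le T hn h8.symm (e ▸ h3)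
    rw [e] at h2
    interval_cases k
    exacts [h0 [] (by simp) le_rfl g h2.symm, h0 [b] (by simp) le_rfl g h2.symm,
      hs b _ e (h0 (alt a b 2) (by simp) le_rfl), ho b [a] e,
      hs b _ e (h0 (alt a b 4) (by simp) le_rfl), ho b [a, b, a] e,
      hs b _ e (h0 (alt a b 6) (by simp) le_rfl), ho b [a, b, a, b, a] e,
      hs b _ e (h0 (alt a b 8) (by simp) le_rfl)]

end Red

/-- order five -/
def O5 (y : Γ) : Prop := y ≠ 1 ∧ y ^ 5 = 1

theorem five_spec {z : Γ} {Z : ℕ} (h : R z Z) (e : five o52 Z = true) : z ^ 5 = 1 := by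
  rw [five, forceB_eq] at e
  simpa [pow_succ, mul_assoc] using E.eq (E.mf (E.mf (E.mf h h) (E.mf h h)) h) E.one e

theorem yw_five (j : ℕ) : (yw.map (ev gl)).getD j 1 ^ 5 = 1 := by
  rw [List.getD_eq_getElem?_getD]
  rcases e : (yw.map (ev gl))[j]? with _ | y
  · simp
  obtain ⟨w, hw, rfl⟩ := List.mem_map.1 (List.mem_of_getElem? e)
  exact five_spec (RG w) (List.all_eq_true.1 chk_yw _ (List.mem_map_of_mem hw))

theorem cell_spec {w : List ℕ} {c : ℕ} (h : cell w c = true) {u : Γ} (hu : u ∈ U0)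
    (h1 : ev gl w * u ≠ 1) : ∃ y z, O5 y ∧ O5 z ∧ ev gl w * u = y * z := by
  simp only [cell, forceB_eq, forceL_eq] at h
  obtain ⟨C, j, h2, h3⟩ := allC_spec E (RWs U0w) pc2.1 (RG w) h hu
  simp only [leaf, forceB_eq, bor_eq_true, band_eq_true] at h3
  have h4 := E.nth (E.wrds rl_gl yw) (get 8 c j)
  rcases h3 with h3 | ⟨h3, h5, h6⟩
  · exact absurd (E.eq h2 E.one h3) h1
  · exact ⟨_, _, ⟨inv_ne_one.2 (E.ne h4 E.one h3), by rw [inv_pow, yw_five, inv_one]⟩,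
      ⟨E.ne (E.mf h4 h2) E.one h5, five_spec (E.mf h4 h2) h6⟩, (inv_mul_cancel_left _ _).symm⟩

theorem ev_append {G : Type*} [Group G] (l : List G) (w w' : List ℕ) : ev l (w ++ w') = ev l w * ev l w' := by
  simp [ev]

/-- lifts of the simple reflections -/
noncomputable def nn : L.ι → Γ := fun i : Fin 2 => ev gl [i.val + 2]

theorem nn0 : nn i0 = n0 := by simp [nn, i0, ev, gl]
theorem nn1 : nn i1 = n1 := by simp [nn, i1, ev, gl]

theorem wp_nn (l : List L.ι) : wp nn l = ev gl (l.map fun i : Fin 2 => i.val + 2) := by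
  induction l with
  | nil => rfl
  | cons i l ih => rw [wp_cons, ih]; exact (ev_append gl [_] _).symm

theorem exists_o5 (g : Γ) : g ∈ TT → g ≠ 1 → ∃ y z, O5 y ∧ O5 z ∧ g = y * z := by
  refine red L.T (n := nn) (P := fun g => g ∈ TT → g ≠ 1 → ∃ y z, O5 y ∧ O5 z ∧ g = y * z)
    (fun i => ?_) ι_cases ?_ (fun g c h h1 h2 => ?_) (fun l hl u hu h1 h2 => ?_) g
  · rcases ι_cases i with rfl | rfl
    exacts [nn0 ▸ δn0, nn1 ▸ δn1]
  · rw [wp_nn, wp_nn]
    exact E.ev_eq rl_gl (w := [2, 3, 2, 3, 2, 3, 2, 3]) (w' := [3, 2, 3, 2, 3, 2, 3, 2])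
      (by decide +kernel)
  · have k : ∀ y, O5 y → O5 (c * y * c⁻¹) := fun y hy =>
      ⟨by simpa using hy.1, by rw [conj_pow, hy.2]; simp⟩
    obtain ⟨y, z, h3, h4, e⟩ := h ((inferInstance : TT.Normal).conj_mem' _ h1 c)
      (by simpa [mul_assoc, inv_mul_eq_one, eq_comm] using h2)
    exact ⟨_, _, k y h3, k z h4, by rw [conj_mul, ← e]; group⟩
  · have h3 : wp nn l ∈ TT := wp_mem fun i _ => by
      rcases ι_cases i with rfl | rfl
      exacts [nn0 ▸ n0_mem, nn1 ▸ n1_mem]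
    have h4 : u ∈ U0 := TT_inf ▸ mem_inf.2 ⟨(mul_mem_cancel_left h3).1 h1, B_eq ▸ hu⟩
    rw [wp_nn] at h2 ⊢
    simp only [List.mem_cons, List.not_mem_nil, or_false] at hl
    rcases hl with rfl | rfl | rfl | rfl | rfl | rfl | rfl
    exacts [cell_spec chk_c0 h4 h2, cell_spec chk_c1 h4 h2, cell_spec chk_c2 h4 h2,
      cell_spec chk_c3 h4 h2, cell_spec chk_c4 h4 h2, cell_spec chk_c5 h4 h2,
      cell_spec chk_c6 h4 h2]

/-- an element of order five -/
noncomputable def f1 : Γ := ev gl [1, 1, 3]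
/-- an element of order five -/
noncomputable def f2 : Γ := ev gl [3, 2, 3, 2, 1, 1, 3, 2, 3, 2, 3]

/-- conjugating words -/
def cw : List (List ℕ) := [[], [2, 3, 2], [2, 3, 2, 3, 1], [2, 3, 2, 1], [2, 3, 2, 3], [],
  [3, 2, 1, 3, 2, 1, 0, 3, 0, 1, 3, 1, 2], [2, 0, 1, 3, 1, 2, 3, 1, 0, 3, 0, 1, 2],
  [2, 1, 0, 3, 0, 2, 3, 1, 3, 0, 1, 2, 3], [2, 0, 3, 0, 1, 3, 2, 3, 1, 0, 1, 1, 2], [3, 1],
  [2, 1, 0, 3, 0, 2, 3, 1, 3, 0, 1, 2, 1], [1, 2, 1, 0, 3, 0, 2, 3, 1, 3, 0, 1, 2],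
  [2, 1, 3, 2, 1, 0, 3, 0, 1, 3, 1, 2, 1], [2, 3, 1, 0, 3, 0, 2, 3, 1, 3, 0, 1, 2], [1],
  [2, 0, 1, 3, 1, 2, 3, 1, 0, 3, 0, 1, 2, 1], [2, 1, 3, 2, 3, 2, 1, 2, 1, 1, 1, 3, 2],
  [2, 1, 3, 2, 3, 2, 1, 2, 1, 1, 1, 2], [2, 1, 0, 3, 0, 2, 3, 1, 3, 0, 1, 2, 3, 1], [3],
  [2, 1, 3, 2, 1, 0, 3, 0, 1, 3, 1, 2], [2, 1, 0, 3, 0, 2, 3, 1, 3, 0, 1, 2],
  [1, 2, 1, 3, 2, 3, 2, 1, 2, 1, 1, 1, 2], [2, 1, 3, 2, 3, 2, 1, 2, 1, 1, 1, 2, 1]]

theorem isConj_of_mul {G : Type*} [Group G] {c x d : G} (h : c * x = d * c) : IsConj x d :=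
  isConj_iff.2 ⟨c, mul_inv_eq_of_eq_mul h⟩

theorem ev_rep {G : Type*} [Group G] (l : List G) (w : List ℕ) (k : ℕ) :
    ev l (List.replicate k w).flatten = ev l w ^ k := by
  induction k with
  | zero => simp [ev]
  | succ k ih => rw [List.replicate_succ, List.flatten_cons, ev_append, ih, pow_succ']

theorem chk_cw : ∀ i < 5, ∀ j < 5, i + j = 0 ∨ Nat.beq (cG (cw.getD (5 * i + j) [] ++ [1, 1, 3]))
    (cG (((List.replicate i [1, 1, 3]).flatten ++
      (List.replicate j [3, 2, 3, 2, 1, 1, 3, 2, 3, 2, 3]).flatten) ++ cw.getD (5 * i + j) [])) =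
      true := by
  decide +kernel

theorem f1_five : f1 ^ 5 = 1 := five_spec (RG _) (by decide +kernel)
theorem f2_five : f2 ^ 5 = 1 := five_spec (RG _) (by decide +kernel)
theorem f1_ne : f1 ≠ 1 := E.ne (RG _) E.one (by decide +kernel)

theorem comm_f : Commute f1 f2 :=
  E.eq (E.mf (RG _) (RG _)) (E.mf (RG _) (RG _)) (by decide +kernel)

theorem comm_c : Commute (W [4]) f1 :=
  E.eq (E.mf (RW _) (RG _)) (E.mf (RG _) (RW _)) (by decide +kernel)

theorem not_comm_c : ¬ Commute (W [4]) f2 :=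
  E.ne (E.mf (RW _) (RG _)) (E.mf (RG _) (RW _)) (by decide +kernel)

theorem exists_conj_pow {G : Type*} [Group G] [Finite G] {p : ℕ} [hp : Fact p.Prime] {x y c z : G}
    (h0 : (Nat.card G).factorization p = 2) (hx : x ^ p = 1) (hy : y ^ p = 1) (h1 : x ≠ 1)
    (hc : Commute x y) (h2 : Commute c x) (h3 : ¬ Commute c y) (hz : z ^ p = 1) :
    ∃ i < p, ∃ j < p, IsConj z (x ^ i * y ^ j) := by
  obtain ⟨r, hr⟩ : ∃ r, p = r + 1 := ⟨p - 1, by have := hp.1.pos; omega⟩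
  let K : Subgroup G :=
    { carrier := {g | ∃ i j : ℕ, g = x ^ i * y ^ j}
      one_mem' := ⟨0, 0, by simp⟩
      mul_mem' := by
        rintro _ _ ⟨i, j, rfl⟩ ⟨k, l, rfl⟩
        exact ⟨i + k, j + l, by rw [(hc.symm.pow_pow j k).mul_mul_mul_comm, pow_add, pow_add]⟩
      inv_mem' := by
        rintro _ ⟨i, j, rfl⟩
        refine ⟨r * i, r * j, inv_eq_of_mul_eq_one_right ?_⟩
        rw [(hc.symm.pow_pow _ _).mul_mul_mul_comm, ← pow_add, ← pow_add,
          show i + r * i = p * i by rw [hr]; ring, show j + r * j = p * j by rw [hr]; ring]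
        simp [pow_mul, hx, hy] }
  have h4 : IsPGroup p K := by
    rintro ⟨_, i, j, rfl⟩
    refine ⟨1, Subtype.ext ?_⟩
    change (x ^ i * y ^ j) ^ p ^ 1 = 1
    rw [pow_one, (hc.pow_pow i j).mul_pow, pow_right_comm, pow_right_comm y, hx, hy]; simp
  obtain ⟨k, hk⟩ := h4.exists_card_eq
  have h5 : zpowers x < K := (zpowers_le.2 (⟨1, 0, by simp⟩ : x ∈ K)).lt_of_ne fun e => by
    obtain ⟨m, hm⟩ := e.ge (⟨0, 1, by simp⟩ : y ∈ K)
    exact h3 (hm ▸ h2.zpow_right m)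
  have h6 := Set.Finite.card_lt_card (Set.toFinite _) h5
  erw [Nat.card_zpowers, orderOf_eq_prime hx h1, hk] at h6
  have h7 : 1 < k := (Nat.pow_lt_pow_iff_right hp.1.one_lt).1 ((pow_one p).trans_lt h6)
  have h8 : k ≤ 2 := h0 ▸ (hp.1.pow_dvd_iff_le_factorization Nat.card_pos.ne').1
    (hk ▸ K.card_subgroup_dvd_card)
  obtain ⟨Q, hQ⟩ := (IsPGroup.of_card_dvd_pow (p := p) (n := 1) (G := zpowers z) (by
    rw [Nat.card_zpowers, pow_one]; exact orderOf_dvd_of_pow_eq_one hz)).exists_le_sylow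
  obtain ⟨g, hg⟩ := MulAction.exists_smul_eq G Q
    (Sylow.ofCard K (by rw [hk, h0, show k = 2 by omega]))
  have h9 : g * z * g⁻¹ ∈ K := by
    have : g * z * g⁻¹ ∈ (g • Q : Sylow p G) := ⟨z, hQ (mem_zpowers z), rfl⟩
    rwa [hg] at this
  obtain ⟨i, j, e⟩ := h9
  rw [pow_eq_pow_mod i hx, pow_eq_pow_mod j hy] at e
  exact ⟨_, Nat.mod_lt i hp.1.pos, _, Nat.mod_lt j hp.1.pos, isConj_iff.2 ⟨g, e⟩⟩

theorem O5.isConj {y : Γ} (h : O5 y) : IsConj f1 y := by
  have := Fact.mk Nat.prime_five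
  have h0 : (Nat.card Γ).factorization 5 = 2 := by
    rw [card_Γ, show 35942400 = 5 ^ 2 * 1437696 from rfl]
    rw [Nat.factorization_mul (by norm_num) (by norm_num), Nat.Prime.factorization_pow this.1,
      Finsupp.add_apply, Nat.factorization_eq_zero_of_not_dvd (by norm_num)]
    simp
  obtain ⟨i, hi, j, hj, e⟩ := exists_conj_pow h0 f1_five f2_five f1_ne comm_f comm_c not_comm_c h.2
  rcases chk_cw i hi j hj with h2 | h2
  · rw [show i = 0 by omega, show j = 0 by omega, pow_zero, pow_zero, one_mul,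
      isConj_one_left] at e
    exact absurd e h.1
  · have h3 := E.ev_eq rl_gl h2
    rw [ev_append, ev_append, ev_append, ev_rep, ev_rep] at h3
    exact (isConj_of_mul h3).trans e.symm

theorem f1_mem : f1 ∈ TT := by
  simpa [f1, ev, gl, mul_assoc] using mul_mem (U0_le_TT bb_mem) n1_mem

theorem W4_odd : W [4] ∉ TT := fun h => b_not_mem_TT (by
  have e : W [4] = ev gl [3, 2, 3, 2] * b * (ev gl [3, 2, 3, 2])⁻¹ :=
    eq_mul_inv_of_mul_eq (E.eq (E.mf (RW _) (RG _)) (E.mf (RG _) Rb) (by decide +kernel))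
  rw [e] at h
  generalize ev gl [3, 2, 3, 2] = c at h
  simpa [mul_assoc] using (inferInstance : TT.Normal).conj_mem' _ h c)

theorem exists_TT (g : Γ) : ∃ u ∈ TT, g * f1 * g⁻¹ = u * f1 * u⁻¹ := by
  by_cases h : g ∈ TT
  · exact ⟨g, h, rfl⟩
  · refine ⟨g * W [4], (mul_mem_iff_of_index_two index_TT).2 (iff_of_false h W4_odd), ?_⟩
    rw [mul_assoc g (W [4]), comm_c.eq, mul_inv_rev, ← mul_assoc g, mul_assoc (g * f1),
      mul_inv_cancel_left]

theorem sq_Tits : ∃ x : TT, ¬ 2 ∣ orderOf x ∧ ∀ g : TT, g ≠ 1 → Sq x g := by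
  have := Fact.mk Nat.prime_five
  refine ⟨⟨f1, f1_mem⟩, ?_, fun g hg => ?_⟩
  · rw [← orderOf_coe, orderOf_eq_prime f1_five f1_ne]; norm_num
  obtain ⟨y, z, h1, h2, e⟩ := exists_o5 g g.2 (by simpa using hg)
  obtain ⟨c, rfl⟩ := isConj_iff.1 h1.isConj
  obtain ⟨d, rfl⟩ := isConj_iff.1 h2.isConj
  obtain ⟨u, hu, e1⟩ := exists_TT c
  obtain ⟨v, hv, e2⟩ := exists_TT d
  exact ⟨⟨u, hu⟩, ⟨v, hv⟩, Subtype.ext (by simpa [e1, e2] using e)⟩

end Cfsg.Lib.CC
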